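import Mathlib
import Cfsg.Agent.S5645
import Cfsg.Agent.S5646
import Cfsg.Agent.Lib.Helper5.Symp

set_option autoImplicit false
open Cfsg

namespace Cfsg.Agent.Lib.Helper13.AltFrame

open Matrix
open Cfsg.Agent.S5645

variable {ι : Type} [Fintype ι] [DecidableEq ι] {F : Type*} [Field F]
variable {κ κ' : Type} [Fintype κ] [DecidableEq κ] [Fintype κ'] [DecidableEq κ']

/-! ### abstract frames -/

/-- abstract frame: coordinates on `M` carrying `f` to `f₀` -/
structure AFrame (f : (ι → F) → (ι → F) → F) (M : Submodule F (ι → F))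
    (f₀ : (κ → F) → (κ → F) → F) (syn : (κ → F) →ₗ[F] (ι → F))
    (ana : (ι → F) →ₗ[F] (κ → F)) : Prop where
  mem : ∀ a, syn a ∈ M
  ana_syn : ∀ a, ana (syn a) = a
  syn_ana : ∀ w ∈ M, syn (ana w) = w
  form : ∀ a b, f (syn a) (syn b) = f₀ a b

/-- two frames for an orthogonal decomposition -/
structure ASplit (f : (ι → F) → (ι → F) → F) (W U : Submodule F (ι → F))
    (f₁ : (κ → F) → (κ → F) → F) (f₂ : (κ' → F) → (κ' → F) → F)
    (syn₁ : (κ → F) →ₗ[F] (ι → F)) (ana₁ : (ι → F) →ₗ[F] (κ → F))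
    (syn₂ : (κ' → F) →ₗ[F] (ι → F)) (ana₂ : (ι → F) →ₗ[F] (κ' → F)) : Prop where
  FW : AFrame f W f₁ syn₁ ana₁
  FU : AFrame f U f₂ syn₂ ana₂
  add_left : ∀ x y v, f (x + y) v = f x v + f y v
  add_right : ∀ v x y, f v (x + y) = f v x + f v y
  orthWU : ∀ w ∈ W, ∀ u ∈ U, f w u = 0
  orthUW : ∀ u ∈ U, ∀ w ∈ W, f u w = 0
  dec : ∀ x : ι → F, ∃ w ∈ W, ∃ u ∈ U, x = w + u
  anaU : ∀ u ∈ U, ana₁ u = 0
  anaW : ∀ w ∈ W, ana₂ w = 0

variable {f : (ι → F) → (ι → F) → F} {W U : Submodule F (ι → F)}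
variable {f₁ : (κ → F) → (κ → F) → F} {f₂ : (κ' → F) → (κ' → F) → F}
variable {syn₁ : (κ → F) →ₗ[F] (ι → F)} {ana₁ : (ι → F) →ₗ[F] (κ → F)}
variable {syn₂ : (κ' → F) →ₗ[F] (ι → F)} {ana₂ : (ι → F) →ₗ[F] (κ' → F)}

theorem complete (S : ASplit f W U f₁ f₂ syn₁ ana₁ syn₂ ana₂) (x : ι → F) :
    x = syn₁ (ana₁ x) + syn₂ (ana₂ x) := by
  obtain ⟨w, hw, u, hu, rfl⟩ := S.dec x
  have h1 : ana₁ (w + u) = ana₁ w := by rw [map_add, S.anaU u hu, add_zero]
  have h2 : ana₂ (w + u) = ana₂ u := by rw [map_add, S.anaW w hw, zero_add]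
  rw [h1, h2, S.FW.syn_ana w hw, S.FU.syn_ana u hu]

theorem split_form (S : ASplit f W U f₁ f₂ syn₁ ana₁ syn₂ ana₂) (a a' : κ → F)
    (b b' : κ' → F) :
    f (syn₁ a + syn₂ b) (syn₁ a' + syn₂ b') = f₁ a a' + f₂ b b' := by
  rw [S.add_left, S.add_right, S.add_right, S.orthWU _ (S.FW.mem a) _ (S.FU.mem b'),
    S.orthUW _ (S.FU.mem b) _ (S.FW.mem a'), S.FW.form, S.FU.form]
  ring

/-- the matrix of `g` in the coordinates of a frame -/
noncomputable def A₁ (syn : (κ → F) →ₗ[F] (ι → F)) (ana : (ι → F) →ₗ[F] (κ → F))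
    (g : Matrix ι ι F) : Matrix κ κ F :=
  LinearMap.toMatrix' (ana.comp ((Matrix.toLin' g).comp syn))

theorem A₁_mulVec (syn : (κ → F) →ₗ[F] (ι → F)) (ana : (ι → F) →ₗ[F] (κ → F))
    (g : Matrix ι ι F) (a : κ → F) : A₁ syn ana g *ᵥ a = ana (g *ᵥ syn a) := by
  rw [A₁, LinearMap.toMatrix'_mulVec]
  rfl

/-- the matrix acting as `A` and `B` in the coordinates of two frames -/
noncomputable def Lm (syn₁ : (κ → F) →ₗ[F] (ι → F)) (ana₁ : (ι → F) →ₗ[F] (κ → F))
    (syn₂ : (κ' → F) →ₗ[F] (ι → F)) (ana₂ : (ι → F) →ₗ[F] (κ' → F))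
    (A : Matrix κ κ F) (B : Matrix κ' κ' F) : Matrix ι ι F :=
  LinearMap.toMatrix' (syn₁.comp ((Matrix.toLin' A).comp ana₁) +
    syn₂.comp ((Matrix.toLin' B).comp ana₂))

theorem Lm_mulVec (syn₁ : (κ → F) →ₗ[F] (ι → F)) (ana₁ : (ι → F) →ₗ[F] (κ → F))
    (syn₂ : (κ' → F) →ₗ[F] (ι → F)) (ana₂ : (ι → F) →ₗ[F] (κ' → F))
    (A : Matrix κ κ F) (B : Matrix κ' κ' F) (x : ι → F) :
    Lm syn₁ ana₁ syn₂ ana₂ A B *ᵥ x = syn₁ (A *ᵥ ana₁ x) + syn₂ (B *ᵥ ana₂ x) := by
  rw [Lm, LinearMap.toMatrix'_mulVec]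
  rfl

theorem star {M : Submodule F (ι → F)} {f₀ : (κ → F) → (κ → F) → F}
    {syn : (κ → F) →ₗ[F] (ι → F)} {ana : (ι → F) →ₗ[F] (κ → F)}
    (Fr : AFrame f M f₀ syn ana) (g : Matrix ι ι F) (hg : ∀ w ∈ M, g *ᵥ w ∈ M) (a : κ → F) :
    g *ᵥ syn a = syn (A₁ syn ana g *ᵥ a) := by
  rw [A₁_mulVec, Fr.syn_ana _ (hg _ (Fr.mem a))]

theorem A₁_mul {M : Submodule F (ι → F)} {f₀ : (κ → F) → (κ → F) → F}
    {syn : (κ → F) →ₗ[F] (ι → F)} {ana : (ι → F) →ₗ[F] (κ → F)}
    (Fr : AFrame f M f₀ syn ana) (g h : Matrix ι ι F) (hh : ∀ w ∈ M, h *ᵥ w ∈ M) :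
    A₁ syn ana (g * h) = A₁ syn ana g * A₁ syn ana h := by
  rw [Matrix.ext_iff_mulVec]
  intro a
  rw [A₁_mulVec, ← Matrix.mulVec_mulVec, star Fr h hh a, ← A₁_mulVec, Matrix.mulVec_mulVec]

theorem A₁_isom {M : Submodule F (ι → F)} {f₀ : (κ → F) → (κ → F) → F}
    {syn : (κ → F) →ₗ[F] (ι → F)} {ana : (ι → F) →ₗ[F] (κ → F)}
    (Fr : AFrame f M f₀ syn ana) (g : Matrix ι ι F)
    (hg : ∀ w ∈ M, g *ᵥ w ∈ M) (hgi : ∀ x y, f (g *ᵥ x) (g *ᵥ y) = f x y) (a b : κ → F) :
    f₀ (A₁ syn ana g *ᵥ a) (A₁ syn ana g *ᵥ b) = f₀ a b := by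
  rw [← Fr.form, ← star Fr g hg, ← star Fr g hg, hgi, Fr.form]

theorem Lm_isom (S : ASplit f W U f₁ f₂ syn₁ ana₁ syn₂ ana₂)
    (A : Matrix κ κ F) (B : Matrix κ' κ' F)
    (hA : ∀ a b, f₁ (A *ᵥ a) (A *ᵥ b) = f₁ a b)
    (hB : ∀ a b, f₂ (B *ᵥ a) (B *ᵥ b) = f₂ a b)
    (x y : ι → F) :
    f (Lm syn₁ ana₁ syn₂ ana₂ A B *ᵥ x) (Lm syn₁ ana₁ syn₂ ana₂ A B *ᵥ y) = f x y := by
  rw [Lm_mulVec, Lm_mulVec, split_form S, hA, hB, ← split_form S, ← complete S x,
    ← complete S y]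

theorem Lm_W (S : ASplit f W U f₁ f₂ syn₁ ana₁ syn₂ ana₂)
    (A : Matrix κ κ F) (B : Matrix κ' κ' F) (w : ι → F) (hw : w ∈ W) :
    Lm syn₁ ana₁ syn₂ ana₂ A B *ᵥ w ∈ W := by
  rw [Lm_mulVec, S.anaW w hw, Matrix.mulVec_zero, map_zero, add_zero]
  exact S.FW.mem _

theorem Lm_U (S : ASplit f W U f₁ f₂ syn₁ ana₁ syn₂ ana₂)
    (A : Matrix κ κ F) (B : Matrix κ' κ' F) (u : ι → F) (hu : u ∈ U) :
    Lm syn₁ ana₁ syn₂ ana₂ A B *ᵥ u ∈ U := by
  rw [Lm_mulVec, S.anaU u hu, Matrix.mulVec_zero, map_zero, zero_add]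
  exact S.FU.mem _

theorem A₁_Lm (S : ASplit f W U f₁ f₂ syn₁ ana₁ syn₂ ana₂)
    (A : Matrix κ κ F) (B : Matrix κ' κ' F) :
    A₁ syn₁ ana₁ (Lm syn₁ ana₁ syn₂ ana₂ A B) = A := by
  rw [Matrix.ext_iff_mulVec]
  intro a
  rw [A₁_mulVec, Lm_mulVec, S.FW.ana_syn, S.anaW _ (S.FW.mem a), Matrix.mulVec_zero,
    map_zero, add_zero, S.FW.ana_syn]

theorem A₂_Lm (S : ASplit f W U f₁ f₂ syn₁ ana₁ syn₂ ana₂)
    (A : Matrix κ κ F) (B : Matrix κ' κ' F) :
    A₁ syn₂ ana₂ (Lm syn₁ ana₁ syn₂ ana₂ A B) = B := by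
  rw [Matrix.ext_iff_mulVec]
  intro b
  rw [A₁_mulVec, Lm_mulVec, S.FU.ana_syn, S.anaU _ (S.FU.mem b), Matrix.mulVec_zero,
    map_zero, zero_add, S.FU.ana_syn]

theorem Lm_A (S : ASplit f W U f₁ f₂ syn₁ ana₁ syn₂ ana₂) (g : Matrix ι ι F)
    (hgW : ∀ w ∈ W, g *ᵥ w ∈ W) (hgU : ∀ u ∈ U, g *ᵥ u ∈ U) :
    Lm syn₁ ana₁ syn₂ ana₂ (A₁ syn₁ ana₁ g) (A₁ syn₂ ana₂ g) = g := by
  rw [Matrix.ext_iff_mulVec]
  intro x
  rw [Lm_mulVec, ← star S.FW g hgW, ← star S.FU g hgU, ← Matrix.mulVec_add, ← complete S x]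


/-! ### symplectic frames -/

theorem alt_sum_left (hf : IsAlt f) {κ : Type} [Fintype κ] (c : κ → F) (v : κ → ι → F)
    (y : ι → F) : f (∑ x, c x • v x) y = ∑ x, c x * f (v x) y := by
  let L : (ι → F) →ₗ[F] F :=
    { toFun := fun z => f z y
      map_add' := fun a b => hf.add_left a b y
      map_smul' := fun c a => hf.smul_left c a y }
  show L (∑ x, c x • v x) = _
  rw [map_sum]
  apply Finset.sum_congr rfl
  intro i _
  rw [map_smul]
  rfl

theorem alt_sum_right (hf : IsAlt f) {κ : Type} [Fintype κ] (c : κ → F) (v : κ → ι → F)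
    (y : ι → F) : f y (∑ x, c x • v x) = ∑ x, c x * f y (v x) := by
  let L : (ι → F) →ₗ[F] F :=
    { toFun := fun z => f y z
      map_add' := fun a b => hf.add_right y a b
      map_smul' := fun c a => hf.smul_right c y a }
  show L (∑ x, c x • v x) = _
  rw [map_sum]
  apply Finset.sum_congr rfl
  intro i _
  rw [map_smul]
  rfl

/-- symplectic family spanning `M` -/
structure SFrame (f : (ι → F) → (ι → F) → F) (M : Submodule F (ι → F)) (k : ℕ)
    (e : Fin k ⊕ Fin k → ι → F) : Prop where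
  mem : ∀ x, e x ∈ M
  ll : ∀ i j, f (e (Sum.inl i)) (e (Sum.inl j)) = 0
  rr : ∀ i j, f (e (Sum.inr i)) (e (Sum.inr j)) = 0
  rl : ∀ i j, f (e (Sum.inr i)) (e (Sum.inl j)) = if i = j then 1 else 0
  span : ∀ z ∈ M, z = ∑ i, f (e (Sum.inr i)) z • e (Sum.inl i) +
    ∑ i, f z (e (Sum.inl i)) • e (Sum.inr i)

theorem sframe_exists (hf : IsAlt f) : ∀ d : ℕ, ∀ M : Submodule F (ι → F),
    (∀ u ∈ M, (∀ x ∈ M, f x u = 0) → u = 0) → Module.finrank F M ≤ d →
    ∃ (k : ℕ) (e : Fin k ⊕ Fin k → ι → F), SFrame f M k e := by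
  have hbot : ∀ M : Submodule F (ι → F), M = ⊥ →
      ∃ (k : ℕ) (e : Fin k ⊕ Fin k → ι → F), SFrame f M k e := by
    intro M hM
    refine ⟨0, fun _ => 0, ⟨fun x => M.zero_mem, fun i => i.elim0, fun i => i.elim0,
      fun i => i.elim0, ?_⟩⟩
    intro z hz
    rw [hM, Submodule.mem_bot] at hz
    rw [hz]
    simp
  intro d
  induction d with
  | zero =>
    intro M _ hd
    exact hbot M (Submodule.finrank_eq_zero.mp (by omega))
  | succ d ih =>
    intro M hM hd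
    by_cases hM0 : M = ⊥
    · exact hbot M hM0
    obtain ⟨p, hpM, hp0⟩ := (Submodule.ne_bot_iff M).mp hM0
    obtain ⟨y, hyM, hyp⟩ : ∃ y ∈ M, f y p ≠ 0 := by
      by_contra hcon
      push Not at hcon
      exact hp0 (hM p hpM hcon)
    obtain ⟨r, hrdef⟩ : ∃ r, r = (f y p)⁻¹ • y := ⟨_, rfl⟩
    have hrM : r ∈ M := by
      rw [hrdef]
      exact M.smul_mem _ hyM
    have hrp : f r p = 1 := by
      rw [hrdef, hf.smul_left, inv_mul_cancel₀ hyp]
    have hpr : f p r = -1 := by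
      rw [hf.swap, hrp]
    have hpp : f p p = 0 := hf.self p
    have hrr : f r r = 0 := hf.self r
    let Lp : (ι → F) →ₗ[F] F :=
      { toFun := fun x => f x p
        map_add' := fun a b => hf.add_left a b p
        map_smul' := fun c a => hf.smul_left c a p }
    let Lr : (ι → F) →ₗ[F] F :=
      { toFun := fun x => f x r
        map_add' := fun a b => hf.add_left a b r
        map_smul' := fun c a => hf.smul_left c a r }
    obtain ⟨M₁, hM₁⟩ : ∃ M₁ : Submodule F (ι → F),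
        M₁ = M ⊓ (LinearMap.ker Lp ⊓ LinearMap.ker Lr) := ⟨_, rfl⟩
    have hmem₁ : ∀ x, x ∈ M₁ ↔ x ∈ M ∧ f x p = 0 ∧ f x r = 0 := by
      intro x
      rw [hM₁, Submodule.mem_inf, Submodule.mem_inf, LinearMap.mem_ker, LinearMap.mem_ker]
      rfl
    have hsplit : ∀ z ∈ M, z - (f z p) • r + (f z r) • p ∈ M₁ := by
      intro z hz
      rw [hmem₁]
      refine ⟨M.add_mem (M.sub_mem hz (M.smul_mem _ hrM)) (M.smul_mem _ hpM), ?_, ?_⟩
      · rw [hf.add_left, hf.sub_left, hf.smul_left, hf.smul_left, hrp, hpp]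
        ring
      · rw [hf.add_left, hf.sub_left, hf.smul_left, hf.smul_left, hrr, hpr]
        ring
    have hM₁nd : ∀ u ∈ M₁, (∀ x ∈ M₁, f x u = 0) → u = 0 := by
      intro u hu h
      obtain ⟨huM, hup, hur⟩ := (hmem₁ u).mp hu
      apply hM u huM
      intro z hz
      have e : z = (z - (f z p) • r + (f z r) • p) + ((f z p) • r - (f z r) • p) := by abel
      rw [e, hf.add_left, h _ (hsplit z hz), hf.sub_left, hf.smul_left, hf.smul_left,
        hf.swap r u, hur, hf.swap p u, hup]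
      ring
    have hlt : M₁ < M := by
      refine lt_of_le_of_ne (fun x hx => ((hmem₁ x).mp hx).1) ?_
      intro h
      have : p ∈ M₁ := by rw [h]; exact hpM
      have h2 := ((hmem₁ p).mp this).2.2
      rw [hpr] at h2
      exact (neg_ne_zero.mpr one_ne_zero) h2
    have hfr := Submodule.finrank_lt_finrank_of_lt hlt
    obtain ⟨k', e', Fr⟩ := ih M₁ hM₁nd (by omega)
    have he'p : ∀ x, f (e' x) p = 0 := fun x => ((hmem₁ _).mp (Fr.mem x)).2.1
    have he'r : ∀ x, f (e' x) r = 0 := fun x => ((hmem₁ _).mp (Fr.mem x)).2.2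
    have hpe' : ∀ x, f p (e' x) = 0 := fun x => by rw [hf.swap, he'p, neg_zero]
    have hre' : ∀ x, f r (e' x) = 0 := fun x => by rw [hf.swap, he'r, neg_zero]
    refine ⟨k' + 1, Sum.elim (Fin.cons p (fun i => e' (Sum.inl i)))
      (Fin.cons r (fun i => e' (Sum.inr i))), ⟨?_, ?_, ?_, ?_, ?_⟩⟩
    · rintro (i | i)
      · refine Fin.cases ?_ (fun j => ?_) i
        · simp only [Sum.elim_inl, Fin.cons_zero]
          exact hpM
        · simp only [Sum.elim_inl, Fin.cons_succ]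
          exact ((hmem₁ _).mp (Fr.mem _)).1
      · refine Fin.cases ?_ (fun j => ?_) i
        · simp only [Sum.elim_inr, Fin.cons_zero]
          exact hrM
        · simp only [Sum.elim_inr, Fin.cons_succ]
          exact ((hmem₁ _).mp (Fr.mem _)).1
    · intro i j
      simp only [Sum.elim_inl]
      refine Fin.cases ?_ (fun i' => ?_) i <;> refine Fin.cases ?_ (fun j' => ?_) j
      · simp only [Fin.cons_zero]
        exact hpp
      · simp only [Fin.cons_zero, Fin.cons_succ]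
        exact hpe' _
      · simp only [Fin.cons_zero, Fin.cons_succ]
        exact he'p _
      · simp only [Fin.cons_succ]
        exact Fr.ll i' j'
    · intro i j
      simp only [Sum.elim_inr]
      refine Fin.cases ?_ (fun i' => ?_) i <;> refine Fin.cases ?_ (fun j' => ?_) j
      · simp only [Fin.cons_zero]
        exact hrr
      · simp only [Fin.cons_zero, Fin.cons_succ]
        exact hre' _
      · simp only [Fin.cons_zero, Fin.cons_succ]
        exact he'r _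
      · simp only [Fin.cons_succ]
        exact Fr.rr i' j'
    · intro i j
      simp only [Sum.elim_inl, Sum.elim_inr]
      refine Fin.cases ?_ (fun i' => ?_) i <;> refine Fin.cases ?_ (fun j' => ?_) j
      · simp only [Fin.cons_zero, if_true]
        exact hrp
      · simp only [Fin.cons_zero, Fin.cons_succ]
        rw [if_neg (Fin.succ_ne_zero j').symm]
        exact hre' _
      · simp only [Fin.cons_zero, Fin.cons_succ]
        rw [if_neg (Fin.succ_ne_zero i')]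
        exact he'p _
      · simp only [Fin.cons_succ, Fin.succ_inj]
        exact Fr.rl i' j'
    · intro z hz
      have hz₁ := hsplit z hz
      have hs := Fr.span _ hz₁
      have h1 : ∀ i, f (e' (Sum.inr i)) (z - (f z p) • r + (f z r) • p) =
          f (e' (Sum.inr i)) z := by
        intro i
        rw [hf.add_right, hf.sub_right, hf.smul_right, hf.smul_right, he'r, he'p]
        ring
      have h2 : ∀ i, f (z - (f z p) • r + (f z r) • p) (e' (Sum.inl i)) =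
          f z (e' (Sum.inl i)) := by
        intro i
        rw [hf.add_left, hf.sub_left, hf.smul_left, hf.smul_left, hre', hpe']
        ring
      simp only [h1, h2] at hs
      simp only [Sum.elim_inl, Sum.elim_inr, Fin.sum_univ_succ, Fin.cons_zero, Fin.cons_succ]
      have hrz : f r z = - f z r := hf.swap r z
      rw [hrz, neg_smul]
      have e : z = (z - (f z p) • r + (f z r) • p) + (f z p) • r - (f z r) • p := by abel
      calc z = (z - (f z p) • r + (f z r) • p) + (f z p) • r - (f z r) • p := e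
        _ = _ := by
          rw [hs]
          abel

/-- analysis map of a symplectic family -/
def sana (hf : IsAlt f) {k : ℕ} (e : Fin k ⊕ Fin k → ι → F) :
    (ι → F) →ₗ[F] (Fin k ⊕ Fin k → F) where
  toFun z := Sum.elim (fun i => f (e (Sum.inr i)) z) (fun i => f z (e (Sum.inl i)))
  map_add' x y := by
    funext a
    rcases a with i | i
    · exact hf.add_right _ x y
    · exact hf.add_left x y _
  map_smul' c x := by
    funext a
    rcases a with i | i
    · exact hf.smul_right c _ x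
    · exact hf.smul_left c x _

theorem sana_syn (hf : IsAlt f) {M : Submodule F (ι → F)} {k : ℕ}
    {e : Fin k ⊕ Fin k → ι → F} (Fr : SFrame f M k e) (a : Fin k ⊕ Fin k → F) :
    sana hf e (Fintype.linearCombination F e a) = a := by
  funext x
  rw [Fintype.linearCombination_apply]
  rcases x with j | j
  · show f (e (Sum.inr j)) (∑ x, a x • e x) = a (Sum.inl j)
    rw [alt_sum_right hf, Fintype.sum_sum_type]
    simp only [Fr.rl, Fr.rr, mul_zero, Finset.sum_const_zero, add_zero, mul_ite, mul_one,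
      Finset.sum_ite_eq, Finset.mem_univ, if_true]
  · show f (∑ x, a x • e x) (e (Sum.inl j)) = a (Sum.inr j)
    rw [alt_sum_left hf, Fintype.sum_sum_type]
    simp only [Fr.ll, Fr.rl, mul_zero, Finset.sum_const_zero, zero_add, mul_ite, mul_one,
      Finset.sum_ite_eq', Finset.mem_univ, if_true]

theorem sframe_aframe (hf : IsAlt f) {M : Submodule F (ι → F)} {k : ℕ}
    {e : Fin k ⊕ Fin k → ι → F} (Fr : SFrame f M k e) :
    AFrame f M (Cfsg.sympForm k F) (Fintype.linearCombination F e) (sana hf e) where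
  mem a := by
    rw [Fintype.linearCombination_apply]
    exact Submodule.sum_mem _ (fun x _ => M.smul_mem _ (Fr.mem x))
  ana_syn a := sana_syn hf Fr a
  syn_ana w hw := by
    rw [Fintype.linearCombination_apply, Fintype.sum_sum_type]
    exact (Fr.span w hw).symm
  form a b := by
    have h1 : ∀ i, f (e (Sum.inl i)) (Fintype.linearCombination F e b) = - b (Sum.inr i) := by
      intro i
      rw [hf.swap]
      exact congrArg Neg.neg (congrFun (sana_syn hf Fr b) (Sum.inr i))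
    have h2 : ∀ i, f (e (Sum.inr i)) (Fintype.linearCombination F e b) = b (Sum.inl i) :=
      fun i => congrFun (sana_syn hf Fr b) (Sum.inl i)
    rw [Fintype.linearCombination_apply F e a, alt_sum_left hf, Fintype.sum_sum_type,
      Cfsg.Agent.Lib.Helper5.Symp.sympForm_eq_sum, ← Finset.sum_add_distrib]
    apply Finset.sum_congr rfl
    intro i _
    rw [h1, h2]
    ring


theorem aframe_finrank {M : Submodule F (ι → F)} {f₀ : (κ → F) → (κ → F) → F}
    {syn : (κ → F) →ₗ[F] (ι → F)} {ana : (ι → F) →ₗ[F] (κ → F)}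
    (Fr : AFrame f M f₀ syn ana) : Module.finrank F M = Fintype.card κ := by
  have hinj : Function.Injective syn := fun a b h => by
    rw [← Fr.ana_syn a, ← Fr.ana_syn b, h]
  have hrange : LinearMap.range syn = M :=
    le_antisymm (by rintro _ ⟨a, rfl⟩; exact Fr.mem a) (fun w hw => ⟨ana w, Fr.syn_ana w hw⟩)
  rw [← hrange, LinearMap.finrank_range_of_inj hinj, Module.finrank_pi]

end Cfsg.Agent.Lib.Helper13.AltFrame
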