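import Mathlib
import Cfsg.Agent.Lib.Helper28.Herm
import Cfsg.Agent.Lib.Helper13.HermSub
import Cfsg.Agent.Lib.Helper13.HermFrame

set_option autoImplicit false
open Cfsg

namespace Cfsg.Agent.Lib.Helper13.HermGen

open Matrix
open Cfsg.Agent.S5631 Cfsg.Agent.S5645 Cfsg.Agent.S5642 Cfsg.Agent.Lib.Helper28.SLGen
open Cfsg.Agent.Lib.Helper28.Herm
open Cfsg.Agent.Lib.Helper13.HermSub

variable {ι : Type} [Fintype ι] [DecidableEq ι] {F : Type*} [Field F]
variable {σ : F →+* F} {f : (ι → F) → (ι → F) → F}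

/-- the standing hypotheses: `K` is a normal subgroup of the isometry group, inside the special
linear group, containing all unitary transvections -/
structure Gen (σ : F →+* F) (f : (ι → F) → (ι → F) → F) (K : Subgroup (GL ι F)) : Prop where
  hf : IsHerm σ f
  isom : ∀ k ∈ K, Isom f k
  det : ∀ k ∈ K, (k : Matrix ι ι F).det = 1
  hall : ∀ a, f a a = 0 → P σ f K a
  norm : ∀ g : GL ι F, Isom f g → ∀ k ∈ K, g * k * g⁻¹ ∈ K

theorem tv_ex {K : Subgroup (GL ι F)} (hG : Gen σ f K) (d : ι → F) (hd : f d d = 0) (c : F)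
    (hc : c + σ c = 0) :
    ∃ t ∈ K, ∀ x, (t : Matrix ι ι F) *ᵥ x = x + (c * f x d) • d := by
  obtain ⟨h0, ht⟩ := (hG.hall d hd).2 c hc
  exact ⟨_, ht, fun x => uT_mulVec hG.hf d c x h0⟩

/-! ### transitivity on isotropic vectors -/

theorem step1 (hf : IsHerm σ f) (M : Submodule F (ι → F)) (a b : ι → F) (haM : a ∈ M)
    (hbM : b ∈ M) (ha : f a a = 0) (hb : f b b = 0) (hr : f a b ≠ 0)
    (htr : f a b + f b a = 0) : Step σ f M a b := by
  have hba : f b a ≠ 0 := hf.ne_zero_symm hr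
  refine ⟨b - a, M.sub_mem hbM haM, (f a b)⁻¹, ?_, ?_, ?_⟩
  · rw [hf.sub_left, hf.sub_right, hf.sub_right, ha, hb]
    linear_combination -htr
  · rw [map_inv₀, ← hf.herm b a]
    field_simp
    linear_combination htr
  · rw [hf.sub_right, ha, sub_zero, inv_mul_cancel₀ hr, one_smul]
    abel

theorem ndeg_pair (hf : IsHerm σ f) (a b : ι → F) (ha : f a a = 0) (hb : f b b = 0)
    (hab : f a b ≠ 0) : NDeg f (Submodule.span F (Set.range ![a, b])) := by
  have hba : f b a ≠ 0 := hf.ne_zero_symm hab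
  intro u hu h
  obtain ⟨c, rfl⟩ := (Submodule.mem_span_range_iff_exists_fun F).mp hu
  have h1 := h a (Submodule.subset_span ⟨0, rfl⟩)
  have h2 := h b (Submodule.subset_span ⟨1, rfl⟩)
  simp only [Fin.sum_univ_two, Matrix.cons_val_zero, Matrix.cons_val_one, hf.add_right,
    hf.smul_right, ha, hb, mul_zero, zero_add, add_zero] at h1 h2
  have e1 : σ (c 1) = 0 := by
    rcases mul_eq_zero.mp h1 with h | h
    · exact h
    · exact absurd h hab
  have e0 : σ (c 0) = 0 := by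
    rcases mul_eq_zero.mp h2 with h | h
    · exact h
    · exact absurd h hba
  have e1' : c 1 = 0 := by
    have := congrArg σ e1
    rwa [hf.invol, map_zero] at this
  have e0' : c 0 = 0 := by
    have := congrArg σ e0
    rwa [hf.invol, map_zero] at this
  simp only [Fin.sum_univ_two, e0', e1', zero_smul, add_zero]

theorem exists_norm_pair [Finite F] (hf : IsHerm σ f) (h3 : 3 ≤ Fintype.card ι) (a b : ι → F)
    (ha : f a a = 0) (hb : f b b = 0) (hab : f a b ≠ 0) (δ : F) (hδ : σ δ = δ) :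
    ∃ m, f m a = 0 ∧ f m b = 0 ∧ f m m = δ := by
  have hN := ndeg_pair hf a b ha hb hab
  have h1 := perp_finrank hf hN
  have h2 : Module.finrank F (Submodule.span F (Set.range ![a, b])) ≤ 2 := by
    have := finrank_range_le_card (R := F) ![a, b]
    rwa [Fintype.card_fin] at this
  obtain ⟨w, hw, -, hww⟩ := sub_exists_norm hf (perp_ndeg hf hN) (Fin.elim0 : Fin 0 → ι → F)
    (fun i => i.elim0) (by omega) δ hδ
  refine ⟨w, ?_, ?_, hww⟩
  · exact hf.eq_zero_symm (hw a (Submodule.subset_span ⟨0, rfl⟩))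
  · exact hf.eq_zero_symm (hw b (Submodule.subset_span ⟨1, rfl⟩))

theorem reach2 [Finite F] (hf : IsHerm σ f) (h3 : 3 ≤ Fintype.card ι) (a b : ι → F)
    (ha : f a a = 0) (hb : f b b = 0) (hab : f a b ≠ 0) : Reach σ f ⊤ a b := by
  have hba : f b a ≠ 0 := hf.ne_zero_symm hab
  obtain ⟨ζ, hζ0, hζ⟩ := hf.exists_zeta
  have hσζ : σ ζ = -ζ := by linear_combination hζ
  obtain ⟨x, hx⟩ : ∃ x, x = ζ / f a b := ⟨_, rfl⟩
  have hxr : x * f a b = ζ := by rw [hx, div_mul_cancel₀ _ hab]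
  have hxr' : σ x * f b a = -ζ := by
    rw [hf.herm b a, ← map_mul, hxr, hσζ]
  obtain ⟨m, hma, hmb, hmm⟩ := exists_norm_pair hf h3 a b ha hb hab
    (-(x * x * f a b + σ x * σ x * f b a)) (by
      rw [map_neg, map_add, map_mul, map_mul, map_mul, map_mul, hf.invol, ← hf.herm b a,
        ← hf.herm a b]
      ring)
  have ham : f a m = 0 := hf.eq_zero_symm hma
  have hbm : f b m = 0 := hf.eq_zero_symm hmb
  obtain ⟨z, hz⟩ : ∃ z, z = x • a + σ x • b + m := ⟨_, rfl⟩
  have haz : f a z = ζ := by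
    rw [hz, hf.add_right, hf.add_right, hf.smul_right, hf.smul_right, ha, ham, hf.invol]
    linear_combination hxr
  have hzb : f z b = ζ := by
    rw [hz, hf.add_left, hf.add_left, hf.smul_left, hf.smul_left, hb, hmb]
    linear_combination hxr
  have hza : f z a = -ζ := by rw [hf.herm z a, haz, hσζ]
  have hbz : f b z = -ζ := by rw [hf.herm b z, hzb, hσζ]
  have hzz : f z z = 0 := by
    have e1 : f (x • a + σ x • b + m) z = x * f a z + σ x * f b z + f m z := by
      rw [hf.add_left, hf.add_left, hf.smul_left, hf.smul_left]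
    rw [← hz] at e1
    have e2 : f m z = f m m := by
      rw [hz, hf.add_right, hf.add_right, hf.smul_right, hf.smul_right, hma, hmb]
      ring
    rw [e1, e2, haz, hbz, hmm]
    linear_combination (-x) * hxr - (σ x) * hxr'
  have s1 : Step σ f ⊤ a z := step1 hf ⊤ a z Submodule.mem_top Submodule.mem_top ha hzz
    (by rw [haz]; exact hζ0) (by rw [haz, hza]; ring)
  have s2 : Step σ f ⊤ z b := step1 hf ⊤ z b Submodule.mem_top Submodule.mem_top hzz hb
    (by rw [hzb]; exact hζ0) (by rw [hzb, hbz]; ring)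
  exact Relation.ReflTransGen.tail (Relation.ReflTransGen.single s1) s2

theorem reach_iso [Finite F] (hf : IsHerm σ f) (h3 : 3 ≤ Fintype.card ι) (a b : ι → F)
    (ha : f a a = 0) (hb : f b b = 0) (ha0 : a ≠ 0) (hb0 : b ≠ 0) : Reach σ f ⊤ a b := by
  by_cases hab : f a b = 0
  · obtain ⟨z₀, hz1, hz2⟩ : ∃ z₀, f a z₀ ≠ 0 ∧ f b z₀ ≠ 0 := by
      obtain ⟨x, hx⟩ : ∃ x, f a x ≠ 0 := by
        by_contra hcon
        push Not at hcon
        exact ha0 (hf.nondeg' a hcon)
      obtain ⟨y, hy⟩ : ∃ y, f b y ≠ 0 := by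
        by_contra hcon
        push Not at hcon
        exact hb0 (hf.nondeg' b hcon)
      by_cases hbx : f b x = 0
      · by_cases hay : f a y = 0
        · refine ⟨x + y, ?_, ?_⟩
          · rw [hf.add_right, hay, add_zero]
            exact hx
          · rw [hf.add_right, hbx, zero_add]
            exact hy
        · exact ⟨y, hay, hy⟩
      · exact ⟨x, hx, hbx⟩
    obtain ⟨μ, hμ⟩ := hf.iso_fix a z₀ ha hz1
    have h1 : f a (z₀ + μ • a) ≠ 0 := by
      rw [hf.add_right, hf.smul_right, ha, mul_zero, add_zero]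
      exact hz1
    have h2 : f (z₀ + μ • a) b ≠ 0 := by
      rw [hf.add_left, hf.smul_left, hab, mul_zero, add_zero]
      exact hf.ne_zero_symm hz2
    exact Relation.ReflTransGen.trans (reach2 hf h3 a _ ha hμ h1) (reach2 hf h3 _ b hμ hb h2)
  · exact reach2 hf h3 a b ha hb hab

theorem sub_reach_iso [Finite F] (hf : IsHerm σ f) {M : Submodule F (ι → F)} (hM : NDeg f M)
    (h3 : 3 ≤ Module.finrank F M) (a b : ι → F) (haM : a ∈ M) (hbM : b ∈ M)
    (ha : f a a = 0) (hb : f b b = 0) (ha0 : a ≠ 0) (hb0 : b ≠ 0) : Reach σ f M a b := by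
  obtain ⟨x', rfl⟩ := cmap_surj M a haM
  obtain ⟨y', rfl⟩ := cmap_surj M b hbM
  have hx0 : x' ≠ 0 := by
    rintro rfl
    exact ha0 (map_zero _)
  have hy0 : y' ≠ 0 := by
    rintro rfl
    exact hb0 (map_zero _)
  have h := reach_iso (fsub_herm hf hM) (by rwa [Fintype.card_fin]) x' y' ha hb hx0 hy0
  refine Relation.ReflTransGen.lift (cmap M) ?_ _ _ h
  rintro a b ⟨d, -, c, hd, hc, e⟩
  refine ⟨cmap M d, cmap_mem M d, c, hd, hc, ?_⟩
  rw [e, map_add, map_smul]
  rfl

/-- `K` moves any nonzero isotropic vector orthogonal to `W` to any other, fixing `W` -/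
theorem iso_move [Finite F] {K : Subgroup (GL ι F)} (hG : Gen σ f K)
    (W : Submodule F (ι → F)) (hW : NDeg f W) (h3 : Module.finrank F W + 3 ≤ Fintype.card ι)
    (a b : ι → F) (haM : a ∈ perp hG.hf W) (hbM : b ∈ perp hG.hf W)
    (ha : f a a = 0) (hb : f b b = 0) (ha0 : a ≠ 0) (hb0 : b ≠ 0) :
    ∃ t ∈ K, (t : Matrix ι ι F) *ᵥ a = b ∧ ∀ w ∈ W, (t : Matrix ι ι F) *ᵥ w = w := by
  have hf := hG.hf
  have h1 := perp_finrank hf hW
  have hr := sub_reach_iso hf (perp_ndeg hf hW) (by omega) a b haM hbM ha hb ha0 hb0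
  obtain ⟨t, htK, hta, hts⟩ := reach_elem hf K (perp hf W) (fun d _ hd => hG.hall d hd) hr
  exact ⟨t, htK, hta, fun w hw => hts w (fun d hd => hd w hw)⟩

/-! ### Eichler elements with isotropic parameter -/

theorem eich_iso {K : Subgroup (GL ι F)} (hG : Gen σ f K) (d u : ι → F) (hd : f d d = 0)
    (hu : f u u = 0) (hud : f u d = 0) (lam : F) (hlam : lam + σ lam = 0) :
    ∃ E ∈ K, ∀ x, (E : Matrix ι ι F) *ᵥ x =
      x + f x d • u - f x u • d + (lam * f x d) • d := by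
  have hf := hG.hf
  have hdu : f d u = 0 := hf.eq_zero_symm hud
  obtain ⟨ζ, hζ0, hζ⟩ := hf.exists_zeta
  have hσζ : σ ζ = -ζ := by linear_combination hζ
  obtain ⟨ε, hε⟩ : ∃ ε, ε = ζ⁻¹ := ⟨_, rfl⟩
  have hζε : ζ * ε = 1 := by rw [hε, mul_inv_cancel₀ hζ0]
  have hσε : σ ε = -ε := by rw [hε, map_inv₀, hσζ, inv_neg]
  have hc : f (d + ε • u) (d + ε • u) = 0 := by
    simp only [hf.add_left, hf.add_right, hf.smul_left, hf.smul_right, hd, hu, hud, hdu,
      mul_zero, add_zero]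
  obtain ⟨t₁, ht₁K, ht₁⟩ := tv_ex hG (d + ε • u) hc ζ hζ
  obtain ⟨t₂, ht₂K, ht₂⟩ := tv_ex hG d hd (lam - ζ)
    (by rw [map_sub, hσζ]; linear_combination hlam)
  obtain ⟨t₃, ht₃K, ht₃⟩ := tv_ex hG u hu ε (by rw [hσε]; ring)
  refine ⟨t₁ * t₂ * t₃, K.mul_mem (K.mul_mem ht₁K ht₂K) ht₃K, fun x => ?_⟩
  rw [Units.val_mul, Units.val_mul, ← Matrix.mulVec_mulVec, ← Matrix.mulVec_mulVec, ht₃, ht₂,
    ht₁]
  simp only [hf.add_left, hf.add_right, hf.smul_left, hf.smul_right, hd, hu, hud, hdu,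
    mul_zero, add_zero, zero_add, hσε]
  linear_combination (norm := module) hζε • (-(ε * f x u) • u + f x d • u - f x u • d)

/-! ### hyperbolic pairs -/

/-- a hyperbolic pair -/
structure HPair (f : (ι → F) → (ι → F) → F) (d d' : ι → F) : Prop where
  dd : f d d = 0
  d'd' : f d' d' = 0
  dd' : f d d' = 1

theorem HPair.d'd {d d' : ι → F} (h : HPair f d d') (hf : IsHerm σ f) : f d' d = 1 := by
  rw [hf.herm, h.dd', map_one]

theorem HPair.ne_zero {d d' : ι → F} (h : HPair f d d') (hf : IsHerm σ f) : d ≠ 0 := by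
  rintro rfl
  have := h.dd'
  rw [hf.zero_left] at this
  exact zero_ne_one this

/-- the first reduction: after multiplying by an element of `K`, an isometry fixing `W`
pointwise also fixes a given hyperbolic pair orthogonal to `W` -/
theorem hyp_step [Finite F] {K : Subgroup (GL ι F)} (hG : Gen σ f K)
    (W : Submodule F (ι → F)) (hW : NDeg f W) (h3 : Module.finrank F W + 3 ≤ Fintype.card ι)
    (d d' : ι → F) (hdM : d ∈ perp hG.hf W) (hd'M : d' ∈ perp hG.hf W) (hp : HPair f d d')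
    (hE : ∀ u ∈ perp hG.hf W, f u d = 0 → ∀ lam : F, lam + σ lam = - f u u →
      ∃ E ∈ K, ∀ x, (E : Matrix ι ι F) *ᵥ x = x + f x d • u - f x u • d + (lam * f x d) • d)
    (s : GL ι F) (hs : Isom f s) (hsW : ∀ w ∈ W, (s : Matrix ι ι F) *ᵥ w = w) :
    ∃ k ∈ K, (∀ w ∈ W, ((k * s : GL ι F) : Matrix ι ι F) *ᵥ w = w) ∧
      ((k * s : GL ι F) : Matrix ι ι F) *ᵥ d = d ∧
      ((k * s : GL ι F) : Matrix ι ι F) *ᵥ d' = d' := by
  have hf := hG.hf
  have hd := hp.dd
  have hd' := hp.d'd'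
  have hdd' := hp.dd'
  have hd0 : d ≠ 0 := hp.ne_zero hf
  have hd'd : f d' d = 1 := hp.d'd hf
  have hsM : ∀ x ∈ perp hf W, (s : Matrix ι ι F) *ᵥ x ∈ perp hf W := by
    intro x hx w hw
    have := hs w x
    rw [hsW w hw] at this
    rw [this]
    exact hx w hw
  have hsd0 : (s : Matrix ι ι F) *ᵥ d ≠ 0 := by
    intro h
    have := hs d d'
    rw [h, hf.zero_left, hdd'] at this
    exact zero_ne_one this
  obtain ⟨t₁, ht₁K, ht₁d, ht₁W⟩ := iso_move hG W hW h3 _ d (hsM d hdM) hdM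
    (by rw [hs]; exact hd) hd hsd0 hd0
  have ht₁i := hG.isom t₁ ht₁K
  obtain ⟨d'', hd''⟩ : ∃ d'', d'' = (t₁ : Matrix ι ι F) *ᵥ ((s : Matrix ι ι F) *ᵥ d') :=
    ⟨_, rfl⟩
  have hd''M : d'' ∈ perp hf W := by
    intro w hw
    have := ht₁i w ((s : Matrix ι ι F) *ᵥ d')
    rw [ht₁W w hw] at this
    rw [hd'', this]
    exact hsM d' hd'M w hw
  have hdd'' : f d d'' = 1 := by
    have := ht₁i ((s : Matrix ι ι F) *ᵥ d) ((s : Matrix ι ι F) *ᵥ d')
    rw [ht₁d, hs, hdd'] at this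
    rw [hd'']
    exact this
  have hd''d : f d'' d = 1 := by rw [hf.herm, hdd'', map_one]
  have hd''d'' : f d'' d'' = 0 := by
    rw [hd'', ht₁i, hs]
    exact hd'
  have huM : d' - d'' ∈ perp hf W := (perp hf W).sub_mem hd'M hd''M
  have hud : f (d' - d'') d = 0 := by rw [hf.sub_left, hd'd, hd''d, sub_self]
  have hdu : f d (d' - d'') = 0 := by rw [hf.sub_right, hdd', hdd'', sub_self]
  have hlam : f d'' d' + σ (f d'' d') = - f (d' - d'') (d' - d'') := by
    rw [hf.sub_left, hf.sub_right, hf.sub_right, hd', hd''d'', ← hf.herm d' d'']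
    ring
  obtain ⟨E, hEK, hEx⟩ := hE (d' - d'') huM hud (f d'' d') hlam
  refine ⟨E * t₁, K.mul_mem hEK ht₁K, fun w hw => ?_, ?_, ?_⟩
  · rw [Units.val_mul, Units.val_mul, ← Matrix.mulVec_mulVec, ← Matrix.mulVec_mulVec,
      hsW w hw, ht₁W w hw, hEx, hdM w hw, huM w hw]
    simp only [zero_smul, mul_zero, add_zero, sub_zero]
  · rw [Units.val_mul, Units.val_mul, ← Matrix.mulVec_mulVec, ← Matrix.mulVec_mulVec,
      ht₁d, hEx, hd, hdu]
    simp only [zero_smul, mul_zero, add_zero, sub_zero]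
  · rw [Units.val_mul, Units.val_mul, ← Matrix.mulVec_mulVec, ← Matrix.mulVec_mulVec,
      ← hd'', hEx, hd''d, hf.sub_right, hd''d'']
    module

/-- a hyperbolic pair spanning the same plane as an orthonormal pair -/
theorem hyp_of_onb [Finite F] (hf : IsHerm σ f) (e₀ e₁ : ι → F) (h00 : f e₀ e₀ = 1)
    (h11 : f e₁ e₁ = 1) (h01 : f e₀ e₁ = 0) :
    ∃ d d', (∃ p q r t : F, d = p • e₀ + q • e₁ ∧ d' = r • e₀ + t • e₁) ∧ HPair f d d' ∧
      ∀ x, f x e₀ • e₀ + f x e₁ • e₁ = f x d' • d + f x d • d' := by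
  have h10 : f e₁ e₀ = 0 := hf.eq_zero_symm h01
  obtain ⟨η, hη⟩ := hf.norm_surj (-1) (by rw [map_neg, map_one])
  obtain ⟨γ, hγ⟩ := hf.exists_tr (-1) (by rw [map_neg, map_one])
  refine ⟨e₀ + η • e₁, γ • (e₀ + η • e₁) + e₀, ⟨1, η, γ + 1, γ * η, by module, by module⟩,
    ⟨?_, ?_, ?_⟩, fun x => ?_⟩
  · simp only [hf.add_left, hf.add_right, hf.smul_left, hf.smul_right, h00, h11, h01, h10,
      mul_zero, mul_one, add_zero, zero_add]
    linear_combination hη
  · simp only [hf.add_left, hf.add_right, hf.smul_left, hf.smul_right, h00, h11, h01, h10,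
      mul_zero, mul_one, add_zero, zero_add]
    linear_combination (γ * σ γ) * hη + hγ
  · simp only [hf.add_left, hf.add_right, hf.smul_left, hf.smul_right, h00, h11, h01, h10,
      mul_zero, mul_one, add_zero, zero_add]
    linear_combination (σ γ) * hη
  · simp only [hf.add_right, hf.smul_right]
    have hγ' : γ + σ γ + 1 = 0 := by linear_combination hγ
    have hη' : σ η * η + 1 = 0 := by linear_combination hη
    linear_combination (norm := module)
      (-(hγ' • ((f x e₀ + σ η * f x e₁) • e₀ + (η * f x e₀ + η * σ η * f x e₁) • e₁))) +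
        hη' • (f x e₁ • e₁)

end Cfsg.Agent.Lib.Helper13.HermGen
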