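import Mathlib
import Cfsg.Agent.Lib.Helper28.Herm
import Cfsg.Agent.Lib.Helper13.HermSub
import Cfsg.Agent.Lib.Helper13.HermFrame
import Cfsg.Agent.Lib.Helper13.HermGen

set_option autoImplicit false
open Cfsg

namespace Cfsg.Agent.Lib.Helper13.HermGen

open Matrix
open Cfsg.Agent.S5631 Cfsg.Agent.S5645 Cfsg.Agent.S5642 Cfsg.Agent.Lib.Helper28.SLGen
open Cfsg.Agent.Lib.Helper28.Herm
open Cfsg.Agent.Lib.Helper13.HermSub

variable {ι : Type} [Fintype ι] [DecidableEq ι] {F : Type*} [Field F]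
variable {σ : F →+* F} {f : (ι → F) → (ι → F) → F}

/-- a diagonal-type element of `K` -/
theorem diag_ex {K : Subgroup (GL ι F)} (hG : Gen σ f K) {d d' : ι → F} (hp : HPair f d d')
    (a : F) (ha : σ a = a) (ha0 : a ≠ 0) :
    ∃ τ ∈ K, (τ : Matrix ι ι F) *ᵥ d = a • d ∧
      ∀ y, f y d = 0 → f y d' = 0 → (τ : Matrix ι ι F) *ᵥ y = y := by
  have hf := hG.hf
  have hd'd := hp.d'd hf
  obtain ⟨ζ, hζ0, hζ⟩ := hf.exists_zeta
  have hσζ : σ ζ = -ζ := by linear_combination hζ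
  obtain ⟨t₁, ht₁K, ht₁⟩ := tv_ex hG d' hp.d'd' ζ hζ
  obtain ⟨t₂, ht₂K, ht₂⟩ := tv_ex hG d hp.dd ((a - 1) / ζ) (by
    rw [map_div₀, map_sub, map_one, ha, hσζ]
    field_simp
    ring)
  obtain ⟨t₃, ht₃K, ht₃⟩ := tv_ex hG d' hp.d'd' (-ζ / a) (by
    rw [map_div₀, map_neg, ha, hσζ]
    field_simp
    ring)
  refine ⟨t₃ * t₂ * t₁, K.mul_mem (K.mul_mem ht₃K ht₂K) ht₁K, ?_, fun y h1 h2 => ?_⟩
  · rw [Units.val_mul, Units.val_mul, ← Matrix.mulVec_mulVec, ← Matrix.mulVec_mulVec, ht₁, ht₂,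
      ht₃]
    simp only [hf.add_left, hf.smul_left, hp.dd, hp.d'd', hp.dd', hd'd, mul_zero, mul_one,
      add_zero, zero_add]
    have e1 : (a - 1) / ζ * ζ = a - 1 := div_mul_cancel₀ _ hζ0
    have e2 : -ζ / a * a = -ζ := div_mul_cancel₀ _ ha0
    rw [e1]
    have e3 : (1 : F) + (a - 1) = a := by ring
    rw [e3, e2]
    module
  · rw [Units.val_mul, Units.val_mul, ← Matrix.mulVec_mulVec, ← Matrix.mulVec_mulVec, ht₁, h2,
      mul_zero, zero_smul, add_zero, ht₂, h1, mul_zero, zero_smul, add_zero, ht₃, h2, mul_zero,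
      zero_smul, add_zero]

theorem inv_fix (τ : GL ι F) (y : ι → F) (h : (τ : Matrix ι ι F) *ᵥ y = y) :
    ((τ⁻¹ : GL ι F) : Matrix ι ι F) *ᵥ y = y := by
  have := gl_inv_mulVec τ y
  rwa [h] at this

/-! ### frames -/

/-- two orthogonal hyperbolic pairs spanning the orthogonal complement of `W` -/
structure Frame4 (hf : IsHerm σ f) (W : Submodule F (ι → F)) (d₁ d₁' d₂ d₂' : ι → F) :
    Prop where
  m1 : d₁ ∈ perp hf W
  m1' : d₁' ∈ perp hf W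
  m2 : d₂ ∈ perp hf W
  m2' : d₂' ∈ perp hf W
  h1 : HPair f d₁ d₁'
  h2 : HPair f d₂ d₂'
  o12 : f d₁ d₂ = 0
  o12' : f d₁ d₂' = 0
  o1'2 : f d₁' d₂ = 0
  o1'2' : f d₁' d₂' = 0
  dec : ∀ x ∈ perp hf W, x = f x d₁' • d₁ + f x d₁ • d₁' + f x d₂' • d₂ + f x d₂ • d₂'

/-- a hyperbolic pair and a unit vector spanning the whole space -/
structure Frame3 (f : (ι → F) → (ι → F) → F) (d d' x₀ : ι → F) : Prop where
  h : HPair f d d'
  xx : f x₀ x₀ = 1
  xd : f x₀ d = 0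
  xd' : f x₀ d' = 0
  dec : ∀ y, y = f y d' • d + f y d • d' + f y x₀ • x₀

theorem eich4 {K : Subgroup (GL ι F)} (hG : Gen σ f K) {W : Submodule F (ι → F)}
    {d₁ d₁' d₂ d₂' : ι → F} (Fr : Frame4 hG.hf W d₁ d₁' d₂ d₂') :
    ∀ u ∈ perp hG.hf W, f u d₁ = 0 → ∀ lam : F, lam + σ lam = - f u u →
      ∃ E ∈ K, ∀ x, (E : Matrix ι ι F) *ᵥ x =
        x + f x d₁ • u - f x u • d₁ + (lam * f x d₁) • d₁ := by
  intro u huM hud lam hlam
  have hf := hG.hf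
  have h21 : f d₂ d₁ = 0 := hf.eq_zero_symm Fr.o12
  have h2'1 : f d₂' d₁ = 0 := hf.eq_zero_symm Fr.o12'
  have h2'2 := Fr.h2.d'd hf
  obtain ⟨κ, a, b, hu⟩ : ∃ κ a b : F, u = κ • d₁ + a • d₂ + b • d₂' := by
    refine ⟨f u d₁', f u d₂', f u d₂, ?_⟩
    have := Fr.dec u huM
    rw [hud, zero_smul, add_zero] at this
    exact this
  have hv1 : f (a • d₂) (a • d₂) = 0 := by
    rw [hf.smul_left, hf.smul_right, Fr.h2.dd, mul_zero, mul_zero]
  have hv2 : f (b • d₂') (b • d₂') = 0 := by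
    rw [hf.smul_left, hf.smul_right, Fr.h2.d'd', mul_zero, mul_zero]
  have hv1d : f (a • d₂) d₁ = 0 := by rw [hf.smul_left, h21, mul_zero]
  have hv2d : f (b • d₂') d₁ = 0 := by rw [hf.smul_left, h2'1, mul_zero]
  obtain ⟨E₁, hE₁K, hE₁⟩ := eich_iso hG d₁ (a • d₂) Fr.h1.dd hv1 hv1d 0
    (by rw [map_zero, add_zero])
  obtain ⟨E₂, hE₂K, hE₂⟩ := eich_iso hG d₁ (b • d₂') Fr.h1.dd hv2 hv2d 0
    (by rw [map_zero, add_zero])
  have hμ : (κ - σ κ + lam + b * σ a) + σ (κ - σ κ + lam + b * σ a) = 0 := by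
    rw [hu] at hlam
    simp only [hf.add_left, hf.add_right, hf.smul_left, hf.smul_right, Fr.h1.dd, Fr.h2.dd,
      Fr.h2.d'd', Fr.h2.dd', h2'2, Fr.o12, Fr.o12', h21, h2'1, mul_zero, mul_one, add_zero,
      zero_add] at hlam
    simp only [map_add, map_sub, map_mul, hf.invol]
    linear_combination hlam
  obtain ⟨t, htK, ht⟩ := tv_ex hG d₁ Fr.h1.dd _ hμ
  refine ⟨E₁ * E₂ * t, K.mul_mem (K.mul_mem hE₁K hE₂K) htK, fun x => ?_⟩
  rw [Units.val_mul, Units.val_mul, ← Matrix.mulVec_mulVec, ← Matrix.mulVec_mulVec, ht, hE₂,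
    hE₁, hu]
  simp only [hf.add_left, hf.sub_left, hf.add_right, hf.smul_left, hf.smul_right, Fr.h1.dd,
    Fr.h2.dd, Fr.h2.d'd', Fr.h2.dd', h2'2, Fr.o12, Fr.o12', h21, h2'1, mul_zero, mul_one,
    zero_mul, add_zero, zero_add, sub_zero, zero_smul]
  module

theorem eich3 [Finite F] [Nonempty ι] {K : Subgroup (GL ι F)} (hG : Gen σ f K)
    {d d' x₀ : ι → F} (Fr : Frame3 f d d' x₀) (a : F) (ha : σ a = a) (ha0 : a ≠ 0)
    (ha1 : a ≠ 1) :
    ∀ u, f u d = 0 → ∀ lam : F, lam + σ lam = - f u u →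
      ∃ E ∈ K, ∀ x, (E : Matrix ι ι F) *ᵥ x =
        x + f x d • u - f x u • d + (lam * f x d) • d := by
  intro u hud lam hlam
  have hf := hG.hf
  have hd := Fr.h.dd
  have ha1' : a - 1 ≠ 0 := sub_ne_zero.mpr ha1
  obtain ⟨τ, hτK, hτd, hτfix⟩ := diag_ex hG Fr.h a ha ha0
  have hτi := hG.isom τ hτK
  obtain ⟨κ, ξ, hu⟩ : ∃ κ ξ : F, u = κ • d + ((a - 1) * ξ) • x₀ := by
    refine ⟨f u d', f u x₀ / (a - 1), ?_⟩
    have := Fr.dec u
    rw [hud, zero_smul, add_zero] at this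
    rw [mul_div_cancel₀ _ ha1']
    exact this
  obtain ⟨w, hw⟩ : ∃ w, w = ξ • x₀ := ⟨_, rfl⟩
  have hu' : u = κ • d + (a - 1) • w := by rw [hu, hw, smul_smul]
  have hwd : f w d = 0 := by rw [hw, hf.smul_left, Fr.xd, mul_zero]
  have hdw : f d w = 0 := hf.eq_zero_symm hwd
  have hτw : (τ : Matrix ι ι F) *ᵥ w = w :=
    hτfix w hwd (by rw [hw, hf.smul_left, Fr.xd', mul_zero])
  obtain ⟨lam₀, hlam₀⟩ := hf.exists_tr (- f w w) (by rw [map_neg, hf.self_fix])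
  obtain ⟨E₀, hE₀, hE₀i, -⟩ := eich_exists hf d w lam₀ hd hwd hlam₀
  obtain ⟨E₀', hE₀', hE₀'i, -⟩ := eich_exists hf d (a • w) (a * a * lam₀) hd
    (by rw [hf.smul_left, hwd, mul_zero]) (by
      rw [map_mul, map_mul, ha, hf.smul_left, hf.smul_right, ha]
      linear_combination (a * a) * hlam₀)
  obtain ⟨E, hE, hEi, -⟩ := eich_exists hf d u lam hd hud hlam
  have hconj : τ * E₀ * τ⁻¹ = E₀' := by
    apply gl_ext
    intro x
    obtain ⟨y, rfl⟩ : ∃ y, x = (τ : Matrix ι ι F) *ᵥ y := ⟨_, (gl_mulVec_inv τ x).symm⟩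
    have h1 : f ((τ : Matrix ι ι F) *ᵥ y) d = a⁻¹ * f y d := by
      have := hτi y d
      rw [hτd, hf.smul_right, ha] at this
      rw [← this]
      field_simp
    have h2 : f ((τ : Matrix ι ι F) *ᵥ y) w = f y w := by
      have := hτi y w
      rwa [hτw] at this
    rw [Units.val_mul, Units.val_mul, ← Matrix.mulVec_mulVec, ← Matrix.mulVec_mulVec,
      gl_inv_mulVec, hE₀, hE₀', h1, hf.smul_right, h2, ha]
    simp only [Matrix.mulVec_add, Matrix.mulVec_sub, Matrix.mulVec_smul, hτd, hτw]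
    have haa : a⁻¹ * a = 1 := inv_mul_cancel₀ ha0
    linear_combination (norm := module) -(haa • (f y d • w + (a * lam₀ * f y d) • d))
  have hμ' : (a * a * lam₀ - κ + σ κ - lam₀ + (a - 1) * f w w - lam) +
      σ (a * a * lam₀ - κ + σ κ - lam₀ + (a - 1) * f w w - lam) = 0 := by
    rw [hu'] at hlam
    simp only [hf.add_left, hf.add_right, hf.smul_left, hf.smul_right, hd, hwd, hdw, mul_zero,
      add_zero, zero_add, map_sub, map_one, ha] at hlam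
    simp only [map_add, map_sub, map_mul, map_one, ha, hf.invol, hf.self_fix w]
    linear_combination -hlam + (a * a - 1) * hlam₀
  obtain ⟨t', ht'K, ht'⟩ := tv_ex hG d hd _ hμ'
  have hrel : E₀' = E * t' * E₀ := by
    apply gl_ext
    intro x
    rw [Units.val_mul, Units.val_mul, ← Matrix.mulVec_mulVec, ← Matrix.mulVec_mulVec, hE₀, ht',
      hE, hE₀', hu']
    simp only [hf.add_left, hf.sub_left, hf.add_right, hf.smul_left, hf.smul_right, hd, hwd,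
      hdw, map_sub, map_one, ha, mul_zero, zero_mul, add_zero, zero_add, sub_zero, zero_smul]
    module
  have hC : E₀' * E₀⁻¹ ∈ K := by
    have h1 := hG.norm E₀ hE₀i τ⁻¹ (K.inv_mem hτK)
    have h2 := K.mul_mem hτK h1
    have e : τ * (E₀ * τ⁻¹ * E₀⁻¹) = E₀' * E₀⁻¹ := by
      rw [← hconj]
      group
    rwa [e] at h2
  have hEK : E ∈ K := by
    have e : E = E₀' * E₀⁻¹ * t'⁻¹ := by
      rw [hrel]
      group
    rw [e]
    exact K.mul_mem hC (K.inv_mem ht'K)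
  exact ⟨E, hEK, hE⟩

end Cfsg.Agent.Lib.Helper13.HermGen
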