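import Mathlib
import Cfsg.Agent.Lib.Helper28.Herm
import Cfsg.Agent.Lib.Helper13.HermSub
import Cfsg.Agent.Lib.Helper13.HermFrame
import Cfsg.Agent.Lib.Helper13.HermGen
import Cfsg.Agent.Lib.Helper13.HermGen2

set_option autoImplicit false
open Cfsg

namespace Cfsg.Agent.Lib.Helper13.HermGen

open Matrix
open Cfsg.Agent.S5631 Cfsg.Agent.S5645 Cfsg.Agent.S5642 Cfsg.Agent.Lib.Helper28.SLGen
open Cfsg.Agent.Lib.Helper28.Herm
open Cfsg.Agent.Lib.Helper13.HermSub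

variable {ι : Type} [Fintype ι] [DecidableEq ι] {F : Type*} [Field F]
variable {σ : F →+* F} {f : (ι → F) → (ι → F) → F}

/-! ### base case in dimension three -/

theorem base3 (hf : IsHerm σ f) {d d' x₀ : ι → F} (Fr : Frame3 f d d' x₀) (s : GL ι F)
    (hs : Isom f s) (hdet : (s : Matrix ι ι F).det = 1)
    (hsd : (s : Matrix ι ι F) *ᵥ d = d) (hsd' : (s : Matrix ι ι F) *ᵥ d' = d') : s = 1 := by
  have hdx : f d x₀ = 0 := hf.eq_zero_symm Fr.xd
  have hd'x : f d' x₀ = 0 := hf.eq_zero_symm Fr.xd'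
  obtain ⟨ε, hε⟩ : ∃ ε : F, (s : Matrix ι ι F) *ᵥ x₀ = ε • x₀ := by
    refine ⟨f ((s : Matrix ι ι F) *ᵥ x₀) x₀, ?_⟩
    have h1 : f ((s : Matrix ι ι F) *ᵥ x₀) d = 0 := by
      have := hs x₀ d
      rw [hsd] at this
      rw [this, Fr.xd]
    have h2 : f ((s : Matrix ι ι F) *ᵥ x₀) d' = 0 := by
      have := hs x₀ d'
      rw [hsd'] at this
      rw [this, Fr.xd']
    have := Fr.dec ((s : Matrix ι ι F) *ᵥ x₀)
    rw [h1, h2, zero_smul, zero_smul, zero_add, zero_add] at this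
    exact this
  have hmat : (s : Matrix ι ι F) = tv x₀ ((ε - 1) • rep f x₀) := by
    rw [Matrix.ext_iff_mulVec]
    intro y
    obtain ⟨α, β, γ, hy⟩ : ∃ α β γ : F, y = α • d + β • d' + γ • x₀ := ⟨_, _, _, Fr.dec y⟩
    rw [tv_mulVec, smul_dotProduct, hf.rep_dot, hy]
    simp only [Matrix.mulVec_add, Matrix.mulVec_smul, hsd, hsd', hε, hf.add_left, hf.smul_left,
      hdx, hd'x, Fr.xx, mul_zero, mul_one, zero_add, smul_eq_mul]
    module
  have hdet' : (tv x₀ ((ε - 1) • rep f x₀)).det = ε := by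
    rw [tv, Matrix.vecMulVec_eq Unit, Matrix.det_one_add_replicateCol_mul_replicateRow,
      smul_dotProduct, hf.rep_dot, Fr.xx, smul_eq_mul]
    ring
  have hε1 : ε = 1 := by rw [← hdet', ← hmat, hdet]
  apply gl_ext
  intro y
  obtain ⟨α, β, γ, hy⟩ : ∃ α β γ : F, y = α • d + β • d' + γ • x₀ := ⟨_, _, _, Fr.dec y⟩
  rw [Units.val_one, Matrix.one_mulVec, hy]
  simp only [Matrix.mulVec_add, Matrix.mulVec_smul, hsd, hsd', hε, hε1, one_smul]

/-! ### base case in dimension four -/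

theorem perp_map (hf : IsHerm σ f) {W : Submodule F (ι → F)} (s : GL ι F) (hs : Isom f s)
    (hsW : ∀ w ∈ W, (s : Matrix ι ι F) *ᵥ w = w) :
    ∀ x ∈ perp hf W, (s : Matrix ι ι F) *ᵥ x ∈ perp hf W := by
  intro x hx w hw
  have := hs w x
  rw [hsW w hw] at this
  rw [this]
  exact hx w hw

theorem plane_dec (hf : IsHerm σ f) {W : Submodule F (ι → F)} {d₁ d₁' d₂ d₂' : ι → F}
    (Fr : Frame4 hf W d₁ d₁' d₂ d₂') (s : GL ι F) (hs : Isom f s)
    (hsW : ∀ w ∈ W, (s : Matrix ι ι F) *ᵥ w = w) (hs1 : (s : Matrix ι ι F) *ᵥ d₁ = d₁)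
    (hs1' : (s : Matrix ι ι F) *ᵥ d₁' = d₁') (y : ι → F) (hy : y ∈ perp hf W)
    (hy1 : f y d₁ = 0) (hy1' : f y d₁' = 0) :
    (s : Matrix ι ι F) *ᵥ y = f ((s : Matrix ι ι F) *ᵥ y) d₂' • d₂ +
      f ((s : Matrix ι ι F) *ᵥ y) d₂ • d₂' := by
  have h1 : f ((s : Matrix ι ι F) *ᵥ y) d₁ = 0 := by
    have := hs y d₁
    rw [hs1] at this
    rw [this, hy1]
  have h1' : f ((s : Matrix ι ι F) *ᵥ y) d₁' = 0 := by
    have := hs y d₁'
    rw [hs1'] at this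
    rw [this, hy1']
  have := Fr.dec _ (perp_map hf s hs hsW y hy)
  rw [h1, h1', zero_smul, zero_smul, zero_add, zero_add] at this
  exact this

theorem fix_all (hf : IsHerm σ f) {W : Submodule F (ι → F)} (hW : NDeg f W)
    {d₁ d₁' d₂ d₂' : ι → F} (Fr : Frame4 hf W d₁ d₁' d₂ d₂') (s : GL ι F)
    (hsW : ∀ w ∈ W, (s : Matrix ι ι F) *ᵥ w = w) (hs1 : (s : Matrix ι ι F) *ᵥ d₁ = d₁)
    (hs1' : (s : Matrix ι ι F) *ᵥ d₁' = d₁') (hs2 : (s : Matrix ι ι F) *ᵥ d₂ = d₂)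
    (hs2' : (s : Matrix ι ι F) *ᵥ d₂' = d₂') : s = 1 := by
  apply gl_ext
  intro x
  obtain ⟨w, hw, hxw⟩ := decomp hf hW x
  obtain ⟨m, hm⟩ : ∃ m, m = x - w := ⟨_, rfl⟩
  rw [← hm] at hxw
  have hx : x = w + m := by
    rw [hm]
    abel
  obtain ⟨c₁, c₂, c₃, c₄, hmdec⟩ :
      ∃ c₁ c₂ c₃ c₄ : F, m = c₁ • d₁ + c₂ • d₁' + c₃ • d₂ + c₄ • d₂' :=
    ⟨_, _, _, _, Fr.dec m hxw⟩
  rw [Units.val_one, Matrix.one_mulVec, hx, Matrix.mulVec_add, hsW w hw, hmdec]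
  simp only [Matrix.mulVec_add, Matrix.mulVec_smul, hs1, hs1', hs2, hs2']

theorem c_fix2 {K : Subgroup (GL ι F)} (hG : Gen σ f K) {W : Submodule F (ι → F)}
    (hW : NDeg f W) {d₁ d₁' d₂ d₂' : ι → F} (Fr : Frame4 hG.hf W d₁ d₁' d₂ d₂') (s : GL ι F)
    (hs : Isom f s) (hsW : ∀ w ∈ W, (s : Matrix ι ι F) *ᵥ w = w)
    (hs1 : (s : Matrix ι ι F) *ᵥ d₁ = d₁) (hs1' : (s : Matrix ι ι F) *ᵥ d₁' = d₁')
    (hs2 : (s : Matrix ι ι F) *ᵥ d₂ = d₂) : s ∈ K := by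
  have hf := hG.hf
  have h2'2 := Fr.h2.d'd hf
  have h2'1 : f d₂' d₁ = 0 := hf.eq_zero_symm Fr.o12'
  have h2'1' : f d₂' d₁' = 0 := hf.eq_zero_symm Fr.o1'2'
  obtain ⟨α, β, hv⟩ : ∃ α β : F, (s : Matrix ι ι F) *ᵥ d₂' = α • d₂ + β • d₂' :=
    ⟨_, _, plane_dec hf Fr s hs hsW hs1 hs1' d₂' Fr.m2' h2'1 h2'1'⟩
  have hβ : β = 1 := by
    have := hs d₂ d₂'
    rw [hs2, hv, hf.add_right, hf.smul_right, hf.smul_right, Fr.h2.dd, Fr.h2.dd', mul_zero,
      zero_add, mul_one] at this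
    have h := congrArg σ this
    rwa [hf.invol, map_one] at h
  have hα : α + σ α = 0 := by
    have := hs d₂' d₂'
    rw [hv, hβ] at this
    simp only [hf.add_left, hf.add_right, hf.smul_left, hf.smul_right, Fr.h2.dd, Fr.h2.d'd',
      Fr.h2.dd', h2'2, mul_zero, mul_one, add_zero, zero_add, map_one, one_mul] at this
    linear_combination this
  obtain ⟨t, htK, ht⟩ := tv_ex hG d₂ Fr.h2.dd (-α) (by
    rw [map_neg]
    linear_combination -hα)
  have h1 : t * s = 1 := by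
    apply fix_all hf hW Fr
    · intro w hw
      rw [Units.val_mul, ← Matrix.mulVec_mulVec, hsW w hw, ht, Fr.m2 w hw, mul_zero, zero_smul,
        add_zero]
    · rw [Units.val_mul, ← Matrix.mulVec_mulVec, hs1, ht, Fr.o12, mul_zero, zero_smul, add_zero]
    · rw [Units.val_mul, ← Matrix.mulVec_mulVec, hs1', ht, Fr.o1'2, mul_zero, zero_smul,
        add_zero]
    · rw [Units.val_mul, ← Matrix.mulVec_mulVec, hs2, ht, Fr.h2.dd, mul_zero, zero_smul,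
        add_zero]
    · rw [Units.val_mul, ← Matrix.mulVec_mulVec, hv, ht, hβ]
      simp only [hf.add_left, hf.smul_left, Fr.h2.dd, h2'2, mul_zero, mul_one, zero_add,
        one_smul]
      module
  have e : s = t⁻¹ := eq_inv_of_mul_eq_one_right h1
  rw [e]
  exact K.inv_mem htK

theorem c_scal {K : Subgroup (GL ι F)} (hG : Gen σ f K) {W : Submodule F (ι → F)}
    (hW : NDeg f W) {d₁ d₁' d₂ d₂' : ι → F} (Fr : Frame4 hG.hf W d₁ d₁' d₂ d₂') (s : GL ι F)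
    (hs : Isom f s) (hdet : (s : Matrix ι ι F).det = 1)
    (hsW : ∀ w ∈ W, (s : Matrix ι ι F) *ᵥ w = w)
    (hs1 : (s : Matrix ι ι F) *ᵥ d₁ = d₁) (hs1' : (s : Matrix ι ι F) *ᵥ d₁' = d₁') (a : F)
    (hs2 : (s : Matrix ι ι F) *ᵥ d₂ = a • d₂) : s ∈ K := by
  have hf := hG.hf
  have h2'2 := Fr.h2.d'd hf
  have h21 : f d₂ d₁ = 0 := hf.eq_zero_symm Fr.o12
  have h21' : f d₂ d₁' = 0 := hf.eq_zero_symm Fr.o1'2
  have h2'1 : f d₂' d₁ = 0 := hf.eq_zero_symm Fr.o12'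
  have h2'1' : f d₂' d₁' = 0 := hf.eq_zero_symm Fr.o1'2'
  obtain ⟨α, β, hv⟩ : ∃ α β : F, (s : Matrix ι ι F) *ᵥ d₂' = α • d₂ + β • d₂' :=
    ⟨_, _, plane_dec hf Fr s hs hsW hs1 hs1' d₂' Fr.m2' h2'1 h2'1'⟩
  have haβ : a * σ β = 1 := by
    have := hs d₂ d₂'
    rw [hs2, hv] at this
    simp only [hf.add_right, hf.smul_left, hf.smul_right, Fr.h2.dd, Fr.h2.dd', mul_zero,
      mul_one, zero_add] at this
    exact this
  have ha0 : a ≠ 0 := left_ne_zero_of_mul_eq_one haβ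
  have hσβ0 : σ β ≠ 0 := right_ne_zero_of_mul_eq_one haβ
  have hβ0 : β ≠ 0 := by
    rintro rfl
    rw [map_zero] at hσβ0
    exact hσβ0 rfl
  have hiso : α * σ β + β * σ α = 0 := by
    have := hs d₂' d₂'
    rw [hv] at this
    simp only [hf.add_left, hf.add_right, hf.smul_left, hf.smul_right, Fr.h2.dd, Fr.h2.d'd',
      Fr.h2.dd', h2'2, mul_zero, mul_one, add_zero, zero_add] at this
    linear_combination this
  obtain ⟨t, htK, ht⟩ := tv_ex hG d₂ Fr.h2.dd (-α / β) (by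
    rw [map_div₀, map_neg]
    field_simp
    linear_combination -hiso)
  have hs'W : ∀ w ∈ W, ((t * s : GL ι F) : Matrix ι ι F) *ᵥ w = w := by
    intro w hw
    rw [Units.val_mul, ← Matrix.mulVec_mulVec, hsW w hw, ht, Fr.m2 w hw, mul_zero, zero_smul,
      add_zero]
  have hs'1 : ((t * s : GL ι F) : Matrix ι ι F) *ᵥ d₁ = d₁ := by
    rw [Units.val_mul, ← Matrix.mulVec_mulVec, hs1, ht, Fr.o12, mul_zero, zero_smul, add_zero]
  have hs'1' : ((t * s : GL ι F) : Matrix ι ι F) *ᵥ d₁' = d₁' := by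
    rw [Units.val_mul, ← Matrix.mulVec_mulVec, hs1', ht, Fr.o1'2, mul_zero, zero_smul, add_zero]
  have hs'2 : ((t * s : GL ι F) : Matrix ι ι F) *ᵥ d₂ = a • d₂ := by
    rw [Units.val_mul, ← Matrix.mulVec_mulVec, hs2, ht, hf.smul_left, Fr.h2.dd, mul_zero,
      mul_zero, zero_smul, add_zero]
  have hs'2' : ((t * s : GL ι F) : Matrix ι ι F) *ᵥ d₂' = β • d₂' := by
    rw [Units.val_mul, ← Matrix.mulVec_mulVec, hv, ht]
    simp only [hf.add_left, hf.smul_left, Fr.h2.dd, h2'2, mul_zero, mul_one, zero_add]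
    have e : -α / β * β = -α := div_mul_cancel₀ _ hβ0
    rw [e]
    module
  have hmat : ((t * s : GL ι F) : Matrix ι ι F) =
      tv d₂ ((a - 1) • rep f d₂') * tv d₂' ((β - 1) • rep f d₂) := by
    rw [Matrix.ext_iff_mulVec]
    intro x
    obtain ⟨w, hw, hxw⟩ := decomp hf hW x
    obtain ⟨m, hm⟩ : ∃ m, m = x - w := ⟨_, rfl⟩
    rw [← hm] at hxw
    have hx : x = w + m := by
      rw [hm]
      abel
    obtain ⟨c₁, c₂, c₃, c₄, hmdec⟩ :
        ∃ c₁ c₂ c₃ c₄ : F, m = c₁ • d₁ + c₂ • d₁' + c₃ • d₂ + c₄ • d₂' :=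
      ⟨_, _, _, _, Fr.dec m hxw⟩
    rw [← Matrix.mulVec_mulVec, tv_mulVec, tv_mulVec, smul_dotProduct, smul_dotProduct,
      hf.rep_dot, hf.rep_dot, hx, Matrix.mulVec_add, hs'W w hw, hmdec]
    simp only [Matrix.mulVec_add, Matrix.mulVec_smul, hs'1, hs'1', hs'2, hs'2', hf.add_left,
      hf.smul_left, Fr.m2 w hw, Fr.m2' w hw, Fr.h1.dd, Fr.h2.dd, Fr.h2.d'd', Fr.h2.dd', h2'2,
      Fr.o12, Fr.o12', Fr.o1'2, Fr.o1'2', mul_zero, mul_one, zero_add, add_zero, smul_eq_mul]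
    module
  have hdet' : a * β = 1 := by
    have h1 : ((t * s : GL ι F) : Matrix ι ι F).det = 1 := by
      rw [Units.val_mul, Matrix.det_mul, hG.det t htK, hdet, one_mul]
    rw [hmat, Matrix.det_mul, tv, tv, Matrix.vecMulVec_eq Unit, Matrix.vecMulVec_eq Unit,
      Matrix.det_one_add_replicateCol_mul_replicateRow,
      Matrix.det_one_add_replicateCol_mul_replicateRow, smul_dotProduct, smul_dotProduct,
      hf.rep_dot, hf.rep_dot, Fr.h2.dd', h2'2] at h1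
    simp only [smul_eq_mul, mul_one] at h1
    linear_combination h1
  have hσa : σ a = a := by
    have h1 : σ a * β = 1 := by
      have := congrArg σ haβ
      rwa [map_mul, hf.invol, map_one] at this
    exact mul_right_cancel₀ hβ0 (h1.trans hdet'.symm)
  obtain ⟨τ, hτK, hτd, hτfix⟩ := diag_ex hG Fr.h2 a hσa ha0
  have hτi := hG.isom τ hτK
  have hfin : τ⁻¹ * (t * s) ∈ K := by
    apply c_fix2 hG hW Fr _ (isom_mul (isom_inv hτi) (isom_mul (hG.isom t htK) hs))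
    · intro w hw
      rw [Units.val_mul, ← Matrix.mulVec_mulVec, hs'W w hw]
      exact inv_fix τ w (hτfix w (Fr.m2 w hw) (Fr.m2' w hw))
    · rw [Units.val_mul, ← Matrix.mulVec_mulVec, hs'1]
      exact inv_fix τ d₁ (hτfix d₁ Fr.o12 Fr.o12')
    · rw [Units.val_mul, ← Matrix.mulVec_mulVec, hs'1']
      exact inv_fix τ d₁' (hτfix d₁' Fr.o1'2 Fr.o1'2')
    · rw [Units.val_mul, ← Matrix.mulVec_mulVec, hs'2, ← hτd, gl_inv_mulVec]
  have e : s = t⁻¹ * (τ * (τ⁻¹ * (t * s))) := by group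
  rw [e]
  exact K.mul_mem (K.inv_mem htK) (K.mul_mem hτK hfin)

/-- an isometry of determinant one fixing `W` and the first hyperbolic pair lies in `K` -/
theorem base4 {K : Subgroup (GL ι F)} (hG : Gen σ f K) {W : Submodule F (ι → F)}
    (hW : NDeg f W) {d₁ d₁' d₂ d₂' : ι → F} (Fr : Frame4 hG.hf W d₁ d₁' d₂ d₂') (s : GL ι F)
    (hs : Isom f s) (hdet : (s : Matrix ι ι F).det = 1)
    (hsW : ∀ w ∈ W, (s : Matrix ι ι F) *ᵥ w = w)
    (hs1 : (s : Matrix ι ι F) *ᵥ d₁ = d₁) (hs1' : (s : Matrix ι ι F) *ᵥ d₁' = d₁') :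
    s ∈ K := by
  have hf := hG.hf
  have h2'2 := Fr.h2.d'd hf
  have h21 : f d₂ d₁ = 0 := hf.eq_zero_symm Fr.o12
  have h21' : f d₂ d₁' = 0 := hf.eq_zero_symm Fr.o1'2
  obtain ⟨a, b, hv⟩ : ∃ a b : F, (s : Matrix ι ι F) *ᵥ d₂ = a • d₂ + b • d₂' :=
    ⟨_, _, plane_dec hf Fr s hs hsW hs1 hs1' d₂ Fr.m2 h21 h21'⟩
  have hiso : a * σ b + b * σ a = 0 := by
    have := hs d₂ d₂
    rw [hv] at this
    simp only [hf.add_left, hf.add_right, hf.smul_left, hf.smul_right, Fr.h2.dd, Fr.h2.d'd',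
      Fr.h2.dd', h2'2, mul_zero, mul_one, add_zero, zero_add] at this
    linear_combination this
  have hab : a ≠ 0 ∨ b ≠ 0 := by
    by_contra hcon
    push Not at hcon
    have := hs d₂ d₂'
    rw [hv, hcon.1, hcon.2, zero_smul, zero_smul, add_zero, hf.zero_left, Fr.h2.dd'] at this
    exact zero_ne_one this
  obtain ⟨ζ, hζ0, hζ⟩ := hf.exists_zeta
  obtain ⟨c₁, hc₁, hc₁'⟩ : ∃ c₁ : F, c₁ + σ c₁ = 0 ∧ a + c₁ * b ≠ 0 := by
    by_cases ha : a = 0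
    · refine ⟨ζ, hζ, ?_⟩
      rw [ha, zero_add]
      exact mul_ne_zero hζ0 (hab.resolve_left (not_not.mpr ha))
    · exact ⟨0, by rw [map_zero, add_zero], by rw [zero_mul, add_zero]; exact ha⟩
  obtain ⟨k₁, hk₁K, hk₁⟩ := tv_ex hG d₂ Fr.h2.dd c₁ hc₁
  obtain ⟨a', ha'⟩ : ∃ a', a' = a + c₁ * b := ⟨_, rfl⟩
  have hiso' : a' * σ b + b * σ a' = 0 := by
    rw [ha', map_add, map_mul]
    linear_combination hiso + (b * σ b) * hc₁
  have ha'0 : a' ≠ 0 := by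
    rw [ha']
    exact hc₁'
  have hσa'0 : σ a' ≠ 0 := by
    intro h
    apply ha'0
    have := congrArg σ h
    rwa [hf.invol, map_zero] at this
  obtain ⟨k₂, hk₂K, hk₂⟩ := tv_ex hG d₂' Fr.h2.d'd' (-b / a') (by
    rw [map_div₀, map_neg]
    field_simp
    linear_combination -hiso')
  have hfin : k₂ * k₁ * s ∈ K := by
    apply c_scal hG hW Fr _ (isom_mul (isom_mul (hG.isom k₂ hk₂K) (hG.isom k₁ hk₁K)) hs)
      ?_ ?_ ?_ ?_ a' ?_
    · rw [Units.val_mul, Units.val_mul, Matrix.det_mul, Matrix.det_mul, hG.det k₂ hk₂K,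
        hG.det k₁ hk₁K, hdet, one_mul, one_mul]
    · intro w hw
      rw [Units.val_mul, Units.val_mul, ← Matrix.mulVec_mulVec, ← Matrix.mulVec_mulVec,
        hsW w hw, hk₁, Fr.m2 w hw, mul_zero, zero_smul, add_zero, hk₂, Fr.m2' w hw, mul_zero,
        zero_smul, add_zero]
    · rw [Units.val_mul, Units.val_mul, ← Matrix.mulVec_mulVec, ← Matrix.mulVec_mulVec,
        hs1, hk₁, Fr.o12, mul_zero, zero_smul, add_zero, hk₂, Fr.o12', mul_zero,
        zero_smul, add_zero]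
    · rw [Units.val_mul, Units.val_mul, ← Matrix.mulVec_mulVec, ← Matrix.mulVec_mulVec,
        hs1', hk₁, Fr.o1'2, mul_zero, zero_smul, add_zero, hk₂, Fr.o1'2', mul_zero,
        zero_smul, add_zero]
    · have e1 : (k₁ : Matrix ι ι F) *ᵥ (a • d₂ + b • d₂') = a' • d₂ + b • d₂' := by
        rw [hk₁, ha']
        simp only [hf.add_left, hf.smul_left, Fr.h2.dd, h2'2, mul_zero, mul_one, zero_add]
        module
      have e2 : (k₂ : Matrix ι ι F) *ᵥ (a' • d₂ + b • d₂') = a' • d₂ := by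
        rw [hk₂]
        simp only [hf.add_left, hf.smul_left, Fr.h2.d'd', Fr.h2.dd', mul_zero, mul_one,
          add_zero]
        have e : -b / a' * a' = -b := div_mul_cancel₀ _ ha'0
        rw [e]
        module
      rw [Units.val_mul, Units.val_mul, ← Matrix.mulVec_mulVec, ← Matrix.mulVec_mulVec, hv,
        e1, e2]
  have e : s = k₁⁻¹ * (k₂⁻¹ * (k₂ * k₁ * s)) := by group
  rw [e]
  exact K.mul_mem (K.inv_mem hk₁K) (K.mul_mem (K.inv_mem hk₂K) hfin)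

end Cfsg.Agent.Lib.Helper13.HermGen
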