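import Mathlib
import Cfsg.Agent.Lib.Helper28.Herm
import Cfsg.Agent.Lib.Helper13.HermSub
import Cfsg.Agent.Lib.Helper13.HermFrame
import Cfsg.Agent.Lib.Helper13.HermGen
import Cfsg.Agent.Lib.Helper13.HermGen2
import Cfsg.Agent.Lib.Helper13.HermGen3

set_option autoImplicit false
open Cfsg

namespace Cfsg.Agent.Lib.Helper13.HermGen

open Matrix
open Cfsg.Agent.S5631 Cfsg.Agent.S5645 Cfsg.Agent.S5642 Cfsg.Agent.Lib.Helper28.SLGen
open Cfsg.Agent.Lib.Helper28.Herm
open Cfsg.Agent.Lib.Helper13.HermSub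
open Cfsg.Agent.Lib.Helper13

variable {ι : Type} [Fintype ι] [DecidableEq ι] {F : Type*} [Field F]
variable {σ : F →+* F} {f : (ι → F) → (ι → F) → F}

theorem span_perp (hf : IsHerm σ f) (S : Set (ι → F)) (y : ι → F) (h : ∀ x ∈ S, f x y = 0) :
    ∀ w ∈ Submodule.span F S, f w y = 0 := by
  intro w hw
  induction hw using Submodule.span_induction with
  | mem x hx => exact h x hx
  | zero => exact hf.zero_left y
  | add a b _ _ ha hb => rw [hf.add_left, ha, hb, add_zero]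
  | smul c a _ ha => rw [hf.smul_left, ha, mul_zero]

theorem ndeg_top (hf : IsHerm σ f) : NDeg f (⊤ : Submodule F (ι → F)) :=
  fun u _ h => hf.nondeg u (fun x => h x Submodule.mem_top)

theorem ndeg_bot : NDeg f (⊥ : Submodule F (ι → F)) :=
  fun u hu _ => (Submodule.mem_bot F).mp hu

/-- in dimension three -/
theorem main3 [Finite F] {K : Subgroup (GL ι F)} (hG : Gen σ f K) (hc3 : Fintype.card ι = 3)
    (hq : ∃ a : F, σ a = a ∧ a ≠ 0 ∧ a ≠ 1) (s : GL ι F) (hs : Isom f s)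
    (hdet : (s : Matrix ι ι F).det = 1) : s ∈ K := by
  have hf := hG.hf
  have hne : Nonempty ι := Fintype.card_pos_iff.mp (by omega)
  have hfrT : Module.finrank F (⊤ : Submodule F (ι → F)) = Fintype.card ι := by
    rw [finrank_top, Module.finrank_pi]
  obtain ⟨a, ha, ha0, ha1⟩ := hq
  obtain ⟨e, -, heo⟩ := HermFrame.onb_exists hf 3 ⊤ (ndeg_top hf) (by rw [hfrT, hc3])
  have Fr : HermFrame.Frame f ⊤ 3 e := ⟨fun i => Submodule.mem_top, heo, by rw [hfrT, hc3]⟩
  have hexp : ∀ x, x = f x (e 0) • e 0 + f x (e 1) • e 1 + f x (e 2) • e 2 := by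
    intro x
    have := HermFrame.syn_ana hf Fr x Submodule.mem_top
    rw [HermFrame.syn_apply, Fin.sum_univ_three] at this
    simp only [HermFrame.ana_apply] at this
    exact this.symm
  have h00 : f (e 0) (e 0) = 1 := by rw [heo, if_pos rfl]
  have h11 : f (e 1) (e 1) = 1 := by rw [heo, if_pos rfl]
  have h22 : f (e 2) (e 2) = 1 := by rw [heo, if_pos rfl]
  have h01 : f (e 0) (e 1) = 0 := by rw [heo, if_neg (by decide)]
  have h20 : f (e 2) (e 0) = 0 := by rw [heo, if_neg (by decide)]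
  have h21 : f (e 2) (e 1) = 0 := by rw [heo, if_neg (by decide)]
  obtain ⟨d, d', ⟨p, q, r, t, hd, hd'⟩, hp, hdec⟩ := hyp_of_onb hf (e 0) (e 1) h00 h11 h01
  have F3 : Frame3 f d d' (e 2) := by
    refine ⟨hp, h22, ?_, ?_, fun y => ?_⟩
    · rw [hd, hf.add_right, hf.smul_right, hf.smul_right, h20, h21, mul_zero, mul_zero, add_zero]
    · rw [hd', hf.add_right, hf.smul_right, hf.smul_right, h20, h21, mul_zero, mul_zero,
        add_zero]
    · rw [← hdec y]
      exact hexp y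
  obtain ⟨k, hkK, -, hk1, hk2⟩ := hyp_step hG ⊥ ndeg_bot (by rw [finrank_bot]; omega) d d'
    (fun w hw => by rw [(Submodule.mem_bot F).mp hw, hf.zero_left])
    (fun w hw => by rw [(Submodule.mem_bot F).mp hw, hf.zero_left]) hp
    (fun u _ hud lam hlam => eich3 hG F3 a ha ha0 ha1 u hud lam hlam) s hs
    (fun w hw => by rw [(Submodule.mem_bot F).mp hw, Matrix.mulVec_zero])
  have h1 : k * s = 1 := base3 hf F3 (k * s) (isom_mul (hG.isom k hkK) hs)
    (by rw [Units.val_mul, Matrix.det_mul, hG.det k hkK, hdet, one_mul]) hk1 hk2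
  have e : s = k⁻¹ := eq_inv_of_mul_eq_one_right h1
  rw [e]
  exact K.inv_mem hkK

/-- in dimension at least four -/
theorem main4 [Finite F] {K : Subgroup (GL ι F)} (hG : Gen σ f K) (h4 : 4 ≤ Fintype.card ι)
    (s : GL ι F) (hs : Isom f s) (hdet : (s : Matrix ι ι F).det = 1) : s ∈ K := by
  have hf := hG.hf
  have hfrT : Module.finrank F (⊤ : Submodule F (ι → F)) = Fintype.card ι := by
    rw [finrank_top, Module.finrank_pi]
  obtain ⟨k', hk'⟩ := Nat.exists_eq_add_of_le h4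
  obtain ⟨e, -, heo⟩ := HermFrame.onb_exists hf (4 + k') ⊤ (ndeg_top hf) (by rw [hfrT, hk'])
  have Fr : HermFrame.Frame f ⊤ (4 + k') e :=
    ⟨fun i => Submodule.mem_top, heo, by rw [hfrT, hk']⟩
  have hexp : ∀ x, x = ∑ i : Fin 4, f x (e (Fin.castAdd k' i)) • e (Fin.castAdd k' i) +
      ∑ j : Fin k', f x (e (Fin.natAdd 4 j)) • e (Fin.natAdd 4 j) := by
    intro x
    have := HermFrame.syn_ana hf Fr x Submodule.mem_top
    rw [HermFrame.syn_apply, Fin.sum_univ_add] at this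
    simp only [HermFrame.ana_apply] at this
    exact this.symm
  obtain ⟨W, hWdef⟩ : ∃ W : Submodule F (ι → F),
      W = Submodule.span F (Set.range (fun j : Fin k' => e (Fin.natAdd 4 j))) := ⟨_, rfl⟩
  have hWe : ∀ j : Fin k', e (Fin.natAdd 4 j) ∈ W := fun j => by
    rw [hWdef]
    exact Submodule.subset_span ⟨j, rfl⟩
  have horth : ∀ i : Fin 4, ∀ j : Fin k',
      f (e (Fin.natAdd 4 j)) (e (Fin.castAdd k' i)) = 0 := by
    intro i j
    rw [heo, if_neg]
    intro h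
    have h1 := congrArg Fin.val h
    rw [Fin.val_natAdd, Fin.val_castAdd] at h1
    have := i.isLt
    omega
  have hperp : ∀ i : Fin 4, e (Fin.castAdd k' i) ∈ perp hf W := by
    intro i w hw
    rw [hWdef] at hw
    exact span_perp hf _ _ (by rintro _ ⟨j, rfl⟩; exact horth i j) w hw
  have hW : NDeg f W := by
    intro u hu h
    rw [hexp u]
    have h1 : ∀ i : Fin 4, f u (e (Fin.castAdd k' i)) = 0 := fun i => hperp i u hu
    have h2 : ∀ j : Fin k', f u (e (Fin.natAdd 4 j)) = 0 :=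
      fun j => hf.eq_zero_symm (h _ (hWe j))
    simp only [h1, h2, zero_smul, Finset.sum_const_zero, add_zero]
  have hWfr : Module.finrank F W ≤ k' := by
    rw [hWdef]
    have := finrank_range_le_card (R := F) (fun j : Fin k' => e (Fin.natAdd 4 j))
    rwa [Fintype.card_fin] at this
  obtain ⟨e₀, he₀⟩ : ∃ e₀, e₀ = e (Fin.castAdd k' 0) := ⟨_, rfl⟩
  obtain ⟨e₁, he₁⟩ : ∃ e₁, e₁ = e (Fin.castAdd k' 1) := ⟨_, rfl⟩
  obtain ⟨e₂, he₂⟩ : ∃ e₂, e₂ = e (Fin.castAdd k' 2) := ⟨_, rfl⟩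
  obtain ⟨e₃, he₃⟩ : ∃ e₃, e₃ = e (Fin.castAdd k' 3) := ⟨_, rfl⟩
  have hdec4 : ∀ x ∈ perp hf W,
      x = f x e₀ • e₀ + f x e₁ • e₁ + f x e₂ • e₂ + f x e₃ • e₃ := by
    intro x hx
    have h2 : ∀ j : Fin k', f x (e (Fin.natAdd 4 j)) = 0 :=
      fun j => hf.eq_zero_symm (hx _ (hWe j))
    have := hexp x
    simp only [h2, zero_smul, Finset.sum_const_zero, add_zero, Fin.sum_univ_four] at this
    rw [he₀, he₁, he₂, he₃]
    exact this
  have ho : ∀ i j : Fin 4, f (e (Fin.castAdd k' i)) (e (Fin.castAdd k' j)) =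
      if i = j then 1 else 0 := by
    intro i j
    rw [heo]
    simp only [Fin.castAdd_inj]
  have hm0 : e₀ ∈ perp hf W := by rw [he₀]; exact hperp 0
  have hm1 : e₁ ∈ perp hf W := by rw [he₁]; exact hperp 1
  have hm2 : e₂ ∈ perp hf W := by rw [he₂]; exact hperp 2
  have hm3 : e₃ ∈ perp hf W := by rw [he₃]; exact hperp 3
  have h00 : f e₀ e₀ = 1 := by rw [he₀, ho, if_pos rfl]
  have h11 : f e₁ e₁ = 1 := by rw [he₁, ho, if_pos rfl]
  have h22 : f e₂ e₂ = 1 := by rw [he₂, ho, if_pos rfl]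
  have h33 : f e₃ e₃ = 1 := by rw [he₃, ho, if_pos rfl]
  have h01 : f e₀ e₁ = 0 := by rw [he₀, he₁, ho, if_neg (by decide)]
  have h23 : f e₂ e₃ = 0 := by rw [he₂, he₃, ho, if_neg (by decide)]
  have h02 : f e₀ e₂ = 0 := by rw [he₀, he₂, ho, if_neg (by decide)]
  have h03 : f e₀ e₃ = 0 := by rw [he₀, he₃, ho, if_neg (by decide)]
  have h12 : f e₁ e₂ = 0 := by rw [he₁, he₂, ho, if_neg (by decide)]
  have h13 : f e₁ e₃ = 0 := by rw [he₁, he₃, ho, if_neg (by decide)]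
  obtain ⟨d₁, d₁', ⟨p, q, r, t, hd₁, hd₁'⟩, hp₁, hdec₁⟩ := hyp_of_onb hf e₀ e₁ h00 h11 h01
  obtain ⟨d₂, d₂', ⟨p₂, q₂, r₂, t₂, hd₂, hd₂'⟩, hp₂, hdec₂⟩ := hyp_of_onb hf e₂ e₃ h22 h33 h23
  have F4 : Frame4 hf W d₁ d₁' d₂ d₂' := by
    refine ⟨?_, ?_, ?_, ?_, hp₁, hp₂, ?_, ?_, ?_, ?_, fun x hx => ?_⟩
    · rw [hd₁]
      exact (perp hf W).add_mem ((perp hf W).smul_mem _ hm0) ((perp hf W).smul_mem _ hm1)
    · rw [hd₁']
      exact (perp hf W).add_mem ((perp hf W).smul_mem _ hm0) ((perp hf W).smul_mem _ hm1)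
    · rw [hd₂]
      exact (perp hf W).add_mem ((perp hf W).smul_mem _ hm2) ((perp hf W).smul_mem _ hm3)
    · rw [hd₂']
      exact (perp hf W).add_mem ((perp hf W).smul_mem _ hm2) ((perp hf W).smul_mem _ hm3)
    · rw [hd₁, hd₂]
      simp only [hf.add_left, hf.add_right, hf.smul_left, hf.smul_right, h02, h03, h12, h13,
        mul_zero, add_zero]
    · rw [hd₁, hd₂']
      simp only [hf.add_left, hf.add_right, hf.smul_left, hf.smul_right, h02, h03, h12, h13,
        mul_zero, add_zero]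
    · rw [hd₁', hd₂]
      simp only [hf.add_left, hf.add_right, hf.smul_left, hf.smul_right, h02, h03, h12, h13,
        mul_zero, add_zero]
    · rw [hd₁', hd₂']
      simp only [hf.add_left, hf.add_right, hf.smul_left, hf.smul_right, h02, h03, h12, h13,
        mul_zero, add_zero]
    · rw [add_assoc, ← hdec₁ x, ← hdec₂ x, ← add_assoc]
      exact hdec4 x hx
  obtain ⟨g, hgK, hg⟩ := witt hf K hG.isom hG.hall k' W hW hWfr (by omega) s hs
  have hs'W : ∀ w ∈ W, ((g⁻¹ * s : GL ι F) : Matrix ι ι F) *ᵥ w = w := by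
    intro w hw
    rw [Units.val_mul, ← Matrix.mulVec_mulVec, ← hg w hw, gl_inv_mulVec]
  have hs'i : Isom f (g⁻¹ * s) := isom_mul (isom_inv (hG.isom g hgK)) hs
  have hs'det : ((g⁻¹ * s : GL ι F) : Matrix ι ι F).det = 1 := by
    rw [Units.val_mul, Matrix.det_mul, hG.det _ (K.inv_mem hgK), hdet, one_mul]
  obtain ⟨k, hkK, hkW, hk1, hk2⟩ := hyp_step hG W hW (by omega) d₁ d₁' F4.m1 F4.m1' F4.h1
    (eich4 hG F4) (g⁻¹ * s) hs'i hs'W
  have hfin : k * (g⁻¹ * s) ∈ K := base4 hG hW F4 _ (isom_mul (hG.isom k hkK) hs'i)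
    (by rw [Units.val_mul, Matrix.det_mul, hG.det k hkK, hs'det, one_mul]) hkW hk1 hk2
  have e : s = g * (k⁻¹ * (k * (g⁻¹ * s))) := by group
  rw [e]
  exact K.mul_mem hgK (K.mul_mem (K.inv_mem hkK) hfin)

/-- **generation of the special unitary group by transvections** (abstract form) -/
theorem main [Finite F] {K : Subgroup (GL ι F)} (hG : Gen σ f K) (h3 : 3 ≤ Fintype.card ι)
    (hq : Fintype.card ι = 3 → ∃ a : F, σ a = a ∧ a ≠ 0 ∧ a ≠ 1) (s : GL ι F) (hs : Isom f s)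
    (hdet : (s : Matrix ι ι F).det = 1) : s ∈ K := by
  rcases Nat.lt_or_ge (Fintype.card ι) 4 with h4 | h4
  · have hc3 : Fintype.card ι = 3 := by omega
    exact main3 hG hc3 (hq hc3) s hs hdet
  · exact main4 hG h4 s hs hdet

end Cfsg.Agent.Lib.Helper13.HermGen
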