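import Mathlib
import Cfsg.Agent.S0751
import Cfsg.Agent.Lib.Helper28.Herm
import Cfsg.Agent.Lib.Helper13.HermSub
import Cfsg.Agent.Lib.Helper13.HermFrame
import Cfsg.Agent.Lib.Helper13.HermGen4

set_option autoImplicit false
open Cfsg

namespace Cfsg.Agent.Lib.Helper13.HermInv

open Matrix
open Cfsg.Agent.S5631 Cfsg.Agent.S5645 Cfsg.Agent.S5642 Cfsg.Agent.Lib.Helper28.SLGen
open Cfsg.Agent.Lib.Helper28.Herm
open Cfsg.Agent.Lib.Helper13.HermSub
open Cfsg.Agent.Lib.Helper13

variable {ι : Type} [Fintype ι] [DecidableEq ι] {F : Type*} [Field F]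
variable {σ : F →+* F} {f : (ι → F) → (ι → F) → F}

/-! ### involutory isometries in characteristic two -/

/-- the fixed space of a matrix -/
def fixS (a : GL ι F) : Submodule F (ι → F) where
  carrier := {y | (a : Matrix ι ι F) *ᵥ y = y}
  add_mem' := by
    intro x y hx hy
    show (a : Matrix ι ι F) *ᵥ (x + y) = x + y
    rw [Matrix.mulVec_add, hx, hy]
  zero_mem' := Matrix.mulVec_zero _
  smul_mem' := by
    intro c x hx
    show (a : Matrix ι ι F) *ᵥ (c • x) = c • x
    rw [Matrix.mulVec_smul, hx]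

theorem mem_fixS (a : GL ι F) (y : ι → F) : y ∈ fixS a ↔ (a : Matrix ι ι F) *ᵥ y = y := Iff.rfl

theorem inv_sq (a : GL ι F) (haa : a * a = 1) (x : ι → F) :
    (a : Matrix ι ι F) *ᵥ ((a : Matrix ι ι F) *ᵥ x) = x := by
  rw [Matrix.mulVec_mulVec, ← Units.val_mul, haa, Units.val_one, Matrix.one_mulVec]

theorem inv_sym (a : GL ι F) (ha : Isom f a) (haa : a * a = 1) (x y : ι → F) :
    f ((a : Matrix ι ι F) *ᵥ x) y = f x ((a : Matrix ι ι F) *ᵥ y) := by
  have := ha ((a : Matrix ι ι F) *ᵥ x) y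
  rw [inv_sq a haa] at this
  exact this.symm

theorem neg_eq_self (h2 : (2 : F) = 0) (c : F) : -c = c := by
  linear_combination (-c) * h2

theorem two_smul_zero (h2 : (2 : F) = 0) (v : ι → F) : v + v = 0 := by
  have : v + v = (2 : F) • v := by rw [two_smul]
  rw [this, h2, zero_smul]

/-- the range of `a - 1` is totally isotropic -/
theorem inv_iso (hf : IsHerm σ f) (h2 : (2 : F) = 0) (a : GL ι F) (ha : Isom f a)
    (haa : a * a = 1) (x y : ι → F) :
    f ((a : Matrix ι ι F) *ᵥ x - x) ((a : Matrix ι ι F) *ᵥ y - y) = 0 := by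
  rw [hf.sub_left, hf.sub_right, hf.sub_right, ha, inv_sym a ha haa x y]
  linear_combination (f x y - f x ((a : Matrix ι ι F) *ᵥ y)) * h2

theorem inv_trivial (a : GL ι F) (h : ∀ y, (a : Matrix ι ι F) *ᵥ y = y) :
    ∃ (k : ℕ) (u : Fin k → ι → F), (∀ i, ∃ z, u i = (a : Matrix ι ι F) *ᵥ z - z) ∧
      LinearIndependent F u ∧ ∀ y, (a : Matrix ι ι F) *ᵥ y = y + ∑ i, f y (u i) • u i := by
  refine ⟨0, Fin.elim0, fun i => i.elim0, linearIndependent_empty_type, fun y => ?_⟩
  rw [h y, Finset.univ_eq_empty, Finset.sum_empty, add_zero]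

/-- an involutory isometry in characteristic two is a product of commuting transvections with
independent, mutually orthogonal centres -/
theorem inv_form [Finite F] (hf : IsHerm σ f) (h2 : (2 : F) = 0) :
    ∀ m : ℕ, ∀ a : GL ι F, Isom f a → a * a = 1 →
      Fintype.card ι ≤ Module.finrank F (fixS a) + m →
      ∃ (k : ℕ) (u : Fin k → ι → F), (∀ i, ∃ z, u i = (a : Matrix ι ι F) *ᵥ z - z) ∧
        LinearIndependent F u ∧ ∀ y, (a : Matrix ι ι F) *ᵥ y = y + ∑ i, f y (u i) • u i := by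
  intro m
  induction m with
  | zero =>
    intro a _ _ hm
    apply inv_trivial
    have h1 : Module.finrank F (fixS a) = Module.finrank F (ι → F) := by
      have := Submodule.finrank_le (fixS a)
      rw [Module.finrank_pi] at this ⊢
      omega
    have h3 := Submodule.eq_top_of_finrank_eq h1
    intro y
    have : y ∈ fixS a := by rw [h3]; exact Submodule.mem_top
    exact this
  | succ m ih =>
    intro a ha haa hm
    by_cases hall : ∀ y, f ((a : Matrix ι ι F) *ᵥ y - y) y = 0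
    · -- then `a = 1`
      apply inv_trivial
      obtain ⟨θ, hθ⟩ := hf.ne_id
      have h1 : ∀ x y, f ((a : Matrix ι ι F) *ᵥ x - x) y +
          f ((a : Matrix ι ι F) *ᵥ y - y) x = 0 := by
        intro x y
        have := hall (x + y)
        rw [Matrix.mulVec_add] at this
        have e : (a : Matrix ι ι F) *ᵥ x + (a : Matrix ι ι F) *ᵥ y - (x + y) =
            ((a : Matrix ι ι F) *ᵥ x - x) + ((a : Matrix ι ι F) *ᵥ y - y) := by abel
        rw [e, hf.add_left, hf.add_right, hf.add_right, hall x, hall y] at this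
        linear_combination this
      intro y
      have h0 : (a : Matrix ι ι F) *ᵥ y - y = 0 := by
        apply hf.nondeg' _
        intro x
        have h3 := h1 y x
        have h4 := h1 (θ • y) x
        rw [Matrix.mulVec_smul, ← smul_sub, hf.smul_left, hf.smul_right] at h4
        have h5 : (θ - σ θ) * f ((a : Matrix ι ι F) *ᵥ y - y) x = 0 := by
          linear_combination h4 - (σ θ) * h3
        rcases mul_eq_zero.mp h5 with h6 | h6
        · exact absurd (sub_eq_zero.mp h6).symm hθ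
        · exact h6
      exact sub_eq_zero.mp h0
    · push Not at hall
      obtain ⟨y₀, hy₀⟩ := hall
      have hsymm : ∀ x y, f ((a : Matrix ι ι F) *ᵥ x - x) y =
          f x ((a : Matrix ι ι F) *ᵥ y - y) := by
        intro x y
        rw [hf.sub_left, hf.sub_right, inv_sym a ha haa]
      obtain ⟨c, hc⟩ : ∃ c, c = f ((a : Matrix ι ι F) *ᵥ y₀ - y₀) y₀ := ⟨_, rfl⟩
      have hc0 : c ≠ 0 := by
        rw [hc]
        exact hy₀
      have hσc : σ c = c := by
        rw [hc, ← hf.herm, ← hsymm]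
      obtain ⟨lam, hlam⟩ := hf.norm_surj c⁻¹ (by rw [map_inv₀, hσc])
      obtain ⟨y₁, hy₁⟩ : ∃ y₁, y₁ = lam • y₀ := ⟨_, rfl⟩
      obtain ⟨u₁, hu₁⟩ : ∃ u₁, u₁ = (a : Matrix ι ι F) *ᵥ y₁ - y₁ := ⟨_, rfl⟩
      have hu₁y : f u₁ y₁ = 1 := by
        rw [hu₁, hy₁, Matrix.mulVec_smul, ← smul_sub, hf.smul_left, hf.smul_right, ← hc]
        have e : lam * (σ lam * c) = σ lam * lam * c := by ring
        rw [e, hlam, inv_mul_cancel₀ hc0]
      have hyu₁ : f y₁ u₁ = 1 := by rw [hf.herm, hu₁y, map_one]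
      have hu₁u₁ : f u₁ u₁ = 0 := by
        rw [hu₁]
        exact inv_iso hf h2 a ha haa y₁ y₁
      have hau₁ : (a : Matrix ι ι F) *ᵥ u₁ = u₁ := by
        rw [hu₁, Matrix.mulVec_sub, inv_sq a haa]
        linear_combination (norm := module) h2 • (y₁ - (a : Matrix ι ι F) *ᵥ y₁)
      have h1σ : (1 : F) + σ 1 = 0 := by
        rw [map_one]
        linear_combination h2
      have h0 := uT_dot hf u₁ 1 hu₁u₁
      obtain ⟨t, ht⟩ : ∃ t : GL ι F, t = tvG u₁ ((1 : F) • rep f u₁) h0 := ⟨_, rfl⟩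
      have hti : Isom f t := by
        rw [ht]
        exact uT_isom hf u₁ 1 hu₁u₁ h1σ h0
      have htx : ∀ x, (t : Matrix ι ι F) *ᵥ x = x + f x u₁ • u₁ := by
        intro x
        rw [ht, uT_mulVec hf, one_mul]
      have ha'x : ∀ x, ((t * a : GL ι F) : Matrix ι ι F) *ᵥ x =
          (a : Matrix ι ι F) *ᵥ x + f x u₁ • u₁ := by
        intro x
        rw [Units.val_mul, ← Matrix.mulVec_mulVec, htx, inv_sym a ha haa, hau₁]
      have ha'i : Isom f (t * a) := isom_mul hti ha
      have ha'a' : (t * a) * (t * a) = 1 := by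
        apply gl_ext
        intro x
        rw [Units.val_mul, ← Matrix.mulVec_mulVec, ha'x x, ha'x, Matrix.mulVec_add,
          Matrix.mulVec_smul, inv_sq a haa, hau₁, hf.add_left, hf.smul_left, hu₁u₁, mul_zero,
          add_zero, inv_sym a ha haa, hau₁, Units.val_one, Matrix.one_mulVec]
        linear_combination (norm := module) h2 • (f x u₁ • u₁)
      have hy1fix : ((t * a : GL ι F) : Matrix ι ι F) *ᵥ y₁ = y₁ := by
        rw [ha'x, hyu₁, one_smul, hu₁]
        linear_combination (norm := module) h2 • ((a : Matrix ι ι F) *ᵥ y₁ - y₁)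
      have hlt : fixS a < fixS (t * a) := by
        refine lt_of_le_of_ne ?_ ?_
        · intro y hy
          rw [mem_fixS] at hy ⊢
          rw [ha'x, hy]
          have e : f y u₁ = 0 := by
            rw [hu₁, ← hsymm, hy, sub_self, hf.zero_left]
          rw [e, zero_smul, add_zero]
        · intro h
          have h3 : y₁ ∈ fixS (t * a) := hy1fix
          rw [← h, mem_fixS] at h3
          have e : u₁ = 0 := by rw [hu₁, h3, sub_self]
          rw [e, hf.zero_left] at hu₁y
          exact zero_ne_one hu₁y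
      have hfr := Submodule.finrank_lt_finrank_of_lt hlt
      obtain ⟨k', u', hu'1, hu'2, hu'3⟩ := ih (t * a) ha'i ha'a' (by omega)
      refine ⟨k' + 1, Fin.cons u₁ u', ?_, ?_, ?_⟩
      · intro i
        refine Fin.cases ?_ (fun j => ?_) i
        · exact ⟨y₁, by rw [Fin.cons_zero, hu₁]⟩
        · obtain ⟨z, hz⟩ := hu'1 j
          refine ⟨z + f z u₁ • y₁, ?_⟩
          rw [Fin.cons_succ, hz, ha'x, Matrix.mulVec_add, Matrix.mulVec_smul, hu₁]
          module
      · rw [linearIndependent_finCons]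
        refine ⟨hu'2, fun hmem => ?_⟩
        have h5 : ∀ w ∈ Submodule.span F (Set.range u'), f w y₁ = 0 := by
          apply HermGen.span_perp hf
          rintro _ ⟨j, rfl⟩
          obtain ⟨z, hz⟩ := hu'1 j
          have hsymm' : f (((t * a : GL ι F) : Matrix ι ι F) *ᵥ z - z) y₁ =
              f z (((t * a : GL ι F) : Matrix ι ι F) *ᵥ y₁ - y₁) := by
            rw [hf.sub_left, hf.sub_right, inv_sym (t * a) ha'i ha'a']
          rw [hz, hsymm', hy1fix, sub_self, hf.zero_right]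
        have h7 := h5 u₁ hmem
        rw [hu₁y] at h7
        exact one_ne_zero h7
      · intro y
        rw [Fin.sum_univ_succ]
        simp only [Fin.cons_zero, Fin.cons_succ]
        have h6 := hu'3 y
        rw [ha'x] at h6
        linear_combination (norm := module) h6 - h2 • (f y u₁ • u₁)

/-! ### Witt's theorem for totally isotropic families -/

theorem span_ti (hf : IsHerm σ f) {k : ℕ} (u : Fin k → ι → F) (ho : ∀ i j, f (u i) (u j) = 0) :
    ∀ x ∈ Submodule.span F (Set.range u), ∀ y ∈ Submodule.span F (Set.range u), f x y = 0 := by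
  intro x hx y hy
  have h1 : ∀ j, f x (u j) = 0 := by
    intro j
    apply HermGen.span_perp hf _ _ _ x hx
    rintro _ ⟨i, rfl⟩
    exact ho i j
  apply hf.eq_zero_symm
  apply HermGen.span_perp hf _ _ _ y hy
  rintro _ ⟨j, rfl⟩
  exact hf.eq_zero_symm (h1 j)

/-- the hermitian form as a bundled sesquilinear map (semilinear in the first variable) -/
def bForm (hf : IsHerm σ f) : (ι → F) →ₛₗ[σ] (ι → F) →ₗ[F] F :=
  LinearMap.mk₂'ₛₗ σ (RingHom.id F) (fun x y => f y x)
    (fun m₁ m₂ n => hf.add_right n m₁ m₂)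
    (fun c m n => by rw [hf.smul_right, smul_eq_mul])
    (fun m n₁ n₂ => hf.add_left n₁ n₂ m)
    (fun c m n => by rw [hf.smul_left, RingHom.id_apply, smul_eq_mul])

theorem bForm_apply (hf : IsHerm σ f) (x y : ι → F) : bForm hf x y = f y x := rfl

theorem witt_ti [Finite F] (hf : IsHerm σ f) (k : ℕ) (u u' : Fin k → ι → F)
    (hu : LinearIndependent F u) (hu' : LinearIndependent F u')
    (ho : ∀ i j, f (u i) (u j) = 0) (ho' : ∀ i j, f (u' i) (u' j) = 0) :
    ∃ g : GL ι F, Isom f g ∧ ∀ i, (g : Matrix ι ι F) *ᵥ u i = u' i := by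
  have hσ : σ ≠ RingHom.id F := by
    intro h
    obtain ⟨θ, hθ⟩ := hf.ne_id
    rw [h] at hθ
    exact hθ rfl
  have hS : (bForm hf).IsSymm := ⟨fun x y => by
    rw [bForm_apply, bForm_apply]
    exact (hf.herm x y).symm⟩
  have hB : (bForm hf).Nondegenerate :=
    ⟨fun x h => hf.nondeg x (fun y => h y), fun y h => hf.nondeg' y (fun x => h x)⟩
  let φ : Submodule.span F (Set.range u) ≃ₗ[F] Submodule.span F (Set.range u') :=
    (Module.Basis.span hu).equiv (Module.Basis.span hu') (Equiv.refl _)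
  have hφ : ∀ x x' : Submodule.span F (Set.range u),
      bForm hf (φ x : ι → F) (φ x' : ι → F) = bForm hf (x : ι → F) (x' : ι → F) := by
    intro x x'
    rw [bForm_apply, bForm_apply, span_ti hf u ho _ x'.2 _ x.2,
      span_ti hf u' ho' _ (φ x').2 _ (φ x).2]
  obtain ⟨g, hg1, hg2⟩ := Cfsg.Agent.S0751.result σ hσ hf.invol (bForm hf) hS hB _ _ φ hφ
  have hmv : ∀ x, LinearMap.toMatrix' (g : (ι → F) →ₗ[F] (ι → F)) *ᵥ x = g x := by
    intro x
    rw [LinearMap.toMatrix'_mulVec]
    rfl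
  have hiso : ∀ x y, f (LinearMap.toMatrix' (g : (ι → F) →ₗ[F] (ι → F)) *ᵥ x)
      (LinearMap.toMatrix' (g : (ι → F) →ₗ[F] (ι → F)) *ᵥ y) = f x y := by
    intro x y
    rw [hmv, hmv]
    exact hg1 y x
  have hdet := HermFrame.det_ne_zero_of_isom hf _ hiso
  refine ⟨Matrix.GeneralLinearGroup.mkOfDetNeZero _ hdet, hiso, fun i => ?_⟩
  show LinearMap.toMatrix' (g : (ι → F) →ₗ[F] (ι → F)) *ᵥ u i = u' i
  rw [hmv]
  have h1 := hg2 (Module.Basis.span hu i)
  have e1 : ((Module.Basis.span hu i : Submodule.span F (Set.range u)) : ι → F) = u i :=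
    congrArg Subtype.val (Module.Basis.span_apply hu i)
  rw [← e1, h1]
  show ((((Module.Basis.span hu).equiv (Module.Basis.span hu') (Equiv.refl _))
    (Module.Basis.span hu i) : Submodule.span F (Set.range u')) : ι → F) = u' i
  rw [Module.Basis.equiv_apply, Equiv.refl_apply, Module.Basis.span_apply]

/-! ### a scalar on a hyperbolic plane -/

theorem scal_plane (hf : IsHerm σ f) (u₁ x₁ : ι → F) (h11 : f u₁ u₁ = 0) (hxx : f x₁ x₁ = 0)
    (hux : f u₁ x₁ = 1) (lam : F) (hlam : lam * σ lam = 1) :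
    ∃ g : GL ι F, Isom f g ∧ (g : Matrix ι ι F).det = lam * lam ∧
      ∀ y, (g : Matrix ι ι F) *ᵥ y =
        y + ((lam - 1) * f y x₁) • u₁ + ((lam - 1) * f y u₁) • x₁ := by
  have hxu : f x₁ u₁ = 1 := by rw [hf.herm, hux, map_one]
  have hlam0 : lam ≠ 0 := left_ne_zero_of_mul_eq_one hlam
  obtain ⟨G, hG⟩ : ∃ G : Matrix ι ι F,
      G = tv u₁ ((lam - 1) • rep f x₁) * tv x₁ ((lam - 1) • rep f u₁) := ⟨_, rfl⟩
  have hmv : ∀ y, G *ᵥ y = y + ((lam - 1) * f y x₁) • u₁ + ((lam - 1) * f y u₁) • x₁ := by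
    intro y
    rw [hG, ← Matrix.mulVec_mulVec, tv_mulVec, tv_mulVec, smul_dotProduct, smul_dotProduct,
      hf.rep_dot, hf.rep_dot, hf.add_left, hf.smul_left, hxx, mul_zero, add_zero, smul_eq_mul,
      smul_eq_mul]
    module
  have hdet : G.det = lam * lam := by
    rw [hG, Matrix.det_mul, tv, tv, Matrix.vecMulVec_eq Unit, Matrix.vecMulVec_eq Unit,
      Matrix.det_one_add_replicateCol_mul_replicateRow,
      Matrix.det_one_add_replicateCol_mul_replicateRow, smul_dotProduct, smul_dotProduct,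
      hf.rep_dot, hf.rep_dot, hux, hxu]
    simp only [smul_eq_mul, mul_one]
    ring
  have hiso : ∀ x y, f (G *ᵥ x) (G *ᵥ y) = f x y := by
    intro x y
    rw [hmv, hmv]
    simp only [hf.add_left, hf.add_right, hf.smul_left, hf.smul_right, h11, hxx, hux, hxu,
      mul_zero, mul_one, add_zero, zero_add, map_mul, map_sub, map_one]
    rw [← hf.herm x₁ y, ← hf.herm u₁ y]
    linear_combination (f x x₁ * f u₁ y + f x u₁ * f x₁ y) * hlam
  have hne : G.det ≠ 0 := by
    rw [hdet]
    exact mul_ne_zero hlam0 hlam0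
  exact ⟨Matrix.GeneralLinearGroup.mkOfDetNeZero G hne, hiso, hdet, hmv⟩

theorem form_sum (hf : IsHerm σ f) {k : ℕ} (u : Fin k → ι → F) (c : Fin k → F) (w : ι → F) :
    f (∑ i, c i • u i) w = ∑ i, c i * f (u i) w := HermFrame.form_sum_left hf u c w

theorem scal_comm (hf : IsHerm σ f) {k : ℕ} (u : Fin (k + 1) → ι → F)
    (ho : ∀ i j, f (u i) (u j) = 0) (x₁ : ι → F) (hx0 : f (u 0) x₁ = 1)
    (hxs : ∀ j : Fin k, f (u j.succ) x₁ = 0) (lam : F) (b c : GL ι F)
    (hb : ∀ y, (b : Matrix ι ι F) *ᵥ y = y + ∑ i, f y (u i) • u i)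
    (hc : ∀ y, (c : Matrix ι ι F) *ᵥ y =
      y + ((lam - 1) * f y x₁) • u 0 + ((lam - 1) * f y (u 0)) • x₁) :
    c * b = b * c := by
  have hx0' : f x₁ (u 0) = 1 := by rw [hf.herm, hx0, map_one]
  have hxs' : ∀ j : Fin k, f x₁ (u j.succ) = 0 := fun j => hf.eq_zero_symm (hxs j)
  have hb1 : ∀ y, f ((b : Matrix ι ι F) *ᵥ y) x₁ = f y x₁ + f y (u 0) := by
    intro y
    rw [hb, hf.add_left, form_sum hf, Fin.sum_univ_succ, hx0, mul_one]
    simp only [hxs, mul_zero, Finset.sum_const_zero, add_zero]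
  have hb2 : ∀ y, f ((b : Matrix ι ι F) *ᵥ y) (u 0) = f y (u 0) := by
    intro y
    rw [hb, hf.add_left, form_sum hf]
    simp only [ho, mul_zero, Finset.sum_const_zero, add_zero]
  have hc1 : ∀ y (i : Fin (k + 1)), f ((c : Matrix ι ι F) *ᵥ y) (u i) =
      f y (u i) + (lam - 1) * f y (u 0) * f x₁ (u i) := by
    intro y i
    rw [hc, hf.add_left, hf.add_left, hf.smul_left, hf.smul_left, ho, mul_zero, add_zero]
  apply gl_ext
  intro y
  rw [Units.val_mul, Units.val_mul, ← Matrix.mulVec_mulVec, ← Matrix.mulVec_mulVec,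
    hc ((b : Matrix ι ι F) *ᵥ y), hb1, hb2, hb ((c : Matrix ι ι F) *ᵥ y)]
  simp only [hc1]
  rw [hb y, hc y]
  have e : ∑ i, (f y (u i) + (lam - 1) * f y (u 0) * f x₁ (u i)) • u i =
      ∑ i, f y (u i) • u i + ((lam - 1) * f y (u 0)) • u 0 := by
    simp only [add_smul, Finset.sum_add_distrib]
    congr 1
    rw [Fin.sum_univ_succ, hx0', mul_one]
    simp only [hxs', mul_zero, zero_smul, Finset.sum_const_zero, add_zero]
  rw [e]
  module

theorem rank_of_form (N : Matrix ι ι F) {k : ℕ} (u : Fin k → ι → F)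
    (c : (ι → F) → Fin k → F) (hN : ∀ y, N *ᵥ y = ∑ i, c y i • u i)
    (hu1 : ∀ i, ∃ z, u i = N *ᵥ z) (hu2 : LinearIndependent F u) : N.rank = k := by
  have h1 : LinearMap.range N.mulVecLin = Submodule.span F (Set.range u) := by
    apply le_antisymm
    · rintro _ ⟨y, rfl⟩
      rw [Matrix.mulVecLin_apply, hN]
      exact Submodule.sum_mem _
        (fun i _ => Submodule.smul_mem _ _ (Submodule.subset_span ⟨i, rfl⟩))
    · rw [Submodule.span_le]
      rintro _ ⟨i, rfl⟩
      obtain ⟨z, hz⟩ := hu1 i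
      exact ⟨z, by rw [hz]; rfl⟩
  show Module.finrank F (LinearMap.range N.mulVecLin) = k
  rw [h1, finrank_span_eq_card hu2, Fintype.card_fin]

end Cfsg.Agent.Lib.Helper13.HermInv
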