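import Mathlib
import Cfsg.Agent.S0749
import Cfsg.Agent.S5631
import Cfsg.Agent.S5645
import Cfsg.Agent.Lib.Helper28.Herm
import Cfsg.Agent.Lib.Helper13.AltFrame
import Cfsg.Agent.Lib.Helper13.HermInv

set_option autoImplicit false
open Cfsg

namespace Cfsg.Agent.Lib.Helper13.AltInv

open Matrix
open Cfsg.Agent.S5631 Cfsg.Agent.S5645
open Cfsg.Agent.Lib.Helper28.Herm (Isom isom_inv isom_mul)
open Cfsg.Agent.Lib.Helper13.HermInv (fixS mem_fixS inv_sq inv_sym inv_trivial)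

variable {ι : Type} [Fintype ι] [DecidableEq ι] {F : Type*} [Field F]
variable {f : (ι → F) → (ι → F) → F}

/-! ### involutory isometries of an alternating form in characteristic two -/

theorem symm2 (hf : IsAlt f) (h2 : (2 : F) = 0) (x y : ι → F) : f x y = f y x := by
  rw [hf.swap x y]
  linear_combination (-(f y x)) * h2

theorem asym (hf : IsAlt f) (a : GL ι F) (ha : Isom f a) (haa : a * a = 1) (x y : ι → F) :
    f ((a : Matrix ι ι F) *ᵥ x - x) y = f x ((a : Matrix ι ι F) *ᵥ y - y) := by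
  rw [hf.sub_left, hf.sub_right, inv_sym a ha haa]

theorem ainv_iso (hf : IsAlt f) (h2 : (2 : F) = 0) (a : GL ι F) (ha : Isom f a)
    (haa : a * a = 1) (x y : ι → F) :
    f ((a : Matrix ι ι F) *ᵥ x - x) ((a : Matrix ι ι F) *ᵥ y - y) = 0 := by
  rw [hf.sub_left, hf.sub_right, hf.sub_right, ha, inv_sym a ha haa x y]
  linear_combination (f x y - f x ((a : Matrix ι ι F) *ᵥ y)) * h2

theorem afix (h2 : (2 : F) = 0) (a : GL ι F) (haa : a * a = 1) (y : ι → F) :
    (a : Matrix ι ι F) *ᵥ ((a : Matrix ι ι F) *ᵥ y - y) = (a : Matrix ι ι F) *ᵥ y - y := by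
  rw [Matrix.mulVec_sub, inv_sq a haa]
  linear_combination (norm := module) h2 • (y - (a : Matrix ι ι F) *ᵥ y)

theorem exists_sqrt [Finite F] (h2 : (2 : F) = 0) (c : F) : ∃ l : F, l * l = c := by
  have : CharP F 2 := CharTwo.of_one_ne_zero_of_two_eq_zero one_ne_zero h2
  obtain ⟨l, hl⟩ := FiniteField.isSquare_of_char_two (ringChar.eq F 2) c
  exact ⟨l, hl.symm⟩

theorem aspan_perp (hf : IsAlt f) (s : Set (ι → F)) (y : ι → F) (h : ∀ w ∈ s, f w y = 0) :
    ∀ w ∈ Submodule.span F s, f w y = 0 := by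
  intro w hw
  induction hw using Submodule.span_induction with
  | mem x hx => exact h x hx
  | zero => exact hf.zero_left y
  | add x z _ _ hx hz => rw [hf.add_left, hx, hz, add_zero]
  | smul c x _ hx => rw [hf.smul_left, hx, mul_zero]

theorem sum_perp (hf : IsAlt f) {k : ℕ} (e : Fin k → F) (u : Fin k → ι → F) (y : ι → F)
    (h : ∀ j, f (u j) y = 0) : f (∑ j, e j • u j) y = 0 := by
  rw [AltFrame.alt_sum_left hf]
  simp [h]

theorem tw_mulVec (hf : IsAlt f) (a : GL ι F) (ha : Isom f a) (haa : a * a = 1) (u : ι → F)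
    (hu : (a : Matrix ι ι F) *ᵥ u = u) (x : ι → F) :
    ((sT hf u 1 * a : GL ι F) : Matrix ι ι F) *ᵥ x = (a : Matrix ι ι F) *ᵥ x + f x u • u := by
  rw [Units.val_mul, ← Matrix.mulVec_mulVec, sT_mulVec, one_mul, inv_sym a ha haa, hu]

theorem tw_sq (hf : IsAlt f) (h2 : (2 : F) = 0) (a : GL ι F) (ha : Isom f a) (haa : a * a = 1)
    (u : ι → F) (hu : (a : Matrix ι ι F) *ᵥ u = u) :
    (sT hf u 1 * a) * (sT hf u 1 * a) = 1 := by
  apply gl_ext
  intro x
  rw [Units.val_mul, ← Matrix.mulVec_mulVec, tw_mulVec hf a ha haa u hu x,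
    tw_mulVec hf a ha haa u hu, Matrix.mulVec_add, Matrix.mulVec_smul, inv_sq a haa, hu,
    hf.add_left, hf.smul_left, hf.self, mul_zero, add_zero, inv_sym a ha haa, hu, Units.val_one,
    Matrix.one_mulVec]
  linear_combination (norm := module) h2 • (f x u • u)

theorem sT_isom (hf : IsAlt f) (u : ι → F) (c : F) : Isom f (sT hf u c) :=
  (mem_G _).mp (sT_mem hf u c)

/-- a good vector to peel off a transvection from a non-alternating involution -/
theorem good_y [Finite F] (hf : IsAlt f) (h2 : (2 : F) = 0) (a : GL ι F) (ha : Isom f a)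
    (haa : a * a = 1) (hna : ∃ y, f ((a : Matrix ι ι F) *ᵥ y - y) y ≠ 0) :
    ∃ y₁, f ((a : Matrix ι ι F) *ᵥ y₁ - y₁) y₁ = 1 ∧
      ((∀ y, (a : Matrix ι ι F) *ᵥ y +
          f y ((a : Matrix ι ι F) *ᵥ y₁ - y₁) • ((a : Matrix ι ι F) *ᵥ y₁ - y₁) = y) ∨
        ∃ z, f ((a : Matrix ι ι F) *ᵥ z +
          f z ((a : Matrix ι ι F) *ᵥ y₁ - y₁) • ((a : Matrix ι ι F) *ᵥ y₁ - y₁) - z) z ≠ 0) := by
  obtain ⟨y₀, hy₀⟩ := hna
  obtain ⟨lam, hlam⟩ := exists_sqrt h2 (f ((a : Matrix ι ι F) *ᵥ y₀ - y₀) y₀)⁻¹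
  obtain ⟨y₁, hy₁⟩ : ∃ y₁, y₁ = lam • y₀ := ⟨_, rfl⟩
  obtain ⟨u₁, hu₁⟩ : ∃ u₁, u₁ = (a : Matrix ι ι F) *ᵥ y₁ - y₁ := ⟨_, rfl⟩
  have hu₁y : f u₁ y₁ = 1 := by
    rw [hu₁, hy₁, Matrix.mulVec_smul, ← smul_sub, hf.smul_left, hf.smul_right, ← mul_assoc, hlam,
      inv_mul_cancel₀ hy₀]
  have hyu₁ : f y₁ u₁ = 1 := by rw [symm2 hf h2, hu₁y]
  by_cases hgood : (∀ y, (a : Matrix ι ι F) *ᵥ y + f y u₁ • u₁ = y) ∨
        ∃ z, f ((a : Matrix ι ι F) *ᵥ z + f z u₁ • u₁ - z) z ≠ 0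
  · refine ⟨y₁, ?_, ?_⟩
    · rw [← hu₁]; exact hu₁y
    · rw [← hu₁]; exact hgood
  · push Not at hgood
    obtain ⟨⟨x₀, hx₀⟩, hall⟩ := hgood
    have hφ : ∀ z, f ((a : Matrix ι ι F) *ᵥ z - z) z = f z u₁ * f z u₁ := by
      intro z
      have h := hall z
      have e : (a : Matrix ι ι F) *ᵥ z + f z u₁ • u₁ - z =
          ((a : Matrix ι ι F) *ᵥ z - z) + f z u₁ • u₁ := by abel
      rw [e, hf.add_left, hf.smul_left, symm2 hf h2 u₁ z] at h
      linear_combination h - (f z u₁ * f z u₁) * h2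
    obtain ⟨x, hx⟩ : ∃ x, x = x₀ + f x₀ u₁ • y₁ := ⟨_, rfl⟩
    have hxu : f x u₁ = 0 := by
      rw [hx, hf.add_left, hf.smul_left, hyu₁]
      linear_combination (f x₀ u₁) * h2
    have hay₁ : (a : Matrix ι ι F) *ᵥ y₁ = u₁ + y₁ := by rw [hu₁]; abel
    obtain ⟨w, hw⟩ : ∃ w, w = (a : Matrix ι ι F) *ᵥ x - x := ⟨_, rfl⟩
    have hw0 : w ≠ 0 := by
      intro h0
      apply hx₀
      rw [hw, hx, Matrix.mulVec_add, Matrix.mulVec_smul, hay₁] at h0
      linear_combination (norm := module) h0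
    have hwy : f w y₁ = 0 := by
      rw [hw, asym hf a ha haa, ← hu₁, hxu]
    have hwx : f w x = 0 := by
      rw [hw, hφ x, hxu, mul_zero]
    have hux : f u₁ x = 0 := by rw [symm2 hf h2, hxu]
    have e : (a : Matrix ι ι F) *ᵥ (y₁ + x) - (y₁ + x) = u₁ + w := by
      rw [Matrix.mulVec_add, hu₁, hw]; abel
    refine ⟨y₁ + x, ?_, Or.inr ?_⟩
    · rw [e, hf.add_left, hf.add_right, hf.add_right, hu₁y, hux, hwy, hwx]
      ring
    · rw [e]
      obtain ⟨z, hz⟩ : ∃ z, f w z ≠ 0 := by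
        by_contra hcon
        push Not at hcon
        exact hw0 (hf.nondeg w hcon)
      refine ⟨z, ?_⟩
      have e2 : (a : Matrix ι ι F) *ᵥ z + f z (u₁ + w) • (u₁ + w) - z =
          ((a : Matrix ι ι F) *ᵥ z - z) + f z (u₁ + w) • (u₁ + w) := by abel
      rw [e2, hf.add_left, hf.smul_left, hφ z, symm2 hf h2 (u₁ + w) z, hf.add_right]
      have e3 : f z u₁ * f z u₁ + (f z u₁ + f z w) * (f z u₁ + f z w) = f z w * f z w := by
        linear_combination (f z u₁ * f z u₁ + f z u₁ * f z w) * h2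
      rw [e3, symm2 hf h2 z w]
      exact mul_ne_zero hz hz

theorem fix_top (a : GL ι F) (hm : Fintype.card ι ≤ Module.finrank F (fixS a) + 0) :
    ∀ y, (a : Matrix ι ι F) *ᵥ y = y := by
  have h1 : Module.finrank F (fixS a) = Module.finrank F (ι → F) := by
    have := Submodule.finrank_le (fixS a)
    rw [Module.finrank_pi] at this ⊢
    omega
  have h3 := Submodule.eq_top_of_finrank_eq h1
  intro y
  have : y ∈ fixS a := by rw [h3]; exact Submodule.mem_top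
  exact this

/-- normal form of a non-alternating involution: a product of commuting transvections with
independent centres -/
theorem nf_B [Finite F] (hf : IsAlt f) (h2 : (2 : F) = 0) :
    ∀ n : ℕ, ∀ a : GL ι F, Isom f a → a * a = 1 →
      Fintype.card ι ≤ Module.finrank F (fixS a) + n →
      ((∀ y, (a : Matrix ι ι F) *ᵥ y = y) ∨ ∃ y, f ((a : Matrix ι ι F) *ᵥ y - y) y ≠ 0) →
      ∃ (k : ℕ) (u : Fin k → ι → F), (∀ i, ∃ z, u i = (a : Matrix ι ι F) *ᵥ z - z) ∧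
        LinearIndependent F u ∧ ∀ y, (a : Matrix ι ι F) *ᵥ y = y + ∑ i, f y (u i) • u i := by
  intro n
  induction n with
  | zero =>
    intro a _ _ hm _
    exact inv_trivial a (fix_top a hm)
  | succ n ih =>
    intro a ha haa hm htype
    rcases htype with htriv | hna
    · exact inv_trivial a htriv
    obtain ⟨y₁, hy₁, hgood⟩ := good_y hf h2 a ha haa hna
    obtain ⟨u₁, hu₁⟩ : ∃ u₁, u₁ = (a : Matrix ι ι F) *ᵥ y₁ - y₁ := ⟨_, rfl⟩
    rw [← hu₁] at hy₁ hgood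
    have hyu₁ : f y₁ u₁ = 1 := by rw [symm2 hf h2, hy₁]
    have hau₁ : (a : Matrix ι ι F) *ᵥ u₁ = u₁ := by rw [hu₁]; exact afix h2 a haa y₁
    have ha'x := tw_mulVec hf a ha haa u₁ hau₁
    have ha'i : Isom f (sT hf u₁ 1 * a) := isom_mul (sT_isom hf u₁ 1) ha
    have ha'a' := tw_sq hf h2 a ha haa u₁ hau₁
    have hy1fix : ((sT hf u₁ 1 * a : GL ι F) : Matrix ι ι F) *ᵥ y₁ = y₁ := by
      rw [ha'x, hyu₁, one_smul, hu₁]
      linear_combination (norm := module) h2 • ((a : Matrix ι ι F) *ᵥ y₁ - y₁)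
    have hlt : fixS a < fixS (sT hf u₁ 1 * a) := by
      refine lt_of_le_of_ne ?_ ?_
      · intro y hy
        rw [mem_fixS] at hy ⊢
        rw [ha'x, hy]
        have e : f y u₁ = 0 := by
          rw [hu₁, ← asym hf a ha haa, hy, sub_self, hf.zero_left]
        rw [e, zero_smul, add_zero]
      · intro h
        have h3 : y₁ ∈ fixS (sT hf u₁ 1 * a) := hy1fix
        rw [← h, mem_fixS] at h3
        have e : u₁ = 0 := by rw [hu₁, h3, sub_self]
        rw [e, hf.zero_left] at hy₁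
        exact zero_ne_one hy₁
    have hfr := Submodule.finrank_lt_finrank_of_lt hlt
    have htype' : (∀ y, ((sT hf u₁ 1 * a : GL ι F) : Matrix ι ι F) *ᵥ y = y) ∨
        ∃ y, f (((sT hf u₁ 1 * a : GL ι F) : Matrix ι ι F) *ᵥ y - y) y ≠ 0 := by
      rcases hgood with h | ⟨z, hz⟩
      · left
        intro y
        rw [ha'x]
        exact h y
      · right
        refine ⟨z, ?_⟩
        rw [ha'x]
        exact hz
    obtain ⟨k', u', hu'1, hu'2, hu'3⟩ := ih (sT hf u₁ 1 * a) ha'i ha'a' (by omega) htype'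
    refine ⟨k' + 1, Fin.cons u₁ u', ?_, ?_, ?_⟩
    · intro i
      refine Fin.cases ?_ (fun j => ?_) i
      · exact ⟨y₁, by rw [Fin.cons_zero, hu₁]⟩
      · obtain ⟨z, hz⟩ := hu'1 j
        refine ⟨z + f z u₁ • y₁, ?_⟩
        rw [Fin.cons_succ, hz, ha'x, Matrix.mulVec_add, Matrix.mulVec_smul, hu₁]
        module
    · rw [linearIndependent_finCons]
      refine ⟨hu'2, fun hmem => ?_⟩
      have h5 : ∀ w ∈ Submodule.span F (Set.range u'), f w y₁ = 0 := by
        apply aspan_perp hf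
        rintro _ ⟨j, rfl⟩
        obtain ⟨z, hz⟩ := hu'1 j
        rw [hz, asym hf _ ha'i ha'a', hy1fix, sub_self, hf.zero_right]
      have h7 := h5 u₁ hmem
      rw [hy₁] at h7
      exact one_ne_zero h7
    · intro y
      rw [Fin.sum_univ_succ]
      simp only [Fin.cons_zero, Fin.cons_succ]
      have h6 := hu'3 y
      rw [ha'x] at h6
      linear_combination (norm := module) h6 - h2 • (f y u₁ • u₁)

/-- twisting an involution by a commuting "hyperbolic" pair -/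
theorem tw2 (hf : IsAlt f) (h2 : (2 : F) = 0) (a : GL ι F) (ha : Isom f a) (haa : a * a = 1)
    (u v : ι → F) (hu : (a : Matrix ι ι F) *ᵥ u = u) (hv : (a : Matrix ι ι F) *ᵥ v = v)
    (huv : f u v = 0) :
    ∃ a' : GL ι F, Isom f a' ∧ a' * a' = 1 ∧ ∀ x, (a' : Matrix ι ι F) *ᵥ x =
      (a : Matrix ι ι F) *ᵥ x + f x u • v + f x v • u := by
  have hvu : f v u = 0 := by rw [symm2 hf h2, huv]
  have h1x := tw_mulVec hf a ha haa v hv
  have h1i : Isom f (sT hf v 1 * a) := isom_mul (sT_isom hf v 1) ha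
  have h1s := tw_sq hf h2 a ha haa v hv
  have h1u : ((sT hf v 1 * a : GL ι F) : Matrix ι ι F) *ᵥ u = u := by
    rw [h1x, hu, huv, zero_smul, add_zero]
  have h2x := tw_mulVec hf _ h1i h1s u h1u
  have h2i : Isom f (sT hf u 1 * (sT hf v 1 * a)) := isom_mul (sT_isom hf u 1) h1i
  have h2s := tw_sq hf h2 _ h1i h1s u h1u
  have h2uv : ((sT hf u 1 * (sT hf v 1 * a) : GL ι F) : Matrix ι ι F) *ᵥ (u + v) = u + v := by
    rw [h2x, h1x, Matrix.mulVec_add, hu, hv, hf.add_left, hf.add_left, hf.self, hf.self, huv, hvu]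
    module
  have h3x := tw_mulVec hf _ h2i h2s (u + v) h2uv
  refine ⟨sT hf (u + v) 1 * (sT hf u 1 * (sT hf v 1 * a)),
    isom_mul (sT_isom hf (u + v) 1) h2i, tw_sq hf h2 _ h2i h2s (u + v) h2uv, fun x => ?_⟩
  rw [h3x, h2x, h1x, hf.add_right]
  linear_combination (norm := module) h2 • (f x u • u + f x v • v)

theorem triv_A (a : GL ι F) (h : ∀ y, (a : Matrix ι ι F) *ᵥ y = y) :
    ∃ (r : ℕ) (u v : Fin r → ι → F), (∀ i, ∃ z, u i = (a : Matrix ι ι F) *ᵥ z - z) ∧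
      (∀ i, ∃ z, v i = (a : Matrix ι ι F) *ᵥ z - z) ∧
      (∀ c d : Fin r → F, ∑ i, c i • u i + ∑ i, d i • v i = 0 →
        (∀ i, c i = 0) ∧ ∀ i, d i = 0) ∧
      ∀ y, (a : Matrix ι ι F) *ᵥ y = y + ∑ i, (f y (u i) • v i + f y (v i) • u i) := by
  refine ⟨0, Fin.elim0, Fin.elim0, fun i => i.elim0, fun i => i.elim0,
    fun c d _ => ⟨fun i => i.elim0, fun i => i.elim0⟩, fun y => ?_⟩
  rw [h y, Finset.univ_eq_empty, Finset.sum_empty, add_zero]

/-- normal form of an alternating involution -/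
theorem nf_A (hf : IsAlt f) (h2 : (2 : F) = 0) :
    ∀ n : ℕ, ∀ a : GL ι F, Isom f a → a * a = 1 →
      Fintype.card ι ≤ Module.finrank F (fixS a) + n →
      (∀ y, f ((a : Matrix ι ι F) *ᵥ y - y) y = 0) →
      ∃ (r : ℕ) (u v : Fin r → ι → F), (∀ i, ∃ z, u i = (a : Matrix ι ι F) *ᵥ z - z) ∧
        (∀ i, ∃ z, v i = (a : Matrix ι ι F) *ᵥ z - z) ∧
        (∀ c d : Fin r → F, ∑ i, c i • u i + ∑ i, d i • v i = 0 →
          (∀ i, c i = 0) ∧ ∀ i, d i = 0) ∧
        ∀ y, (a : Matrix ι ι F) *ᵥ y = y + ∑ i, (f y (u i) • v i + f y (v i) • u i) := by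
  intro n
  induction n with
  | zero =>
    intro a _ _ hm _
    exact triv_A a (fix_top a hm)
  | succ n ih =>
    intro a ha haa hm halt
    by_cases htriv : ∀ y, (a : Matrix ι ι F) *ᵥ y = y
    · exact triv_A a htriv
    push Not at htriv
    obtain ⟨y₁, hy₁⟩ := htriv
    obtain ⟨u₁, hu₁⟩ : ∃ u₁, u₁ = (a : Matrix ι ι F) *ᵥ y₁ - y₁ := ⟨_, rfl⟩
    have hu₁0 : u₁ ≠ 0 := by
      intro h
      apply hy₁
      rw [hu₁] at h
      exact sub_eq_zero.mp h
    obtain ⟨y₂', hy₂'⟩ : ∃ z, f u₁ z ≠ 0 := by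
      by_contra hcon
      push Not at hcon
      exact hu₁0 (hf.nondeg u₁ hcon)
    obtain ⟨y₂, hy₂⟩ : ∃ y₂, y₂ = (f u₁ y₂')⁻¹ • y₂' := ⟨_, rfl⟩
    have hu₁y₂ : f u₁ y₂ = 1 := by rw [hy₂, hf.smul_right, inv_mul_cancel₀ hy₂']
    obtain ⟨v₁, hv₁⟩ : ∃ v₁, v₁ = (a : Matrix ι ι F) *ᵥ y₂ - y₂ := ⟨_, rfl⟩
    have hu₁y₁ : f u₁ y₁ = 0 := by rw [hu₁]; exact halt y₁
    have hv₁y₂ : f v₁ y₂ = 0 := by rw [hv₁]; exact halt y₂
    have hv₁y₁ : f v₁ y₁ = 1 := by
      rw [hv₁, asym hf a ha haa, ← hu₁, symm2 hf h2, hu₁y₂]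
    have huv : f u₁ v₁ = 0 := by rw [hu₁, hv₁]; exact ainv_iso hf h2 a ha haa y₁ y₂
    have hau₁ : (a : Matrix ι ι F) *ᵥ u₁ = u₁ := by rw [hu₁]; exact afix h2 a haa y₁
    have hav₁ : (a : Matrix ι ι F) *ᵥ v₁ = v₁ := by rw [hv₁]; exact afix h2 a haa y₂
    obtain ⟨a', ha'i, ha'a', ha'x⟩ := tw2 hf h2 a ha haa u₁ v₁ hau₁ hav₁ huv
    have hy1fix : (a' : Matrix ι ι F) *ᵥ y₁ = y₁ := by
      rw [ha'x, symm2 hf h2 y₁ u₁, hu₁y₁, symm2 hf h2 y₁ v₁, hv₁y₁, zero_smul, one_smul, add_zero,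
        hu₁]
      linear_combination (norm := module) h2 • ((a : Matrix ι ι F) *ᵥ y₁ - y₁)
    have hy2fix : (a' : Matrix ι ι F) *ᵥ y₂ = y₂ := by
      rw [ha'x, symm2 hf h2 y₂ u₁, hu₁y₂, symm2 hf h2 y₂ v₁, hv₁y₂, zero_smul, one_smul, add_zero,
        hv₁]
      linear_combination (norm := module) h2 • ((a : Matrix ι ι F) *ᵥ y₂ - y₂)
    have halt' : ∀ y, f ((a' : Matrix ι ι F) *ᵥ y - y) y = 0 := by
      intro y
      have e : (a' : Matrix ι ι F) *ᵥ y - y =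
          ((a : Matrix ι ι F) *ᵥ y - y) + f y u₁ • v₁ + f y v₁ • u₁ := by
        rw [ha'x]; abel
      rw [e, hf.add_left, hf.add_left, hf.smul_left, hf.smul_left, halt y, symm2 hf h2 v₁ y,
        symm2 hf h2 u₁ y]
      linear_combination (f y u₁ * f y v₁) * h2
    have hlt : fixS a < fixS a' := by
      refine lt_of_le_of_ne ?_ ?_
      · intro y hy
        rw [mem_fixS] at hy ⊢
        have e1 : f y u₁ = 0 := by
          rw [hu₁, ← asym hf a ha haa, hy, sub_self, hf.zero_left]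
        have e2 : f y v₁ = 0 := by
          rw [hv₁, ← asym hf a ha haa, hy, sub_self, hf.zero_left]
        rw [ha'x, hy, e1, e2, zero_smul, zero_smul, add_zero, add_zero]
      · intro h
        have h3 : y₁ ∈ fixS a' := hy1fix
        rw [← h, mem_fixS] at h3
        exact hy₁ h3
    have hfr := Submodule.finrank_lt_finrank_of_lt hlt
    obtain ⟨r', u', v', hu'1, hv'1, hind', hform'⟩ := ih a' ha'i ha'a' (by omega) halt'
    have hperp : ∀ z, f ((a' : Matrix ι ι F) *ᵥ z - z) y₁ = 0 ∧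
        f ((a' : Matrix ι ι F) *ᵥ z - z) y₂ = 0 := by
      intro z
      rw [asym hf a' ha'i ha'a', asym hf a' ha'i ha'a', hy1fix, hy2fix, sub_self, sub_self,
        hf.zero_right]
      exact ⟨rfl, rfl⟩
    have hmem : ∀ z, ∃ z', (a' : Matrix ι ι F) *ᵥ z - z = (a : Matrix ι ι F) *ᵥ z' - z' := by
      intro z
      refine ⟨z + f z u₁ • y₂ + f z v₁ • y₁, ?_⟩
      rw [ha'x, Matrix.mulVec_add, Matrix.mulVec_add, Matrix.mulVec_smul, Matrix.mulVec_smul,
        hu₁, hv₁]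
      module
    have hu'y : ∀ j, f (u' j) y₁ = 0 ∧ f (u' j) y₂ = 0 := by
      intro j
      obtain ⟨z, hz⟩ := hu'1 j
      rw [hz]
      exact hperp z
    have hv'y : ∀ j, f (v' j) y₁ = 0 ∧ f (v' j) y₂ = 0 := by
      intro j
      obtain ⟨z, hz⟩ := hv'1 j
      rw [hz]
      exact hperp z
    refine ⟨r' + 1, Fin.cons u₁ u', Fin.cons v₁ v', ?_, ?_, ?_, ?_⟩
    · intro i
      refine Fin.cases ?_ (fun j => ?_) i
      · exact ⟨y₁, by rw [Fin.cons_zero, hu₁]⟩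
      · obtain ⟨z, hz⟩ := hu'1 j
        obtain ⟨z', hz'⟩ := hmem z
        exact ⟨z', by rw [Fin.cons_succ, hz, hz']⟩
    · intro i
      refine Fin.cases ?_ (fun j => ?_) i
      · exact ⟨y₂, by rw [Fin.cons_zero, hv₁]⟩
      · obtain ⟨z, hz⟩ := hv'1 j
        obtain ⟨z', hz'⟩ := hmem z
        exact ⟨z', by rw [Fin.cons_succ, hz, hz']⟩
    · intro c d hcd
      rw [Fin.sum_univ_succ, Fin.sum_univ_succ] at hcd
      simp only [Fin.cons_zero, Fin.cons_succ] at hcd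
      have hc0 : c 0 = 0 := by
        have h := congrArg (fun w => f w y₂) hcd
        simp only [hf.add_left, hf.smul_left, hf.zero_left, hu₁y₂, hv₁y₂,
          sum_perp hf _ u' y₂ (fun j => (hu'y j).2),
          sum_perp hf _ v' y₂ (fun j => (hv'y j).2)] at h
        linear_combination h
      have hd0 : d 0 = 0 := by
        have h := congrArg (fun w => f w y₁) hcd
        simp only [hf.add_left, hf.smul_left, hf.zero_left, hu₁y₁, hv₁y₁,
          sum_perp hf _ u' y₁ (fun j => (hu'y j).1),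
          sum_perp hf _ v' y₁ (fun j => (hv'y j).1)] at h
        linear_combination h
      rw [hc0, hd0, zero_smul, zero_smul, zero_add, zero_add] at hcd
      obtain ⟨hc', hd'⟩ := hind' (fun j => c j.succ) (fun j => d j.succ) hcd
      exact ⟨fun i => Fin.cases hc0 hc' i, fun i => Fin.cases hd0 hd' i⟩
    · intro y
      rw [Fin.sum_univ_succ]
      simp only [Fin.cons_zero, Fin.cons_succ]
      have h6 := hform' y
      rw [ha'x] at h6
      linear_combination (norm := module) h6 - h2 • (f y u₁ • v₁ + f y v₁ • u₁)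

theorem ind_sum {r : ℕ} (u v : Fin r → ι → F)
    (h : ∀ c d : Fin r → F, ∑ i, c i • u i + ∑ i, d i • v i = 0 →
      (∀ i, c i = 0) ∧ ∀ i, d i = 0) : LinearIndependent F (Sum.elim u v) := by
  rw [Fintype.linearIndependent_iff]
  intro g hg
  rw [Fintype.sum_sum_type] at hg
  simp only [Sum.elim_inl, Sum.elim_inr] at hg
  obtain ⟨h1, h2⟩ := h (fun i => g (Sum.inl i)) (fun i => g (Sum.inr i)) hg
  intro i
  rcases i with i | i
  · exact h1 i
  · exact h2 i

theorem rank_of_span (N : Matrix ι ι F) {κ : Type} [Fintype κ] (w : κ → ι → F)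
    (hN : ∀ y, N *ᵥ y ∈ Submodule.span F (Set.range w))
    (hw1 : ∀ i, ∃ z, w i = N *ᵥ z) (hw2 : LinearIndependent F w) :
    N.rank = Fintype.card κ := by
  have h1 : LinearMap.range N.mulVecLin = Submodule.span F (Set.range w) := by
    apply le_antisymm
    · rintro _ ⟨y, rfl⟩
      rw [Matrix.mulVecLin_apply]
      exact hN y
    · rw [Submodule.span_le]
      rintro _ ⟨i, rfl⟩
      obtain ⟨z, hz⟩ := hw1 i
      exact ⟨z, by rw [hz]; rfl⟩
  show Module.finrank F (LinearMap.range N.mulVecLin) = Fintype.card κ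
  rw [h1, finrank_span_eq_card hw2]

/-! ### Witt's theorem for totally isotropic families -/

theorem aspan_ti (hf : IsAlt f) {κ : Type} (u : κ → ι → F) (ho : ∀ i j, f (u i) (u j) = 0) :
    ∀ x ∈ Submodule.span F (Set.range u), ∀ y ∈ Submodule.span F (Set.range u), f x y = 0 := by
  intro x hx y hy
  have h1 : ∀ j, f x (u j) = 0 := by
    intro j
    apply aspan_perp hf _ _ _ x hx
    rintro _ ⟨i, rfl⟩
    exact ho i j
  rw [hf.swap, neg_eq_zero]
  apply aspan_perp hf _ _ _ y hy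
  rintro _ ⟨j, rfl⟩
  rw [hf.swap, h1 j, neg_zero]

theorem witt_alt (hf : IsAlt f) {κ : Type} (w w' : κ → ι → F)
    (hw : LinearIndependent F w) (hw' : LinearIndependent F w')
    (ho : ∀ i j, f (w i) (w j) = 0) (ho' : ∀ i j, f (w' i) (w' j) = 0) :
    ∃ g : GL ι F, Isom f g ∧ ∀ i, (g : Matrix ι ι F) *ᵥ w i = w' i := by
  let B : LinearMap.BilinForm F (ι → F) :=
    LinearMap.mk₂ F f hf.add_left (fun c m n => by rw [hf.smul_left, smul_eq_mul]) hf.add_right
      (fun c m n => by rw [hf.smul_right, smul_eq_mul])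
  have hBf : ∀ x y, B x y = f x y := fun x y => rfl
  have hB : B.Nondegenerate :=
    ⟨fun x h => hf.nondeg x (fun y => h y),
      fun y h => hf.nondeg y (fun x => by rw [hf.swap, ← hBf, h x, neg_zero])⟩
  have hA : B.IsAlt := fun x => hf.self x
  let φ : Submodule.span F (Set.range w) ≃ₗ[F] Submodule.span F (Set.range w') :=
    (Module.Basis.span hw).equiv (Module.Basis.span hw') (Equiv.refl _)
  have hφ : ∀ x x' : Submodule.span F (Set.range w),
      B (φ x : ι → F) (φ x' : ι → F) = B (x : ι → F) (x' : ι → F) := by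
    intro x x'
    rw [hBf, hBf, aspan_ti hf w ho _ x.2 _ x'.2, aspan_ti hf w' ho' _ (φ x).2 _ (φ x').2]
  obtain ⟨g, hg1, hg2⟩ := Cfsg.Agent.S0749.result B hB hA _ _ φ hφ
  have hmv : ∀ x, LinearMap.toMatrix' (g : (ι → F) →ₗ[F] (ι → F)) *ᵥ x = g x := by
    intro x
    rw [LinearMap.toMatrix'_mulVec]
    rfl
  have hmv' : ∀ x, LinearMap.toMatrix' (g.symm : (ι → F) →ₗ[F] (ι → F)) *ᵥ x = g.symm x := by
    intro x
    rw [LinearMap.toMatrix'_mulVec]
    rfl
  have hiso : ∀ x y, f (LinearMap.toMatrix' (g : (ι → F) →ₗ[F] (ι → F)) *ᵥ x)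
      (LinearMap.toMatrix' (g : (ι → F) →ₗ[F] (ι → F)) *ᵥ y) = f x y := by
    intro x y
    rw [hmv, hmv]
    exact hg1 x y
  have e1 : LinearMap.toMatrix' (g : (ι → F) →ₗ[F] (ι → F)) *
      LinearMap.toMatrix' (g.symm : (ι → F) →ₗ[F] (ι → F)) = 1 := by
    rw [← LinearMap.toMatrix'_comp, ← LinearMap.toMatrix'_id]
    congr 1
    ext x : 1
    simp
  have e2 : LinearMap.toMatrix' (g.symm : (ι → F) →ₗ[F] (ι → F)) *
      LinearMap.toMatrix' (g : (ι → F) →ₗ[F] (ι → F)) = 1 := by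
    rw [← LinearMap.toMatrix'_comp, ← LinearMap.toMatrix'_id]
    congr 1
    ext x : 1
    simp
  refine ⟨⟨_, _, e1, e2⟩, hiso, fun i => ?_⟩
  show LinearMap.toMatrix' (g : (ι → F) →ₗ[F] (ι → F)) *ᵥ w i = w' i
  rw [hmv]
  have h1 := hg2 (Module.Basis.span hw i)
  have e3 : ((Module.Basis.span hw i : Submodule.span F (Set.range w)) : ι → F) = w i :=
    congrArg Subtype.val (Module.Basis.span_apply hw i)
  rw [← e3, h1]
  show ((((Module.Basis.span hw).equiv (Module.Basis.span hw') (Equiv.refl _))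
    (Module.Basis.span hw i) : Submodule.span F (Set.range w')) : ι → F) = w' i
  rw [Module.Basis.equiv_apply, Equiv.refl_apply, Module.Basis.span_apply]

/-! ### conjugacy from normal forms -/

theorem conj_B (hf : IsAlt f) {k : ℕ} (a b : GL ι F) (u u' : Fin k → ι → F)
    (hu : LinearIndependent F u) (hu' : LinearIndependent F u')
    (ho : ∀ i j, f (u i) (u j) = 0) (ho' : ∀ i j, f (u' i) (u' j) = 0)
    (ha : ∀ y, (a : Matrix ι ι F) *ᵥ y = y + ∑ i, f y (u i) • u i)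
    (hb : ∀ y, (b : Matrix ι ι F) *ᵥ y = y + ∑ i, f y (u' i) • u' i) :
    ∃ g : GL ι F, Isom f g ∧ g * a = b * g := by
  obtain ⟨g, hg1, hg2⟩ := witt_alt hf u u' hu hu' ho ho'
  refine ⟨g, hg1, ?_⟩
  apply gl_ext
  intro y
  rw [Units.val_mul, Units.val_mul, ← Matrix.mulVec_mulVec, ← Matrix.mulVec_mulVec, ha, hb,
    Matrix.mulVec_add, Matrix.mulVec_sum]
  congr 1
  apply Finset.sum_congr rfl
  intro i _
  rw [Matrix.mulVec_smul, ← hg2 i, hg1]

theorem conj_A (hf : IsAlt f) {r : ℕ} (a b : GL ι F) (u v u' v' : Fin r → ι → F)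
    (hu : LinearIndependent F (Sum.elim u v)) (hu' : LinearIndependent F (Sum.elim u' v'))
    (ho : ∀ i j, f (Sum.elim u v i) (Sum.elim u v j) = 0)
    (ho' : ∀ i j, f (Sum.elim u' v' i) (Sum.elim u' v' j) = 0)
    (ha : ∀ y, (a : Matrix ι ι F) *ᵥ y = y + ∑ i, (f y (u i) • v i + f y (v i) • u i))
    (hb : ∀ y, (b : Matrix ι ι F) *ᵥ y = y + ∑ i, (f y (u' i) • v' i + f y (v' i) • u' i)) :
    ∃ g : GL ι F, Isom f g ∧ g * a = b * g := by
  obtain ⟨g, hg1, hg2⟩ := witt_alt hf _ _ hu hu' ho ho'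
  have hgu : ∀ i, (g : Matrix ι ι F) *ᵥ u i = u' i := fun i => hg2 (Sum.inl i)
  have hgv : ∀ i, (g : Matrix ι ι F) *ᵥ v i = v' i := fun i => hg2 (Sum.inr i)
  refine ⟨g, hg1, ?_⟩
  apply gl_ext
  intro y
  rw [Units.val_mul, Units.val_mul, ← Matrix.mulVec_mulVec, ← Matrix.mulVec_mulVec, ha, hb,
    Matrix.mulVec_add, Matrix.mulVec_sum]
  congr 1
  apply Finset.sum_congr rfl
  intro i _
  rw [Matrix.mulVec_add, Matrix.mulVec_smul, Matrix.mulVec_smul, ← hgu i, ← hgv i, hg1, hg1]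

end Cfsg.Agent.Lib.Helper13.AltInv
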