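import Mathlib
import Cfsg.Prelude.Def_Transfer
import Cfsg.Agent.S0012
import Cfsg.Agent.Lib.Helper16.Basic

set_option autoImplicit false

namespace Cfsg.Agent.Lib.Helper13.ExtraP3

/-- A nonabelian group of order `p³` in which every `p`-th power is central is extraspecial. -/
theorem extraspecial_of_card {H : Type*} [Group H] [Finite H] {p : ℕ} [Fact p.Prime]
    (hcard : Nat.card H = p ^ 3) (hab : ¬ ∀ a b : H, a * b = b * a)
    (hpow : ∀ x : H, x ^ p ∈ Subgroup.center H) : Cfsg.IsExtraspecial p H := by
  have hp : p.Prime := Fact.out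
  have hHp : IsPGroup p H := IsPGroup.of_card hcard
  have hnt : Nontrivial H := by
    rw [← Finite.one_lt_card_iff_nontrivial, hcard]
    exact Nat.one_lt_pow (by norm_num) hp.one_lt
  have hZbot : Subgroup.center H ≠ ⊥ := (hHp.bot_lt_center).ne'
  have hZdvd : Nat.card (Subgroup.center H) ∣ p ^ 3 :=
    hcard ▸ Subgroup.card_subgroup_dvd_card _
  obtain ⟨j, hj, hjc⟩ := (Nat.dvd_prime_pow hp).1 hZdvd
  have hidx : Nat.card (Subgroup.center H) * (Subgroup.center H).index = p ^ 3 := by
    rw [Subgroup.card_mul_index, hcard]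
  have hj1 : j = 1 := by
    interval_cases j
    · exact absurd (Subgroup.card_eq_one.1 (by rw [hjc, pow_zero])) hZbot
    · rfl
    · exfalso
      rw [hjc] at hidx
      have hi : (Subgroup.center H).index = p :=
        Nat.eq_of_mul_eq_mul_left (pow_pos hp.pos 2) (by rw [hidx]; ring)
      have hcyc : IsCyclic (H ⧸ Subgroup.center H) := isCyclic_of_prime_card (p := p) hi
      exact hab (commutative_of_cyclic_center_quotient
        (QuotientGroup.mk' (Subgroup.center H)) (by rw [QuotientGroup.ker_mk']))
    · exfalso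
      have h1 : Subgroup.center H = ⊤ := Subgroup.eq_top_of_card_eq _ (by rw [hjc, hcard])
      apply hab
      intro a b
      have ha : a ∈ Subgroup.center H := h1 ▸ Subgroup.mem_top a
      exact (Subgroup.mem_center_iff.1 ha b).symm
  subst hj1
  rw [pow_one] at hjc
  have hi2 : (Subgroup.center H).index = p ^ 2 := by
    rw [hjc] at hidx
    exact Nat.eq_of_mul_eq_mul_left hp.pos (by rw [hidx]; ring)
  have hQZc : ∀ x y : H ⧸ Subgroup.center H, x * y = y * x := fun x y =>
    (IsPGroup.isMulCommutative_of_card_eq_prime_sq (p := p) hi2).is_comm.comm x y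
  have hDZ : commutator H ≤ Subgroup.center H := by
    rw [commutator_def, Subgroup.commutator_le]
    intro x _ y _
    rw [commutatorElement_def, ← QuotientGroup.eq_one_iff]
    have h1 := hQZc (x : H ⧸ Subgroup.center H) (y : H ⧸ Subgroup.center H)
    simp only [QuotientGroup.mk_mul, QuotientGroup.mk_inv]
    rw [h1]
    group
  have hne : commutator H ≠ ⊥ := by
    intro h0
    apply hab
    intro a b
    have h1 : a * b * a⁻¹ * b⁻¹ ∈ commutator H := by
      rw [commutator_def]
      have := Subgroup.commutator_mem_commutator (Subgroup.mem_top a) (Subgroup.mem_top b)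
      rwa [commutatorElement_def] at this
    rw [h0, Subgroup.mem_bot] at h1
    calc a * b = (a * b * a⁻¹ * b⁻¹) * (b * a) := by group
      _ = b * a := by rw [h1, one_mul]
  have hD : commutator H = Subgroup.center H := by
    apply Subgroup.eq_of_le_of_card_ge hDZ
    have hdvd' : Nat.card (commutator H) ∣ p := hjc ▸ Subgroup.card_dvd_of_le hDZ
    rcases (Nat.dvd_prime hp).1 hdvd' with h1 | h1
    · exact absurd (Subgroup.card_eq_one.1 h1) hne
    · rw [hjc, h1]
  have hΦ : frattini H = Subgroup.center H := by
    apply le_antisymm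
    · have := Cfsg.Agent.Lib.Helper16.Basic.frattini_le_ker_of_elementary (p := p)
        (QuotientGroup.mk' (Subgroup.center H)) (fun x y => hQZc _ _) (fun x => by
          rw [← map_pow]
          exact (QuotientGroup.eq_one_iff _).mpr (hpow x))
      rwa [QuotientGroup.ker_mk'] at this
    · rw [← hD]
      exact (Cfsg.Agent.S0012.result p hHp).1
  exact ⟨⟨hHp, hΦ, hD⟩, hjc⟩

end Cfsg.Agent.Lib.Helper13.ExtraP3
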