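import Mathlib

set_option autoImplicit false

namespace Cfsg.Agent.Lib.Helper13.GenQuat

open QuaternionGroup
open scoped commutatorElement

theorem inv_a {m : ℕ} (i : ZMod (2 * m)) : (a i : QuaternionGroup m)⁻¹ = a (-i) := rfl

theorem inv_xa {m : ℕ} (i : ZMod (2 * m)) : (xa i : QuaternionGroup m)⁻¹ = xa ((m : ZMod (2 * m)) + i) := rfl

theorem two_m {m : ℕ} : (m : ZMod (2 * m)) + m = 0 := by
  have : ((2 * m : ℕ) : ZMod (2 * m)) = 0 := ZMod.natCast_self _
  push_cast at this
  linear_combination this

theorem a_eq_pow {m : ℕ} [NeZero m] (i : ZMod (2 * m)) :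
    (a i : QuaternionGroup m) = a 1 ^ i.val := by
  rw [a_one_pow, ZMod.natCast_zmod_val]

theorem a_two {m : ℕ} : (a 2 : QuaternionGroup m) = a 1 ^ 2 := by
  rw [a_one_pow]; norm_num

theorem a_two_mul_mem {m : ℕ} [NeZero m] (i : ZMod (2 * m)) :
    (a (2 * i) : QuaternionGroup m) ∈ Subgroup.zpowers (a 2 : QuaternionGroup m) := by
  have : (a (2 * i) : QuaternionGroup m) = a 2 ^ i.val := by
    rw [a_two, ← pow_mul, a_one_pow]
    congr 1
    push_cast
    rw [ZMod.natCast_zmod_val]
  rw [this]
  exact Subgroup.pow_mem _ (Subgroup.mem_zpowers _) _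

theorem add_self_eq_zero {m : ℕ} [NeZero m] (j : ZMod (2 * m)) (h : j + j = 0) :
    j = 0 ∨ j = (m : ZMod (2 * m)) := by
  have hm : 0 < m := Nat.pos_of_ne_zero (NeZero.ne m)
  have : NeZero (2 * m) := ⟨by omega⟩
  have h1 : ((j.val + j.val : ℕ) : ZMod (2 * m)) = 0 := by
    push_cast
    rw [ZMod.natCast_zmod_val]
    exact h
  rw [ZMod.natCast_eq_zero_iff] at h1
  have hlt : j.val < 2 * m := ZMod.val_lt j
  obtain ⟨c, hc⟩ := h1
  have hc' : j.val = m * c := by nlinarith
  have hc2 : c < 2 := by
    by_contra hcon
    push Not at hcon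
    nlinarith
  interval_cases c
  · left
    have : j.val = 0 := by simpa using hc'
    exact (ZMod.val_eq_zero j).mp this
  · right
    have h5 : j.val = m := by simpa using hc'
    have h6 : ((j.val : ℕ) : ZMod (2 * m)) = j := ZMod.natCast_zmod_val j
    rw [h5] at h6
    exact h6.symm

theorem commutatorElement_mem {m : ℕ} [NeZero m] (g h : QuaternionGroup m) :
    ⁅g, h⁆ ∈ Subgroup.zpowers (a 2 : QuaternionGroup m) := by
  have h2m := two_m (m := m)
  rcases g with i | i <;> rcases h with j | j
  · have : ⁅(a i : QuaternionGroup m), a j⁆ = 1 := by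
      simp only [commutatorElement_def, inv_a, a_mul_a]
      rw [← a_zero]
      congr 1
      ring
    rw [this]
    exact Subgroup.one_mem _
  · have : ⁅(a i : QuaternionGroup m), xa j⁆ = a (2 * i) := by
      simp only [commutatorElement_def, inv_a, inv_xa, a_mul_xa, xa_mul_a, xa_mul_xa]
      congr 1
      linear_combination h2m
    rw [this]
    exact a_two_mul_mem i
  · have : ⁅(xa i : QuaternionGroup m), a j⁆ = a (2 * (-j)) := by
      simp only [commutatorElement_def, inv_a, inv_xa, a_mul_xa, xa_mul_a, xa_mul_xa, a_mul_a]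
      congr 1
      linear_combination h2m
    rw [this]
    exact a_two_mul_mem _
  · have : ⁅(xa i : QuaternionGroup m), xa j⁆ = a (2 * (j - i)) := by
      simp only [commutatorElement_def, inv_a, inv_xa, a_mul_xa, xa_mul_a, xa_mul_xa, a_mul_a]
      congr 1
      linear_combination h2m
    rw [this]
    exact a_two_mul_mem _

theorem commutator_eq {m : ℕ} [NeZero m] :
    commutator (QuaternionGroup m) = Subgroup.zpowers (a 2 : QuaternionGroup m) := by
  apply le_antisymm
  · rw [commutator_def, Subgroup.commutator_le]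
    intro g _ h _
    exact commutatorElement_mem g h
  · rw [Subgroup.zpowers_le]
    have : ⁅(a 1 : QuaternionGroup m), (xa 0 : QuaternionGroup m)⁆ = a 2 := by
      simp only [commutatorElement_def, inv_a, inv_xa, a_mul_xa, xa_mul_a, xa_mul_xa]
      congr 1
      linear_combination two_m (m := m)
    rw [← this, commutator_def]
    exact Subgroup.commutator_mem_commutator (Subgroup.mem_top _) (Subgroup.mem_top _)

/-- Every commutative subgroup of a generalized quaternion group is cyclic. -/
theorem isCyclic_of_comm {m : ℕ} [NeZero m] (A : Subgroup (QuaternionGroup m))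
    (hA : ∀ x ∈ A, ∀ y ∈ A, x * y = y * x) : IsCyclic A := by
  have h2m := two_m (m := m)
  by_cases h : ∃ i, (xa i : QuaternionGroup m) ∈ A
  · obtain ⟨i, hi⟩ := h
    have hle : A ≤ Subgroup.zpowers (xa i : QuaternionGroup m) := by
      intro x hx
      have hc := hA x hx (xa i) hi
      rcases x with j | j
      · simp only [a_mul_xa, xa_mul_a] at hc
        have hj : j + j = 0 := by
          have := xa.inj hc
          linear_combination -this
        rcases add_self_eq_zero j hj with rfl | rfl
        · rw [a_zero]; exact Subgroup.one_mem _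
        · rw [← xa_sq i]
          exact Subgroup.pow_mem (Subgroup.zpowers (xa i)) (Subgroup.mem_zpowers (xa i)) 2
      · simp only [xa_mul_xa] at hc
        have hj : (i - j) + (i - j) = 0 := by
          have := a.inj hc
          linear_combination this
        rcases add_self_eq_zero (i - j) hj with h0 | h0
        · have : j = i := by linear_combination -h0
          rw [this]; exact Subgroup.mem_zpowers _
        · have : (xa j : QuaternionGroup m) = xa i ^ 3 := by
            have e3 : (xa i : QuaternionGroup m) ^ 3 = xa i ^ 2 * xa i := by rw [pow_succ]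
            rw [e3, xa_sq, a_mul_xa]
            congr 1
            linear_combination -h0
          rw [this]
          exact Subgroup.pow_mem (Subgroup.zpowers (xa i)) (Subgroup.mem_zpowers (xa i)) 3
    exact Subgroup.isCyclic_of_le hle
  · have hle : A ≤ Subgroup.zpowers (a 1 : QuaternionGroup m) := by
      intro x hx
      rcases x with j | j
      · rw [a_eq_pow j]
        exact Subgroup.pow_mem (Subgroup.zpowers (a 1)) (Subgroup.mem_zpowers (a 1)) _
      · exact absurd ⟨j, hx⟩ h
    exact Subgroup.isCyclic_of_le hle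

/-- An element commuting with the square of an element of order `2m` is a power of it. -/
theorem mem_zpowers_of_comm_sq {m : ℕ} [NeZero m] (hm : 3 ≤ m) (q x : QuaternionGroup m)
    (hq : orderOf q = 2 * m) (hx : x * q ^ 2 = q ^ 2 * x) : x ∈ Subgroup.zpowers q := by
  have h2m := two_m (m := m)
  rcases q with j | j
  · have hz : Subgroup.zpowers (a j : QuaternionGroup m) = Subgroup.zpowers (a 1) := by
      apply Subgroup.eq_of_le_of_card_ge
      · rw [Subgroup.zpowers_le, a_eq_pow j]
        exact Subgroup.pow_mem _ (Subgroup.mem_zpowers _) _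
      · rw [Nat.card_zpowers, Nat.card_zpowers, hq, orderOf_a_one]
    rw [hz]
    rcases x with i | i
    · rw [a_eq_pow i]
      exact Subgroup.pow_mem _ (Subgroup.mem_zpowers _) _
    · exfalso
      have hsq : (a j : QuaternionGroup m) ^ 2 = a (j + j) := by rw [pow_two, a_mul_a]
      rw [hsq] at hx
      simp only [a_mul_xa, xa_mul_a] at hx
      have h4 : (j + j) + (j + j) = 0 := by
        have := xa.inj hx
        linear_combination this
      have h4' : (a j : QuaternionGroup m) ^ 4 = 1 := by
        have : (a j : QuaternionGroup m) ^ 4 = a j ^ 2 * a j ^ 2 := by rw [← pow_add]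
        rw [this, hsq, a_mul_a, h4, a_zero]
      have := orderOf_dvd_of_pow_eq_one h4'
      rw [hq] at this
      have := Nat.le_of_dvd (by norm_num) this
      omega
  · exfalso
    rw [orderOf_xa] at hq
    omega

/-- In a finite cyclic group, subgroups of the same order are equal. -/
theorem eq_of_card_eq_of_cyclic {R : Type*} [Group R] [Finite R] [IsCyclic R] (A B : Subgroup R)
    (h : Nat.card A = Nat.card B) : A = B := by
  classical
  have := Fintype.ofFinite R
  have key : ∀ A : Subgroup R, (A : Set R) = {a : R | a ^ Nat.card A = 1} := by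
    intro A
    have hsub : (A : Set R) ⊆ {a : R | a ^ Nat.card A = 1} := by
      intro a ha
      have h1 : (⟨a, ha⟩ : A) ^ Nat.card A = 1 := pow_card_eq_one'
      have h2 := congrArg Subtype.val h1
      rw [Subgroup.coe_pow, Subgroup.coe_one] at h2
      exact h2
    have hk : 0 < Nat.card A := Nat.card_pos
    have hle := IsCyclic.card_pow_eq_one_le (α := R) hk
    apply Set.eq_of_subset_of_ncard_le hsub
    · have e1 : ({a : R | a ^ Nat.card A = 1} : Set R).ncard
          = (Finset.univ.filter (fun a : R => a ^ Nat.card A = 1)).card := by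
        rw [Set.ncard_eq_toFinset_card']
        congr 1
        ext a
        simp
      have e2 : (A : Set R).ncard = Nat.card A := (Nat.card_coe_set_eq (A : Set R)).symm
      rw [e1, e2]
      exact hle
  rw [← SetLike.coe_set_eq, key A, key B, h]

theorem eq_of_card_eq_of_le_cyclic {G : Type*} [Group G] (R A B : Subgroup G) [Finite R]
    (hR : IsCyclic R) (hA : A ≤ R) (hB : B ≤ R) (h : Nat.card A = Nat.card B) : A = B := by
  have h1 : Nat.card (A.subgroupOf R) = Nat.card (B.subgroupOf R) := by
    rw [Nat.card_congr (Subgroup.subgroupOfEquivOfLe hA).toEquiv,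
      Nat.card_congr (Subgroup.subgroupOfEquivOfLe hB).toEquiv, h]
  have h2 := eq_of_card_eq_of_cyclic (A.subgroupOf R) (B.subgroupOf R) h1
  rw [Subgroup.subgroupOf_inj, inf_of_le_left hA, inf_of_le_left hB] at h2
  exact h2

section transport

variable {G : Type*} [Group G]

/-- Facts about a subgroup isomorphic to a generalized quaternion group. -/
theorem struct (T : Subgroup G) (m : ℕ) [NeZero m] (hm : 3 ≤ m)
    (e : T ≃* QuaternionGroup m) :
    Nat.card T = 4 * m ∧
    (∀ A : Subgroup G, A ≤ T → (∀ x ∈ A, ∀ y ∈ A, x * y = y * x) → IsCyclic A) ∧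
    (∀ β ∈ T, orderOf β = 2 * m → ∀ x ∈ T, x * β ^ 2 = β ^ 2 * x → x ∈ Subgroup.zpowers β) ∧
    (∃ α ∈ T, orderOf α = 2 * m ∧ ⁅T, T⁆ = Subgroup.zpowers (α ^ 2)) := by
  classical
  let φ : QuaternionGroup m →* G := T.subtype.comp e.symm.toMonoidHom
  have hφinj : Function.Injective φ := by
    intro x y hxy
    have : (e.symm x : G) = e.symm y := hxy
    exact e.symm.injective (Subtype.ext this)
  have hφrange : φ.range = T := by
    ext x
    constructor
    · rintro ⟨q, rfl⟩
      exact (e.symm q).2
    · intro hx
      exact ⟨e ⟨x, hx⟩, by simp [φ]⟩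
  refine ⟨?_, ?_, ?_, ?_⟩
  · rw [Nat.card_congr e.toEquiv, Nat.card_eq_fintype_card, QuaternionGroup.card]
  · intro A hA hcomm
    have hc' : ∀ x ∈ A.comap φ, ∀ y ∈ A.comap φ, x * y = y * x := by
      intro x hx y hy
      apply hφinj
      rw [map_mul, map_mul]
      exact hcomm _ hx _ hy
    have hcyc : IsCyclic (A.comap φ) := isCyclic_of_comm _ hc'
    have hsurj := MonoidHom.subgroupMap_surjective φ (A.comap φ)
    have h1 : IsCyclic ((A.comap φ).map φ) := isCyclic_of_surjective _ hsurj
    have h2 : (A.comap φ).map φ = A := Subgroup.map_comap_eq_self (by rw [hφrange]; exact hA)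
    rw [h2] at h1
    exact h1
  · intro β hβ hord x hx hcomm
    rw [← hφrange] at hβ hx
    obtain ⟨q, rfl⟩ := hβ
    obtain ⟨r, rfl⟩ := hx
    have hq : orderOf q = 2 * m := by rw [← hord, orderOf_injective φ hφinj]
    have hc : r * q ^ 2 = q ^ 2 * r := by
      apply hφinj
      rw [map_mul, map_mul, map_pow]
      exact hcomm
    obtain ⟨k, hk⟩ := Subgroup.mem_zpowers_iff.mp (mem_zpowers_of_comm_sq hm q r hq hc)
    rw [← hk, map_zpow]
    exact Subgroup.zpow_mem _ (Subgroup.mem_zpowers _) _
  · refine ⟨φ (a 1), ?_, ?_, ?_⟩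
    · rw [← hφrange]; exact ⟨_, rfl⟩
    · rw [orderOf_injective φ hφinj, orderOf_a_one]
    · have h1 : ⁅T, T⁆ = Subgroup.map φ ⁅(⊤ : Subgroup (QuaternionGroup m)), ⊤⁆ := by
        rw [Subgroup.map_commutator, ← MonoidHom.range_eq_map, hφrange]
      rw [h1, ← commutator_def, commutator_eq, MonoidHom.map_zpowers, a_two, map_pow]

end transport

end Cfsg.Agent.Lib.Helper13.GenQuat
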