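import Mathlib
import Cfsg.Agent.Lib.Helper28.Herm
import Cfsg.Agent.Lib.Helper13.HermSub

set_option autoImplicit false
open Cfsg

namespace Cfsg.Agent.Lib.Helper13.HermSimple

open Matrix
open Cfsg.Agent.S5631 Cfsg.Agent.S5645 Cfsg.Agent.S5642 Cfsg.Agent.Lib.Helper28.SLGen
open Cfsg.Agent.Lib.Helper28.Herm
open Cfsg.Agent.Lib.Helper13.HermSub

variable {ι : Type} [Fintype ι] [DecidableEq ι] {F : Type*} [Field F]
variable {σ : F →+* F} {f : (ι → F) → (ι → F) → F}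

theorem sig_ne_zero (hf : IsHerm σ f) {a : F} (ha : a ≠ 0) : σ a ≠ 0 := by
  intro h
  apply ha
  have := congrArg σ h
  rwa [hf.invol, map_zero] at this

/-- an isotropic partner of an isotropic vector -/
theorem exists_partner (hf : IsHerm σ f) (x : ι → F) (hx : f x x = 0) (hx0 : x ≠ 0) :
    ∃ x', f x' x' = 0 ∧ f x x' = 1 := by
  obtain ⟨u, hu⟩ : ∃ u, f x u ≠ 0 := by
    by_contra hcon
    push Not at hcon
    exact hx0 (hf.nondeg' x hcon)
  obtain ⟨μ, hμ⟩ := hf.iso_fix x u hx hu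
  have h1 : f x (u + μ • x) = f x u := by
    rw [hf.add_right, hf.smul_right, hx, mul_zero, add_zero]
  refine ⟨(σ (f x u))⁻¹ • (u + μ • x), ?_, ?_⟩
  · rw [hf.smul_left, hf.smul_right, hμ, mul_zero, mul_zero]
  · rw [hf.smul_right, h1, map_inv₀, hf.invol, inv_mul_cancel₀ hu]

/-- an isotropic vector not orthogonal to two given orthogonal nonzero vectors -/
theorem exists_nonorth (hf : IsHerm σ f) (a b : ι → F) (ha : f a a = 0) (ha0 : a ≠ 0)
    (hb0 : b ≠ 0) (hab : f a b = 0) : ∃ z, f z z = 0 ∧ f a z ≠ 0 ∧ f z b ≠ 0 := by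
  obtain ⟨z₀, hz1, hz2⟩ : ∃ z₀, f a z₀ ≠ 0 ∧ f b z₀ ≠ 0 := by
    obtain ⟨x, hx⟩ : ∃ x, f a x ≠ 0 := by
      by_contra hcon
      push Not at hcon
      exact ha0 (hf.nondeg' a hcon)
    obtain ⟨y, hy⟩ : ∃ y, f b y ≠ 0 := by
      by_contra hcon
      push Not at hcon
      exact hb0 (hf.nondeg' b hcon)
    by_cases hbx : f b x = 0
    · by_cases hay : f a y = 0
      · refine ⟨x + y, ?_, ?_⟩
        · rw [hf.add_right, hay, add_zero]
          exact hx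
        · rw [hf.add_right, hbx, zero_add]
          exact hy
      · exact ⟨y, hay, hy⟩
    · exact ⟨x, hx, hbx⟩
  obtain ⟨μ, hμ⟩ := hf.iso_fix a z₀ ha hz1
  refine ⟨z₀ + μ • a, hμ, ?_, ?_⟩
  · rw [hf.add_right, hf.smul_right, ha, mul_zero, add_zero]
    exact hz1
  · rw [hf.add_left, hf.smul_left, hab, mul_zero, add_zero]
    exact hf.ne_zero_symm hz2

/-- two vectors span points in the same orbit of `N` -/
def Rel (N : Subgroup (GL ι F)) (x y : ι → F) : Prop :=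
  ∃ g ∈ N, ∃ lam : F, lam ≠ 0 ∧ (g : Matrix ι ι F) *ᵥ x = lam • y

theorem rel_trans {N : Subgroup (GL ι F)} {x y z : ι → F} (h1 : Rel N x y) (h2 : Rel N y z) :
    Rel N x z := by
  obtain ⟨g₁, hg₁, l₁, hl₁, e₁⟩ := h1
  obtain ⟨g₂, hg₂, l₂, hl₂, e₂⟩ := h2
  refine ⟨g₂ * g₁, N.mul_mem hg₂ hg₁, l₁ * l₂, mul_ne_zero hl₁ hl₂, ?_⟩
  rw [Units.val_mul, ← Matrix.mulVec_mulVec, e₁, Matrix.mulVec_smul, e₂, smul_smul]

theorem rel_symm {N : Subgroup (GL ι F)} {x y : ι → F} (h : Rel N x y) : Rel N y x := by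
  obtain ⟨g, hg, l, hl, e⟩ := h
  refine ⟨g⁻¹, N.inv_mem hg, l⁻¹, inv_ne_zero hl, ?_⟩
  have e2 : y = l⁻¹ • ((g : Matrix ι ι F) *ᵥ x) := by
    rw [e, smul_smul, inv_mul_cancel₀ hl, one_smul]
  rw [e2, Matrix.mulVec_smul, gl_inv_mulVec]

theorem rel_smul {N : Subgroup (GL ι F)} {x y : ι → F} (h : Rel N x y) (μ : F) (hμ : μ ≠ 0) :
    Rel N x (μ • y) := by
  obtain ⟨g, hg, l, hl, e⟩ := h
  refine ⟨g, hg, l * μ⁻¹, mul_ne_zero hl (inv_ne_zero hμ), ?_⟩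
  rw [e, smul_smul, mul_assoc, inv_mul_cancel₀ hμ, mul_one]

theorem rel_conj {N : Subgroup (GL ι F)}
    (hnorm : ∀ h : GL ι F, Isom f h → (h : Matrix ι ι F).det = 1 → ∀ k ∈ N, h * k * h⁻¹ ∈ N)
    {x y : ι → F} (hr : Rel N x y) (h : GL ι F) (hi : Isom f h)
    (hd : (h : Matrix ι ι F).det = 1) :
    Rel N ((h : Matrix ι ι F) *ᵥ x) ((h : Matrix ι ι F) *ᵥ y) := by
  obtain ⟨g, hg, l, hl, e⟩ := hr
  refine ⟨h * g * h⁻¹, hnorm h hi hd g hg, l, hl, ?_⟩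
  rw [Units.val_mul, Units.val_mul, ← Matrix.mulVec_mulVec, ← Matrix.mulVec_mulVec,
    gl_inv_mulVec, e, Matrix.mulVec_smul]

theorem rel_A [Finite F] [Nonempty ι] (hf : IsHerm σ f) {N : Subgroup (GL ι F)}
    (hnorm : ∀ h : GL ι F, Isom f h → (h : Matrix ι ι F).det = 1 → ∀ k ∈ N, h * k * h⁻¹ ∈ N)
    {x y y' : ι → F} (hx : f x x = 0) (hy : f y y = 0) (hy' : f y' y' = 0) (hr : Rel N x y)
    (hxy : f x y ≠ 0) (hxy' : f x y' ≠ 0) : Rel N x y' := by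
  have hσ1 : σ (f x y) ≠ 0 := sig_ne_zero hf hxy
  have hσ2 : σ (f x y') ≠ 0 := sig_ne_zero hf hxy'
  obtain ⟨y₁, hy₁⟩ : ∃ y₁, y₁ = (σ (f x y))⁻¹ • y := ⟨_, rfl⟩
  obtain ⟨y₂, hy₂⟩ : ∃ y₂, y₂ = (σ (f x y'))⁻¹ • y' := ⟨_, rfl⟩
  have h1 : f x y₁ = 1 := by
    rw [hy₁, hf.smul_right, map_inv₀, hf.invol, inv_mul_cancel₀ hxy]
  have h2 : f x y₂ = 1 := by
    rw [hy₂, hf.smul_right, map_inv₀, hf.invol, inv_mul_cancel₀ hxy']
  have h1' : f y₁ x = 1 := by rw [hf.herm, h1, map_one]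
  have h2' : f y₂ x = 1 := by rw [hf.herm, h2, map_one]
  have hy₁y₁ : f y₁ y₁ = 0 := by rw [hy₁, hf.smul_left, hf.smul_right, hy, mul_zero, mul_zero]
  have hy₂y₂ : f y₂ y₂ = 0 := by rw [hy₂, hf.smul_left, hf.smul_right, hy', mul_zero, mul_zero]
  have hud : f (y₂ - y₁) x = 0 := by rw [hf.sub_left, h1', h2', sub_self]
  have hdu : f x (y₂ - y₁) = 0 := by rw [hf.sub_right, h1, h2, sub_self]
  have hlam : f y₁ y₂ + σ (f y₁ y₂) = - f (y₂ - y₁) (y₂ - y₁) := by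
    rw [hf.sub_left, hf.sub_right, hf.sub_right, hy₂y₂, hy₁y₁, ← hf.herm y₂ y₁]
    ring
  obtain ⟨E, hE, hEi, hES⟩ := eich_exists hf x (y₂ - y₁) (f y₁ y₂) hx hud hlam
  have hEx : (E : Matrix ι ι F) *ᵥ x = x := by
    rw [hE, hx, hdu]
    simp only [zero_smul, mul_zero, add_zero, sub_zero]
  have hEy : (E : Matrix ι ι F) *ᵥ y₁ = y₂ := by
    rw [hE, h1', hf.sub_right, hy₁y₁]
    module
  have r1 : Rel N x y₁ := by
    rw [hy₁]
    exact rel_smul hr _ (inv_ne_zero hσ1)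
  have r2 := rel_conj hnorm r1 E hEi (det_eq_one_of_mem_SL E hES)
  rw [hEx, hEy] at r2
  have e : y' = σ (f x y') • y₂ := by rw [hy₂, smul_smul, mul_inv_cancel₀ hσ2, one_smul]
  rw [e]
  exact rel_smul r2 _ hσ2

theorem rel_B [Finite F] [Nonempty ι] (hf : IsHerm σ f) {N : Subgroup (GL ι F)}
    (hnorm : ∀ h : GL ι F, Isom f h → (h : Matrix ι ι F).det = 1 → ∀ k ∈ N, h * k * h⁻¹ ∈ N)
    {x y : ι → F} (hx : f x x = 0) (hy : f y y = 0) (hr : Rel N x y) (hxy : f x y ≠ 0)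
    (r : ι → F) (hr0 : r ≠ 0) (hrr : f r r = 0) : Rel N x r := by
  by_cases hxr : f x r = 0
  · have hx0 : x ≠ 0 := by
      rintro rfl
      exact hxy (hf.zero_left y)
    obtain ⟨z, hzz, hxz, hzr⟩ := exists_nonorth hf x r hx hx0 hr0 hxr
    have r1 : Rel N x z := rel_A hf hnorm hx hy hzz hr hxy hxz
    have r2 : Rel N z r := rel_A hf hnorm hzz hx hrr (rel_symm r1) (hf.ne_zero_symm hxz) hzr
    exact rel_trans r1 r2
  · exact rel_A hf hnorm hx hy hrr hr hxy hxr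

theorem rel_C [Finite F] [Nonempty ι] (hf : IsHerm σ f) {N : Subgroup (GL ι F)}
    (hnorm : ∀ h : GL ι F, Isom f h → (h : Matrix ι ι F).det = 1 → ∀ k ∈ N, h * k * h⁻¹ ∈ N)
    {x y : ι → F} (hx : f x x = 0) (hy : f y y = 0) (hr : Rel N x y) (hxy : f x y = 0)
    (hne : ∀ a : F, y ≠ a • x) (r : ι → F) (hr0 : r ≠ 0) (hrr : f r r = 0) : Rel N x r := by
  obtain ⟨u, hu0, hu1⟩ := hf.exists_perp (Submodule.span F {x}) y (by
    intro hmem
    obtain ⟨a, ha⟩ := Submodule.mem_span_singleton.mp hmem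
    exact hne a ha.symm)
  have hxu : f x u = 0 := hu0 x (Submodule.mem_span_singleton_self x)
  obtain ⟨μ, hμ⟩ := hf.iso_fix y u hy (by rw [hu1]; exact one_ne_zero)
  obtain ⟨z, hz⟩ : ∃ z, z = u + μ • y := ⟨_, rfl⟩
  rw [← hz] at hμ
  have hxz : f x z = 0 := by
    rw [hz, hf.add_right, hf.smul_right, hxu, hxy, mul_zero, add_zero]
  have hyz : f y z = 1 := by
    rw [hz, hf.add_right, hf.smul_right, hu1, hy, mul_zero, add_zero]
  obtain ⟨ζ, hζ0, hζ⟩ := hf.exists_zeta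
  have h0 := uT_dot hf z ζ hμ
  have hti := uT_isom hf z ζ hμ hζ h0
  have htd : ((tvG z (ζ • rep f z) h0 : GL ι F) : Matrix ι ι F).det = 1 :=
    det_eq_one_of_mem_SL _ (tvG_mem_SL _ _ h0)
  have r1 := rel_conj hnorm hr _ hti htd
  rw [uT_mulVec hf, uT_mulVec hf, hxz, mul_zero, zero_smul, add_zero, hyz, mul_one] at r1
  have r2 : Rel N y (y + ζ • z) := rel_trans (rel_symm hr) r1
  have hy2 : f (y + ζ • z) (y + ζ • z) = 0 := by
    have := hti y y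
    rw [uT_mulVec hf, hyz, mul_one] at this
    rw [this]
    exact hy
  have hyy2 : f y (y + ζ • z) ≠ 0 := by
    rw [hf.add_right, hf.smul_right, hy, hyz, zero_add, mul_one]
    exact sig_ne_zero hf hζ0
  exact rel_trans hr (rel_B hf hnorm hy hy2 r2 hyy2 r hr0 hrr)

/-- a subgroup normalised by the special isometries and moving an isotropic point is
transitive on isotropic points -/
theorem orbit_all [Finite F] [Nonempty ι] (hf : IsHerm σ f) {N : Subgroup (GL ι F)}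
    (hN : ∀ g ∈ N, Isom f g)
    (hnorm : ∀ h : GL ι F, Isom f h → (h : Matrix ι ι F).det = 1 → ∀ k ∈ N, h * k * h⁻¹ ∈ N)
    (g₀ : GL ι F) (hg₀ : g₀ ∈ N) (x : ι → F) (hx : f x x = 0)
    (hmove : ∀ a : F, (g₀ : Matrix ι ι F) *ᵥ x ≠ a • x) (r : ι → F) (hr0 : r ≠ 0)
    (hrr : f r r = 0) : Rel N x r := by
  have hr : Rel N x ((g₀ : Matrix ι ι F) *ᵥ x) :=
    ⟨g₀, hg₀, 1, one_ne_zero, (one_smul _ _).symm⟩
  have hy : f ((g₀ : Matrix ι ι F) *ᵥ x) ((g₀ : Matrix ι ι F) *ᵥ x) = 0 := by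
    rw [hN g₀ hg₀]
    exact hx
  by_cases hxy : f x ((g₀ : Matrix ι ι F) *ᵥ x) = 0
  · exact rel_C hf hnorm hx hy hr hxy hmove r hr0 hrr
  · exact rel_B hf hnorm hx hy hr hxy r hr0 hrr

/-- an isometry fixing all isotropic points has eigenvalues of norm one on them -/
theorem eigen_norm (hf : IsHerm σ f) (g : GL ι F) (hg : Isom f g)
    (hfix : ∀ x, f x x = 0 → x ≠ 0 → ∃ a : F, (g : Matrix ι ι F) *ᵥ x = a • x) (x : ι → F)
    (hx : f x x = 0) (hx0 : x ≠ 0) (a : F) (ha : (g : Matrix ι ι F) *ᵥ x = a • x) :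
    a * σ a = 1 := by
  obtain ⟨x', hx', hxx'⟩ := exists_partner hf x hx hx0
  have hx'x : f x' x = 1 := by rw [hf.herm, hxx', map_one]
  have hx'0 : x' ≠ 0 := by
    rintro rfl
    rw [hf.zero_right] at hxx'
    exact zero_ne_one hxx'
  obtain ⟨b, hb⟩ := hfix x' hx' hx'0
  obtain ⟨ζ, hζ0, hζ⟩ := hf.exists_zeta
  have hz : f (x + ζ • x') (x + ζ • x') = 0 := by
    simp only [hf.add_left, hf.add_right, hf.smul_left, hf.smul_right, hx, hx', hxx', hx'x,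
      mul_zero, mul_one, add_zero, zero_add]
    linear_combination hζ
  have hz0 : x + ζ • x' ≠ 0 := by
    intro h
    have h1 : f (x + ζ • x') x' = 1 := by
      rw [hf.add_left, hf.smul_left, hxx', hx', mul_zero, add_zero]
    rw [h, hf.zero_left] at h1
    exact zero_ne_one h1
  obtain ⟨c, hc⟩ := hfix _ hz hz0
  rw [Matrix.mulVec_add, Matrix.mulVec_smul, ha, hb] at hc
  have h1 := congrArg (fun v => f v x') hc
  have h2 := congrArg (fun v => f v x) hc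
  simp only [hf.add_left, hf.smul_left, hxx', hx', hx, hx'x, mul_zero, mul_one, add_zero,
    zero_add] at h1 h2
  have hab : a = b := by
    have h3 : ζ * b = ζ * a := by
      rw [h2, h1]
      ring
    exact (mul_left_cancel₀ hζ0 h3).symm
  have h3 := hg x x'
  rw [ha, hb, hf.smul_left, hf.smul_right, hxx', mul_one] at h3
  rw [hab] at h3 ⊢
  exact h3

end Cfsg.Agent.Lib.Helper13.HermSimple
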