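import Mathlib
import Cfsg.Agent.S2162

set_option autoImplicit false

namespace Cfsg.Agent.Lib.Helper13.NilNormal

open Matrix

/-- A square-zero matrix of rank one is conjugate to a matrix unit `E_{i₁,0}` with `i₁ ≠ 0`. -/
theorem normal_form {F : Type*} [Field F] (n : ℕ) (N : Matrix (Fin (n + 2)) (Fin (n + 2)) F)
    (hsq : N * N = 0) (hrank : N.rank = 1) :
    ∃ (P : Matrix (Fin (n + 2)) (Fin (n + 2)) F) (i₁ : Fin (n + 2)), P.det ≠ 0 ∧ i₁ ≠ 0 ∧
      N * P = P * Matrix.vecMulVec (Pi.single i₁ 1) (Pi.single 0 1) := by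
  classical
  obtain ⟨m, B, hm, hB1, hB2⟩ := Cfsg.Agent.S2162.adapted (by omega : 1 ≤ n + 2) N hsq 1 hrank
  have hcard : Fintype.card (Fin 1 ⊕ (Fin m ⊕ Fin 1)) = Fintype.card (Fin (n + 2)) := by
    simp; omega
  let e₀ : Fin 1 ⊕ (Fin m ⊕ Fin 1) ≃ Fin (n + 2) := Fintype.equivOfCardEq hcard
  let e : Fin 1 ⊕ (Fin m ⊕ Fin 1) ≃ Fin (n + 2) := e₀.trans (Equiv.swap (e₀ (Sum.inl 0)) 0)
  have he0 : e (Sum.inl 0) = 0 := by
    show Equiv.swap (e₀ (Sum.inl 0)) 0 (e₀ (Sum.inl 0)) = 0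
    exact Equiv.swap_apply_left _ _
  have hesymm0 : e.symm 0 = Sum.inl 0 := by
    rw [Equiv.symm_apply_eq, he0]
  set i₁ : Fin (n + 2) := e (Sum.inr (Sum.inr 0)) with hi₁
  have hi₁0 : i₁ ≠ 0 := by
    rw [hi₁, ← he0]
    intro h
    have := e.injective h
    simp at this
  let φ : (Fin (n + 2) → F) ≃ₗ[F] (Fin (n + 2) → F) :=
    (Pi.basisFun F (Fin (n + 2))).equiv (B.reindex e) (Equiv.refl _)
  have hφ : ∀ j, φ (Pi.single j 1) = B (e.symm j) := fun j => by
    show ((Pi.basisFun F (Fin (n + 2))).equiv (B.reindex e) (Equiv.refl _)) (Pi.single j 1) = _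
    rw [← Pi.basisFun_apply, Module.Basis.equiv_apply, Equiv.refl_apply, Module.Basis.reindex_apply]
  set P : Matrix (Fin (n + 2)) (Fin (n + 2)) F := LinearMap.toMatrix' φ.toLinearMap with hP
  have hPv : ∀ x, P *ᵥ x = φ x := fun x => by
    rw [← Matrix.toLin'_apply, hP, Matrix.toLin'_toMatrix']; rfl
  have hdetP : P.det ≠ 0 := by
    rw [hP, LinearMap.det_toMatrix']
    exact (LinearEquiv.isUnit_det' φ).ne_zero
  refine ⟨P, i₁, hdetP, hi₁0, ?_⟩
  have : ∀ j, (N * P) *ᵥ Pi.single j 1 = (P * Matrix.vecMulVec (Pi.single i₁ 1) (Pi.single 0 1)) *ᵥ Pi.single j 1 := by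
    intro j
    rw [← Matrix.mulVec_mulVec, hPv, hφ, ← Matrix.mulVec_mulVec]
    by_cases hj : j = 0
    · subst hj
      rw [hesymm0, hB1]
      have : Matrix.vecMulVec (Pi.single i₁ (1 : F)) (Pi.single (0 : Fin (n + 2)) (1 : F)) *ᵥ Pi.single (0 : Fin (n + 2)) (1 : F) = Pi.single i₁ 1 := by
        rw [Matrix.vecMulVec_mulVec, dotProduct_single]
        simp
      rw [this, hPv, hφ, hi₁, Equiv.symm_apply_apply]
    · have : Matrix.vecMulVec (Pi.single i₁ (1 : F)) (Pi.single (0 : Fin (n + 2)) (1 : F)) *ᵥ Pi.single j (1 : F) = 0 := by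
        rw [Matrix.vecMulVec_mulVec, dotProduct_single, Pi.single_eq_of_ne hj]
        simp
      rw [this, Matrix.mulVec_zero]
      have : ∃ x, e.symm j = Sum.inr x := by
        rcases h : e.symm j with j' | x
        · exfalso
          apply hj
          have : j' = 0 := Subsingleton.elim _ _
          rw [this, ← hesymm0] at h
          exact e.symm.injective h
        · exact ⟨x, rfl⟩
      obtain ⟨x, hx⟩ := this
      rw [hx, hB2]
  ext i j
  have := congrFun (this j) i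
  simpa using this

/-- A nonzero square-zero `3 × 3` matrix has rank one. -/
theorem rank_one_of_sq_zero {F : Type*} [Field F] (N : Matrix (Fin 3) (Fin 3) F)
    (hsq : N * N = 0) (hN : N ≠ 0) : N.rank = 1 := by
  obtain ⟨m, B, hm, -, -⟩ := Cfsg.Agent.S2162.adapted (by norm_num : 1 ≤ 3) N hsq N.rank rfl
  have h0 : N.rank ≠ 0 := fun h => hN (Cfsg.Agent.S2162.eq_zero_of_rank_zero (by norm_num) N hsq h)
  omega

end Cfsg.Agent.Lib.Helper13.NilNormal
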