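import Mathlib
import Cfsg.Agent.S0750
import Cfsg.Agent.S5631
import Cfsg.Agent.S5645
import Cfsg.Agent.Lib.Helper28.Herm
import Cfsg.Agent.Lib.Helper13.AltInv

set_option autoImplicit false
open Cfsg

namespace Cfsg.Agent.Lib.Helper13.OrthInv

open Matrix
open Cfsg.Agent.S5631 Cfsg.Agent.S5645
open Cfsg.Agent.Lib.Helper28.Herm (Isom isom_inv isom_mul)
open Cfsg.Agent.Lib.Helper13.AltInv

variable {ι : Type} [Fintype ι] [DecidableEq ι] {F : Type*} [Field F]

/-! ### generic data of involutions of alternating forms in characteristic two -/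

section alt

variable {f : (ι → F) → (ι → F) → F}

theorem gl_rank_conj (g t s : GL ι F) (hgt : g * t = s * g) :
    ((t : Matrix ι ι F) - 1).rank = ((s : Matrix ι ι F) - 1).rank := by
  have e : (s : Matrix ι ι F) - 1 =
      (g : Matrix ι ι F) * ((t : Matrix ι ι F) - 1) * ((g⁻¹ : GL ι F) : Matrix ι ι F) := by
    have h1 : s = g * t * g⁻¹ := by rw [hgt]; group
    rw [Matrix.mul_sub, Matrix.sub_mul, mul_one, ← Units.val_mul, ← Units.val_mul,
      ← Units.val_mul, mul_inv_cancel, ← h1, Units.val_one]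
  rw [e, Matrix.rank_mul_eq_left_of_isUnit_det, Matrix.rank_mul_eq_right_of_isUnit_det]
  · exact Matrix.isUnits_det_units g
  · exact Matrix.isUnits_det_units g⁻¹

theorem dataA' (hf : IsAlt f) (h2 : (2 : F) = 0) (a : GL ι F) (hi : Isom f a) (hs : a * a = 1)
    (halt : ∀ y, f ((a : Matrix ι ι F) *ᵥ y - y) y = 0) :
    ∃ (r : ℕ) (u v : Fin r → ι → F),
      (∀ i, ∃ z, Sum.elim u v i = (a : Matrix ι ι F) *ᵥ z - z) ∧
      LinearIndependent F (Sum.elim u v) ∧
      (∀ i j, f (Sum.elim u v i) (Sum.elim u v j) = 0) ∧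
      (∀ y, (a : Matrix ι ι F) *ᵥ y = y + ∑ i, (f y (u i) • v i + f y (v i) • u i)) ∧
      ((a : Matrix ι ι F) - 1).rank = r + r := by
  obtain ⟨r, u, v, hu1, hv1, hind, hform⟩ :=
    nf_A hf h2 (Fintype.card ι) a hi hs (by omega) halt
  have hmem : ∀ i, ∃ z, Sum.elim u v i = (a : Matrix ι ι F) *ᵥ z - z := by
    intro i
    rcases i with i | i
    · exact hu1 i
    · exact hv1 i
  have hli := ind_sum u v hind
  have hN : ∀ y, ((a : Matrix ι ι F) - 1) *ᵥ y ∈ Submodule.span F (Set.range (Sum.elim u v)) := by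
    intro y
    have e : ((a : Matrix ι ι F) - 1) *ᵥ y = ∑ i, (f y (u i) • v i + f y (v i) • u i) := by
      rw [Matrix.sub_mulVec, Matrix.one_mulVec, sub_eq_iff_eq_add']
      exact hform y
    rw [e]
    apply Submodule.sum_mem
    intro i _
    apply Submodule.add_mem
    · exact Submodule.smul_mem _ _ (Submodule.subset_span ⟨Sum.inr i, rfl⟩)
    · exact Submodule.smul_mem _ _ (Submodule.subset_span ⟨Sum.inl i, rfl⟩)
  have hw1 : ∀ i, ∃ z, Sum.elim u v i = ((a : Matrix ι ι F) - 1) *ᵥ z := by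
    intro i
    obtain ⟨z, hz⟩ := hmem i
    exact ⟨z, by rw [hz, Matrix.sub_mulVec, Matrix.one_mulVec]⟩
  refine ⟨r, u, v, hmem, hli, ?_, hform, ?_⟩
  · intro i j
    obtain ⟨z, hz⟩ := hmem i
    obtain ⟨z', hz'⟩ := hmem j
    rw [hz, hz']
    exact ainv_iso hf h2 _ hi hs z z'
  · rw [rank_of_span _ _ hN hw1 hli, Fintype.card_sum, Fintype.card_fin]

theorem dataB' [Finite F] (hf : IsAlt f) (h2 : (2 : F) = 0) (a : GL ι F) (hi : Isom f a)
    (hs : a * a = 1) (hna : ∃ y, f ((a : Matrix ι ι F) *ᵥ y - y) y ≠ 0) :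
    ∃ (k : ℕ) (u : Fin k → ι → F),
      (∀ i, ∃ z, u i = (a : Matrix ι ι F) *ᵥ z - z) ∧
      LinearIndependent F u ∧
      (∀ i j, f (u i) (u j) = 0) ∧
      (∀ y, (a : Matrix ι ι F) *ᵥ y = y + ∑ i, f y (u i) • u i) ∧
      ((a : Matrix ι ι F) - 1).rank = k := by
  obtain ⟨k, u, hu1, hli, hform⟩ :=
    nf_B hf h2 (Fintype.card ι) a hi hs (by omega) (Or.inr hna)
  have hN : ∀ y, ((a : Matrix ι ι F) - 1) *ᵥ y ∈ Submodule.span F (Set.range u) := by
    intro y
    have e : ((a : Matrix ι ι F) - 1) *ᵥ y = ∑ i, f y (u i) • u i := by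
      rw [Matrix.sub_mulVec, Matrix.one_mulVec, sub_eq_iff_eq_add']
      exact hform y
    rw [e]
    apply Submodule.sum_mem
    intro i _
    exact Submodule.smul_mem _ _ (Submodule.subset_span ⟨i, rfl⟩)
  have hw1 : ∀ i, ∃ z, u i = ((a : Matrix ι ι F) - 1) *ᵥ z := by
    intro i
    obtain ⟨z, hz⟩ := hu1 i
    exact ⟨z, by rw [hz, Matrix.sub_mulVec, Matrix.one_mulVec]⟩
  refine ⟨k, u, hu1, hli, ?_, hform, ?_⟩
  · intro i j
    obtain ⟨z, hz⟩ := hu1 i
    obtain ⟨z', hz'⟩ := hu1 j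
    rw [hz, hz']
    exact ainv_iso hf h2 _ hi hs z z'
  · rw [rank_of_span _ _ hN hw1 hli, Fintype.card_fin]

theorem comm_B {k : ℕ} (a b g : GL ι F) (hg1 : Isom f g) (u u' : Fin k → ι → F)
    (hg2 : ∀ i, (g : Matrix ι ι F) *ᵥ u i = u' i)
    (ha : ∀ y, (a : Matrix ι ι F) *ᵥ y = y + ∑ i, f y (u i) • u i)
    (hb : ∀ y, (b : Matrix ι ι F) *ᵥ y = y + ∑ i, f y (u' i) • u' i) :
    g * a = b * g := by
  apply gl_ext
  intro y
  rw [Units.val_mul, Units.val_mul, ← Matrix.mulVec_mulVec, ← Matrix.mulVec_mulVec, ha, hb,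
    Matrix.mulVec_add, Matrix.mulVec_sum]
  congr 1
  apply Finset.sum_congr rfl
  intro i _
  rw [Matrix.mulVec_smul, ← hg2 i, hg1]

theorem comm_A {r : ℕ} (a b g : GL ι F) (hg1 : Isom f g) (u v u' v' : Fin r → ι → F)
    (hg2 : ∀ i, (g : Matrix ι ι F) *ᵥ Sum.elim u v i = Sum.elim u' v' i)
    (ha : ∀ y, (a : Matrix ι ι F) *ᵥ y = y + ∑ i, (f y (u i) • v i + f y (v i) • u i))
    (hb : ∀ y, (b : Matrix ι ι F) *ᵥ y = y + ∑ i, (f y (u' i) • v' i + f y (v' i) • u' i)) :
    g * a = b * g := by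
  have hgu : ∀ i, (g : Matrix ι ι F) *ᵥ u i = u' i := fun i => hg2 (Sum.inl i)
  have hgv : ∀ i, (g : Matrix ι ι F) *ᵥ v i = v' i := fun i => hg2 (Sum.inr i)
  apply gl_ext
  intro y
  rw [Units.val_mul, Units.val_mul, ← Matrix.mulVec_mulVec, ← Matrix.mulVec_mulVec, ha, hb,
    Matrix.mulVec_add, Matrix.mulVec_sum]
  congr 1
  apply Finset.sum_congr rfl
  intro i _
  rw [Matrix.mulVec_add, Matrix.mulVec_smul, Matrix.mulVec_smul, ← hgu i, ← hgv i, hg1, hg1]

end alt

/-! ### quadratic forms in characteristic two -/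

/-- the polar form as a plain function -/
def pf (Q : QuadraticForm F (ι → F)) : (ι → F) → (ι → F) → F :=
  fun u v => QuadraticMap.polar Q u v

theorem pf_isAlt (Q : QuadraticForm F (ι → F))
    (hQ : (QuadraticMap.polarBilin Q).Nondegenerate) (h2 : (2 : F) = 0) : IsAlt (pf Q) where
  add_left := fun x y v => QuadraticMap.polar_add_left Q x y v
  smul_left := fun c x v => by
    show QuadraticMap.polar Q (c • x) v = c * QuadraticMap.polar Q x v
    rw [QuadraticMap.polar_smul_left, smul_eq_mul]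
  add_right := fun v x y => QuadraticMap.polar_add_right Q v x y
  smul_right := fun c v x => by
    show QuadraticMap.polar Q v (c • x) = c * QuadraticMap.polar Q v x
    rw [QuadraticMap.polar_smul_right, smul_eq_mul]
  self := fun v => by
    show QuadraticMap.polar Q v v = 0
    rw [QuadraticMap.polar_self, two_smul]
    linear_combination (Q v) * h2
  nondeg := fun x h => hQ.1 x (fun y => h y)

theorem isom_of_Q (Q : QuadraticForm F (ι → F)) (g : GL ι F)
    (hg : ∀ v, Q ((g : Matrix ι ι F) *ᵥ v) = Q v) : Isom (pf Q) g := by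
  intro u v
  show QuadraticMap.polar Q _ _ = QuadraticMap.polar Q u v
  unfold QuadraticMap.polar
  rw [← Matrix.mulVec_add, hg, hg, hg]

theorem Q_range (Q : QuadraticForm F (ι → F)) (h2 : (2 : F) = 0) (t : GL ι F)
    (ht : ∀ v, Q ((t : Matrix ι ι F) *ᵥ v) = Q v) (v : ι → F) :
    Q ((t : Matrix ι ι F) *ᵥ v - v) = pf Q ((t : Matrix ι ι F) *ᵥ v - v) v := by
  have h1 : Q ((t : Matrix ι ι F) *ᵥ v) = Q (((t : Matrix ι ι F) *ᵥ v - v) + v) := by
    rw [sub_add_cancel]
  rw [QuadraticMap.map_add (⇑Q) ((t : Matrix ι ι F) *ᵥ v - v) v, ht] at h1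
  show Q ((t : Matrix ι ι F) *ᵥ v - v) = QuadraticMap.polar Q ((t : Matrix ι ι F) *ᵥ v - v) v
  linear_combination (-1 : F) * h1 - QuadraticMap.polar Q ((t : Matrix ι ι F) *ᵥ v - v) v * h2

/-- Witt's theorem for families spanning totally isotropic (for the polar form) subspaces -/
theorem witt_Q [Finite F] (Q : QuadraticForm F (ι → F))
    (hQ : (QuadraticMap.polarBilin Q).Nondegenerate) (h2 : (2 : F) = 0) {κ : Type}
    (w w' : κ → ι → F) (hw : LinearIndependent F w) (hw' : LinearIndependent F w')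
    (ho : ∀ i j, pf Q (w i) (w j) = 0) (ho' : ∀ i j, pf Q (w' i) (w' j) = 0)
    (hq : ∀ i, Q (w i) = Q (w' i)) :
    ∃ h : GL ι F, (∀ v, Q ((h : Matrix ι ι F) *ᵥ v) = Q v) ∧
      ∀ i, (h : Matrix ι ι F) *ᵥ w i = w' i := by
  have hf := pf_isAlt Q hQ h2
  let φ : Submodule.span F (Set.range w) ≃ₗ[F] Submodule.span F (Set.range w') :=
    (Module.Basis.span hw).equiv (Module.Basis.span hw') (Equiv.refl _)
  have hφb : ∀ i, ((φ (Module.Basis.span hw i) : Submodule.span F (Set.range w')) : ι → F) =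
      w' i := by
    intro i
    show ((((Module.Basis.span hw).equiv (Module.Basis.span hw') (Equiv.refl _))
      (Module.Basis.span hw i) : Submodule.span F (Set.range w')) : ι → F) = w' i
    rw [Module.Basis.equiv_apply, Equiv.refl_apply, Module.Basis.span_apply]
  have hb : ∀ i, ((Module.Basis.span hw i : Submodule.span F (Set.range w)) : ι → F) = w i :=
    fun i => congrArg Subtype.val (Module.Basis.span_apply hw i)
  have hφ : ∀ x : Submodule.span F (Set.range w), Q (φ x : ι → F) = Q (x : ι → F) := by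
    intro x
    have hx : x ∈ Submodule.span F (Set.range (Module.Basis.span hw)) := by
      rw [Module.Basis.span_eq]
      exact Submodule.mem_top
    induction hx using Submodule.span_induction with
    | mem y hy =>
      obtain ⟨i, rfl⟩ := hy
      rw [hφb, hb, hq]
    | zero =>
      rw [map_zero]
      rfl
    | add y z _ _ hy hz =>
      have e1 : QuadraticMap.polar Q (φ y : ι → F) (φ z : ι → F) = 0 :=
        aspan_ti hf w' ho' _ (φ y).2 _ (φ z).2
      have e2 : QuadraticMap.polar Q (y : ι → F) (z : ι → F) = 0 :=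
        aspan_ti hf w ho _ y.2 _ z.2
      rw [map_add, Submodule.coe_add, Submodule.coe_add,
        QuadraticMap.map_add (⇑Q) (φ y : ι → F) (φ z : ι → F),
        QuadraticMap.map_add (⇑Q) (y : ι → F) (z : ι → F), hy, hz, e1, e2]
    | smul c y _ hy =>
      rw [map_smul, Submodule.coe_smul, Submodule.coe_smul, QuadraticMap.map_smul,
        QuadraticMap.map_smul, hy]
  obtain ⟨g, hg1, hg2⟩ := Cfsg.Agent.S0750.result Q hQ _ _ φ hφ
  have hmv : ∀ x, LinearMap.toMatrix' (g : (ι → F) →ₗ[F] (ι → F)) *ᵥ x = g x := by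
    intro x
    rw [LinearMap.toMatrix'_mulVec]
    rfl
  have e1 : LinearMap.toMatrix' (g : (ι → F) →ₗ[F] (ι → F)) *
      LinearMap.toMatrix' (g.symm : (ι → F) →ₗ[F] (ι → F)) = 1 := by
    rw [← LinearMap.toMatrix'_comp, ← LinearMap.toMatrix'_id]
    congr 1
    ext x : 1
    simp
  have e2 : LinearMap.toMatrix' (g.symm : (ι → F) →ₗ[F] (ι → F)) *
      LinearMap.toMatrix' (g : (ι → F) →ₗ[F] (ι → F)) = 1 := by
    rw [← LinearMap.toMatrix'_comp, ← LinearMap.toMatrix'_id]
    congr 1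
    ext x : 1
    simp
  refine ⟨⟨_, _, e1, e2⟩, fun v => ?_, fun i => ?_⟩
  · show Q (LinearMap.toMatrix' (g : (ι → F) →ₗ[F] (ι → F)) *ᵥ v) = Q v
    rw [hmv]
    exact hg1 v
  · show LinearMap.toMatrix' (g : (ι → F) →ₗ[F] (ι → F)) *ᵥ w i = w' i
    rw [hmv, ← hb i, hg2, hφb]

theorem B_norm (Q : QuadraticForm F (ι → F))
    (hQ : (QuadraticMap.polarBilin Q).Nondegenerate) (h2 : (2 : F) = 0) (t : GL ι F)
    (ht : ∀ v, Q ((t : Matrix ι ι F) *ᵥ v) = Q v) {k : ℕ} (u : Fin k → ι → F)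
    (hu1 : ∀ i, ∃ z, u i = (t : Matrix ι ι F) *ᵥ z - z) (hli : LinearIndependent F u)
    (hform : ∀ y, (t : Matrix ι ι F) *ᵥ y = y + ∑ i, pf Q y (u i) • u i) (j : Fin k) :
    Q (u j) = 1 := by
  have hf := pf_isAlt Q hQ h2
  obtain ⟨z, hz⟩ := hu1 j
  have h1 : ∑ i, (pf Q z (u i) - if i = j then 1 else 0) • u i = 0 := by
    simp only [sub_smul, Finset.sum_sub_distrib, ite_smul, one_smul, zero_smul,
      Finset.sum_ite_eq', Finset.mem_univ, if_true]
    rw [hz, hform z]
    abel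
  have h3 := Fintype.linearIndependent_iff.mp hli _ h1 j
  simp only [if_true] at h3
  rw [hz, Q_range Q h2 t ht z, ← hz, symm2 hf h2]
  linear_combination h3

/-- involutions of the orthogonal group of a quadratic form in characteristic two which are
conjugate under the symplectic group of the polar form are conjugate in the orthogonal group -/
theorem orth_conj [Finite F] (Q : QuadraticForm F (ι → F))
    (hQ : (QuadraticMap.polarBilin Q).Nondegenerate) (h2 : (2 : F) = 0)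
    (t s g : GL ι F) (ht : ∀ v, Q ((t : Matrix ι ι F) *ᵥ v) = Q v)
    (hs : ∀ v, Q ((s : Matrix ι ι F) *ᵥ v) = Q v) (htt : t * t = 1) (hss : s * s = 1)
    (hg : ∀ u v, QuadraticMap.polar Q ((g : Matrix ι ι F) *ᵥ u) ((g : Matrix ι ι F) *ᵥ v) =
      QuadraticMap.polar Q u v) (hgt : g * t = s * g) :
    ∃ h : GL ι F, (∀ v, Q ((h : Matrix ι ι F) *ᵥ v) = Q v) ∧ h * t = s * h := by
  have hf := pf_isAlt Q hQ h2
  have hti := isom_of_Q Q t ht
  have hsi := isom_of_Q Q s hs
  have hgi : Isom (pf Q) g := hg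
  have key : ∀ y, pf Q ((s : Matrix ι ι F) *ᵥ ((g : Matrix ι ι F) *ᵥ y) - (g : Matrix ι ι F) *ᵥ y)
      ((g : Matrix ι ι F) *ᵥ y) = pf Q ((t : Matrix ι ι F) *ᵥ y - y) y := by
    intro y
    have e : (s : Matrix ι ι F) *ᵥ ((g : Matrix ι ι F) *ᵥ y) =
        (g : Matrix ι ι F) *ᵥ ((t : Matrix ι ι F) *ᵥ y) := by
      rw [Matrix.mulVec_mulVec, Matrix.mulVec_mulVec, ← Units.val_mul, ← Units.val_mul, hgt]
    rw [e, ← Matrix.mulVec_sub, hgi]
  have htype : (∀ y, pf Q ((t : Matrix ι ι F) *ᵥ y - y) y = 0) ↔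
      (∀ y, pf Q ((s : Matrix ι ι F) *ᵥ y - y) y = 0) := by
    constructor
    · intro h y
      have h1 := key (((g⁻¹ : GL ι F) : Matrix ι ι F) *ᵥ y)
      rw [gl_mulVec_inv] at h1
      rw [h1]
      exact h _
    · intro h y
      rw [← key]
      exact h _
  have hrank := gl_rank_conj g t s hgt
  by_cases hA : ∀ y, pf Q ((t : Matrix ι ι F) *ᵥ y - y) y = 0
  · have hA' := htype.mp hA
    obtain ⟨r, u, v, hmem, hli, hti2, hform, hrk⟩ := dataA' hf h2 t hti htt hA
    obtain ⟨r', u', v', hmem', hli', hti2', hform', hrk'⟩ := dataA' hf h2 s hsi hss hA'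
    have hrr : r = r' := by
      rw [hrk, hrk'] at hrank
      omega
    subst hrr
    have hq : ∀ i, Q (Sum.elim u v i) = Q (Sum.elim u' v' i) := by
      intro i
      obtain ⟨z, hz⟩ := hmem i
      obtain ⟨z', hz'⟩ := hmem' i
      rw [hz, hz', Q_range Q h2 t ht, Q_range Q h2 s hs, hA, hA']
    obtain ⟨h, hh1, hh2⟩ := witt_Q Q hQ h2 _ _ hli hli' hti2 hti2' hq
    exact ⟨h, hh1, comm_A t s h (isom_of_Q Q h hh1) u v u' v' hh2 hform hform'⟩
  · have hA' : ¬ ∀ y, pf Q ((s : Matrix ι ι F) *ᵥ y - y) y = 0 := fun h => hA (htype.mpr h)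
    push Not at hA hA'
    obtain ⟨k, u, hmem, hli, hti2, hform, hrk⟩ := dataB' hf h2 t hti htt hA
    obtain ⟨k', u', hmem', hli', hti2', hform', hrk'⟩ := dataB' hf h2 s hsi hss hA'
    have hkk : k = k' := by
      rw [hrk, hrk'] at hrank
      exact hrank
    subst hkk
    have hq : ∀ i, Q (u i) = Q (u' i) := by
      intro i
      rw [B_norm Q hQ h2 t ht u hmem hli hform i, B_norm Q hQ h2 s hs u' hmem' hli' hform' i]
    obtain ⟨h, hh1, hh2⟩ := witt_Q Q hQ h2 _ _ hli hli' hti2 hti2' hq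
    exact ⟨h, hh1, comm_B t s h (isom_of_Q Q h hh1) u u' hh2 hform hform'⟩

/-- two involutions of the isometry group of a quadratic form in characteristic two are
conjugate there iff they are conjugate under the symplectic group of the polar form -/
theorem orth_main [Finite F] (Q₀ : (ι → F) → F) (QF : QuadraticForm F (ι → F))
    (hQF : ∀ v, QF v = Q₀ v) (hnd : (QuadraticMap.polarBilin QF).Nondegenerate)
    (h2 : (2 : F) = 0) (t s : ↥(Cfsg.isometryGroup F Q₀)) (ht : orderOf t = 2)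
    (hs : orderOf s = 2) :
    IsConj t s ↔ ∃ g ∈ Cfsg.preserving (Units.coeHom (Matrix ι ι F))
      (fun u v => Q₀ (u + v) - Q₀ u - Q₀ v), g * (t : GL ι F) * g⁻¹ = (s : GL ι F) := by
  have mem_iso : ∀ g : GL ι F, g ∈ Cfsg.isometryGroup F Q₀ ↔
      ∀ v, Q₀ ((g : Matrix ι ι F) *ᵥ v) = Q₀ v := by
    intro g
    constructor
    · intro h v
      exact h v v
    · intro h u v
      exact h u
  constructor
  · intro h
    rw [isConj_iff] at h
    obtain ⟨c, hc⟩ := h
    refine ⟨(c : GL ι F), ?_, ?_⟩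
    · intro u v
      have hc' := (mem_iso _).mp c.2
      show Q₀ (((c : GL ι F) : Matrix ι ι F) *ᵥ u + ((c : GL ι F) : Matrix ι ι F) *ᵥ v) -
        Q₀ (((c : GL ι F) : Matrix ι ι F) *ᵥ u) - Q₀ (((c : GL ι F) : Matrix ι ι F) *ᵥ v) =
        Q₀ (u + v) - Q₀ u - Q₀ v
      rw [← Matrix.mulVec_add, hc', hc', hc']
    · rw [← hc]
      rfl
  · rintro ⟨g, hg, hgt⟩
    have htt : (t : GL ι F) * (t : GL ι F) = 1 := by
      have : t * t = 1 := by rw [← pow_two, ← ht]; exact pow_orderOf_eq_one t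
      exact congrArg Subtype.val this
    have hss : (s : GL ι F) * (s : GL ι F) = 1 := by
      have : s * s = 1 := by rw [← pow_two, ← hs]; exact pow_orderOf_eq_one s
      exact congrArg Subtype.val this
    have hgt' : g * (t : GL ι F) = (s : GL ι F) * g := by rw [← hgt]; group
    have hpol : ∀ u v, QuadraticMap.polar QF ((g : Matrix ι ι F) *ᵥ u) ((g : Matrix ι ι F) *ᵥ v) =
        QuadraticMap.polar QF u v := by
      intro u v
      have := hg u v
      unfold QuadraticMap.polar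
      simp only [hQF]
      exact this
    obtain ⟨h, hh1, hh2⟩ := orth_conj QF hnd h2 (t : GL ι F) (s : GL ι F) g
      (fun v => by rw [hQF, hQF]; exact (mem_iso _).mp t.2 v)
      (fun v => by rw [hQF, hQF]; exact (mem_iso _).mp s.2 v) htt hss hpol hgt'
    rw [isConj_iff]
    refine ⟨⟨h, (mem_iso h).mpr (fun v => by rw [← hQF, ← hQF]; exact hh1 v)⟩, ?_⟩
    apply mul_inv_eq_of_eq_mul
    apply Subtype.ext
    exact hh2

end Cfsg.Agent.Lib.Helper13.OrthInv
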