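import Mathlib
import Cfsg.Agent.Lib.Helper13.OrthCent4
import Cfsg.Agent.S2595

set_option autoImplicit false
open Cfsg

namespace Cfsg.Agent.Lib.Helper13.NsPoint

open Matrix



/-- a matrix of prime order `r` without non-zero fixed vectors, when `r ∣ q ^ d - 1` -/
theorem exists_ff (F : Type*) [Field F] [Fintype F] (p : ℕ) [Fact p.Prime] [CharP F p] (d : ℕ)
    (hd : 0 < d) (r : ℕ) (hr : r.Prime) (hrd : r ∣ Fintype.card F ^ d - 1) :
    ∃ g : Matrix (Fin d) (Fin d) F, g ^ r = 1 ∧ ∀ w, g *ᵥ w = w → w = 0 := by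
  have : NeZero d := ⟨by omega⟩
  have : Fact r.Prime := ⟨hr⟩
  have hfin : Module.finrank F (FiniteField.Extension F p d) = d :=
    FiniteField.finrank_extension F p d
  have hcard : Nat.card (FiniteField.Extension F p d) = Nat.card F ^ d :=
    FiniteField.natCard_extension F p d
  have hcu : Nat.card (FiniteField.Extension F p d)ˣ = Fintype.card F ^ d - 1 := by
    rw [Nat.card_units, hcard, Nat.card_eq_fintype_card]
  obtain ⟨ζ, hζ⟩ := exists_prime_orderOf_dvd_card' (G := (FiniteField.Extension F p d)ˣ) r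
    (by rw [hcu]; exact hrd)
  obtain ⟨b⟩ : Nonempty (Module.Basis (Fin d) F (FiniteField.Extension F p d)) :=
    ⟨Module.finBasisOfFinrankEq F _ hfin⟩
  refine ⟨Algebra.leftMulMatrix b (ζ : FiniteField.Extension F p d), ?_, ?_⟩
  · rw [← map_pow, ← Units.val_pow_eq_pow_val, ← hζ, pow_orderOf_eq_one, Units.val_one, map_one]
  · intro w hw
    have h1 : Algebra.leftMulMatrix b ((ζ : FiniteField.Extension F p d) - 1) *ᵥ w = 0 := by
      rw [map_sub, map_one, Matrix.sub_mulVec, hw, Matrix.one_mulVec, sub_self]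
    have hne : (ζ : FiniteField.Extension F p d) - 1 ≠ 0 := by
      intro h
      have h1 : ζ = 1 := Units.ext (by rw [Units.val_one]; exact sub_eq_zero.mp h)
      rw [h1, orderOf_one] at hζ
      exact hr.one_lt.ne hζ
    have h2 : Algebra.leftMulMatrix b ((ζ : FiniteField.Extension F p d) - 1)⁻¹ *
        Algebra.leftMulMatrix b ((ζ : FiniteField.Extension F p d) - 1) = 1 := by
      rw [← map_mul, inv_mul_cancel₀ hne, map_one]
    calc w = (1 : Matrix (Fin d) (Fin d) F) *ᵥ w := (Matrix.one_mulVec w).symm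
      _ = 0 := by rw [← h2, ← Matrix.mulVec_mulVec, h1, Matrix.mulVec_zero]

theorem block_pow {d : ℕ} {F : Type*} [Field F] (A D : Matrix (Fin d) (Fin d) F) (n : ℕ) :
    (Matrix.fromBlocks A 0 0 D) ^ n = Matrix.fromBlocks (A ^ n) 0 0 (D ^ n) := by
  induction n with
  | zero => rw [pow_zero, pow_zero, pow_zero, Matrix.fromBlocks_one]
  | succ n ih =>
    rw [pow_succ, ih, Matrix.fromBlocks_multiply, pow_succ, pow_succ]
    simp

/-- the isometry `g ⊕ g⁻ᵀ` of the hyperbolic form -/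
theorem block_elem {d : ℕ} {F : Type*} [Field F] (r : ℕ) (hr : 0 < r)
    (g : Matrix (Fin d) (Fin d) F) (hg : g ^ r = 1) (hfix : ∀ w, g *ᵥ w = w → w = 0) :
    ∃ X : GL (Fin d ⊕ Fin d) F,
      (∀ v : Fin d ⊕ Fin d → F, (∑ i : Fin d, ((X : Matrix (Fin d ⊕ Fin d) (Fin d ⊕ Fin d) F) *ᵥ v) (.inl i) *
          ((X : Matrix (Fin d ⊕ Fin d) (Fin d ⊕ Fin d) F) *ᵥ v) (.inr i)) =
        ∑ i : Fin d, v (.inl i) * v (.inr i)) ∧
      X ^ r = 1 ∧
      (∀ w : Fin d ⊕ Fin d → F, (X : Matrix (Fin d ⊕ Fin d) (Fin d ⊕ Fin d) F) *ᵥ w = w →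
        ∑ i : Fin d, w (.inl i) * w (.inr i) = 0) := by
  obtain ⟨n, rfl⟩ : ∃ n, r = n + 1 := ⟨r - 1, by omega⟩
  obtain ⟨h, hh⟩ : ∃ h : Matrix (Fin d) (Fin d) F, h = (g ^ n)ᵀ := ⟨_, rfl⟩
  have hhg : hᵀ * g = 1 := by
    rw [hh, Matrix.transpose_transpose, ← pow_succ, hg]
  have hhr : h ^ (n + 1) = 1 := by
    rw [hh, ← Matrix.transpose_pow, ← pow_mul, mul_comm, pow_mul, hg, one_pow,
      Matrix.transpose_one]
  have hXr : (Matrix.fromBlocks g 0 0 h) ^ (n + 1) = 1 := by
    rw [block_pow, hg, hhr, Matrix.fromBlocks_one]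
  have hu : IsUnit (Matrix.fromBlocks g 0 0 h) := IsUnit.of_pow_eq_one hXr (by omega)
  have hmv : ∀ v : Fin d ⊕ Fin d → F, (Matrix.fromBlocks g 0 0 h) *ᵥ v =
      Sum.elim (g *ᵥ (v ∘ Sum.inl)) (h *ᵥ (v ∘ Sum.inr)) := by
    intro v
    rw [Matrix.fromBlocks_mulVec, Matrix.zero_mulVec, Matrix.zero_mulVec, add_zero, zero_add]
  refine ⟨hu.unit, ?_, ?_, ?_⟩
  · intro v
    rw [IsUnit.unit_spec, hmv]
    show (g *ᵥ (v ∘ Sum.inl)) ⬝ᵥ (h *ᵥ (v ∘ Sum.inr)) = (v ∘ Sum.inl) ⬝ᵥ (v ∘ Sum.inr)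
    rw [Matrix.dotProduct_mulVec, ← Matrix.mulVec_transpose, Matrix.mulVec_mulVec, hhg,
      Matrix.one_mulVec]
  · apply Units.ext
    rw [Units.val_pow_eq_pow_val, IsUnit.unit_spec, hXr, Units.val_one]
  · intro w hw
    rw [IsUnit.unit_spec, hmv] at hw
    have h1 : g *ᵥ (w ∘ Sum.inl) = w ∘ Sum.inl := by
      ext i
      exact congrFun hw (Sum.inl i)
    have h2 := hfix _ h1
    apply Finset.sum_eq_zero
    intro i _
    have h3 : w (Sum.inl i) = 0 := congrFun h2 i
    rw [h3, zero_mul]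


open Matrix

variable {ι : Type} [Fintype ι] [DecidableEq ι] {F : Type*} [Field F] [Fintype F] [CharP F 2]

omit [Fintype F] in
theorem sq_one (c : F) (h : c * c = 1) : c = 1 := by
  have h2 : (2 : F) = 0 := CharTwo.two_eq_zero
  have h3 : (c - 1) * (c - 1) = 0 := by linear_combination h + (1 - c) * h2
  have h4 : c - 1 = 0 := by
    rcases mul_eq_zero.mp h3 with h | h <;> exact h
  linear_combination h4

omit [Fintype F] [DecidableEq ι] in
theorem smul_fix (Q : QuadraticForm F (ι → F)) (v : ι → F) (hv : Q v ≠ 0) (c : F)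
    (h : Q (c • v) = Q v) : c = 1 := by
  rw [QuadraticMap.map_smul, smul_eq_mul] at h
  apply sq_one
  have : (c * c - 1) * Q v = 0 := by linear_combination h
  rcases mul_eq_zero.mp this with h1 | h1
  · linear_combination h1
  · exact absurd h1 hv

omit [DecidableEq ι] in
theorem ns_points_card (Q : QuadraticForm F (ι → F)) :
    Nat.card {W : Submodule F (ι → F) // Module.finrank F ↥W = 1 ∧ ∃ v ∈ W, Q v ≠ 0} =
      Nat.card {v : ι → F // Q v = 1} := by
  symm
  have hne : ∀ v : {v : ι → F // Q v = 1}, v.1 ≠ 0 := by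
    intro v h0
    have := v.2
    rw [h0, QuadraticMap.map_zero] at this
    exact zero_ne_one this
  apply Nat.card_congr
  apply Equiv.ofBijective (fun v : {v : ι → F // Q v = 1} =>
    (⟨Submodule.span F {v.1}, finrank_span_singleton (hne v),
      ⟨v.1, Submodule.mem_span_singleton_self _, by rw [v.2]; exact one_ne_zero⟩⟩ :
      {W : Submodule F (ι → F) // Module.finrank F ↥W = 1 ∧ ∃ v ∈ W, Q v ≠ 0}))
  constructor
  · intro v v' h
    have h1 : Submodule.span F {v.1} = Submodule.span F {v'.1} := congrArg Subtype.val h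
    have h2 : v'.1 ∈ Submodule.span F {v.1} := by
      rw [h1]
      exact Submodule.mem_span_singleton_self _
    obtain ⟨c, hc⟩ := Submodule.mem_span_singleton.mp h2
    have h3 : c = 1 := smul_fix Q v.1 (by rw [v.2]; exact one_ne_zero) c (by rw [hc, v.2, v'.2])
    rw [h3, one_smul] at hc
    exact Subtype.ext hc
  · rintro ⟨W, hW, v, hv, hQv⟩
    have hs : OrthCent.sq (Q v) ≠ 0 := by
      intro h
      have := OrthCent.sq_mul (Q v)
      rw [h, mul_zero] at this
      exact hQv this.symm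
    have hQ1 : Q ((OrthCent.sq (Q v))⁻¹ • v) = 1 := by
      rw [QuadraticMap.map_smul, smul_eq_mul]
      nth_rewrite 3 [← OrthCent.sq_mul (Q v)]
      field_simp
    refine ⟨⟨(OrthCent.sq (Q v))⁻¹ • v, hQ1⟩, Subtype.ext ?_⟩
    show Submodule.span F {(OrthCent.sq (Q v))⁻¹ • v} = W
    have hne' : (OrthCent.sq (Q v))⁻¹ • v ≠ 0 := by
      intro h0
      rw [h0, QuadraticMap.map_zero] at hQ1
      exact zero_ne_one hQ1
    apply Submodule.eq_of_le_of_finrank_eq
    · rw [Submodule.span_singleton_le_iff_mem]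
      exact W.smul_mem _ hv
    · rw [finrank_span_singleton hne', hW]

omit [Fintype F] in
theorem fix_point_iff (Q : QuadraticForm F (ι → F)) (x : Matrix ι ι F)
    (hx : ∀ v, Q (x *ᵥ v) = Q v) :
    (∃ W : Submodule F (ι → F), (Module.finrank F ↥W = 1 ∧ ∃ v ∈ W, Q v ≠ 0) ∧
      W.map (Matrix.toLin' x) ≤ W) ↔ ∃ w, Q w ≠ 0 ∧ x *ᵥ w = w := by
  constructor
  · rintro ⟨W, ⟨hW, v, hv, hQv⟩, hmap⟩
    refine ⟨v, hQv, ?_⟩
    have h1 : x *ᵥ v ∈ W := hmap ⟨v, hv, by rw [Matrix.toLin'_apply]⟩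
    have hv0 : (⟨v, hv⟩ : W) ≠ 0 := by
      intro h0
      have : v = 0 := congrArg Subtype.val h0
      rw [this, QuadraticMap.map_zero] at hQv
      exact hQv rfl
    obtain ⟨c, hc⟩ := (finrank_eq_one_iff_of_nonzero' (⟨v, hv⟩ : W) hv0).mp hW ⟨x *ᵥ v, h1⟩
    have hc' : c • v = x *ᵥ v := congrArg Subtype.val hc
    have h3 : c = 1 := smul_fix Q v hQv c (by rw [hc', hx])
    rw [h3, one_smul] at hc'
    exact hc'.symm
  · rintro ⟨w, hw, hxw⟩
    have hw0 : w ≠ 0 := by
      intro h0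
      rw [h0, QuadraticMap.map_zero] at hw
      exact hw rfl
    refine ⟨Submodule.span F {w}, ⟨finrank_span_singleton hw0, w,
      Submodule.mem_span_singleton_self _, hw⟩, ?_⟩
    rintro _ ⟨u, hu, rfl⟩
    obtain ⟨c, rfl⟩ := Submodule.mem_span_singleton.mp hu
    rw [Matrix.toLin'_apply, Matrix.mulVec_smul, hxw]
    exact Submodule.smul_mem _ _ (Submodule.mem_span_singleton_self _)


open Cfsg.Agent.Lib.Helper15.StdForms (plusQF plus_nondeg)
open Cfsg.Agent.Lib.Helper13.OrthInv (pf Q_range)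
open Cfsg.Agent.Lib.Helper13.OmegaCount (rk alt Qx fix_ns mkO)


/-- an isometry whose square is scalar is an involution (or trivial) -/
theorem invol_of_sq_scalar (Q : QuadraticForm F (ι → F)) (y : ↥(Cfsg.isometryGroup F ⇑Q))
    (v : ι → F) (hv : Q v ≠ 0) (z : F)
    (h : (((y : GL ι F) ^ 2 : GL ι F) : Matrix ι ι F) = z • (1 : Matrix ι ι F)) : y * y = 1 := by
  have h1 : ((y : GL ι F) : Matrix ι ι F) * ((y : GL ι F) : Matrix ι ι F) = z • 1 := by
    rw [← h, pow_two]
    rfl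
  have h2 : Q (z • v) = Q v := by
    have e : z • v = (((y : GL ι F) : Matrix ι ι F) * ((y : GL ι F) : Matrix ι ι F)) *ᵥ v := by
      rw [h1, Matrix.smul_mulVec, Matrix.one_mulVec]
    rw [e, ← Matrix.mulVec_mulVec, Qx, Qx]
  have hz : z = 1 := by
    rw [QuadraticMap.map_smul, smul_eq_mul] at h2
    apply sq_one
    have : (z * z - 1) * Q v = 0 := by linear_combination h2
    rcases mul_eq_zero.mp this with h3 | h3
    · linear_combination h3
    · exact absurd h3 hv
  rw [hz, one_smul] at h1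
  apply Subtype.ext
  apply Units.ext
  exact h1

/-- an alternating involution of maximal rank fixes only singular vectors -/
theorem no_fix_of_alt_max (Q : QuadraticForm F (ι → F)) (m : ℕ)
    (hcard : Fintype.card ι = 2 * m) (y : ↥(Cfsg.isometryGroup F ⇑Q)) (hyy : y * y = 1)
    (hrk : rk Q y = m) (halt : alt Q y) (w : ι → F)
    (hw : ((y : GL ι F) : Matrix ι ι F) *ᵥ w = w) : Q w = 0 := by
  have h2 : (2 : F) = 0 := CharTwo.two_eq_zero
  obtain ⟨N, hN⟩ : ∃ N : Matrix ι ι F, N = ((y : GL ι F) : Matrix ι ι F) - 1 := ⟨_, rfl⟩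
  have hyy' : ((y : GL ι F) : Matrix ι ι F) * ((y : GL ι F) : Matrix ι ι F) = 1 :=
    congrArg (fun z : ↥(Cfsg.isometryGroup F ⇑Q) => ((z : GL ι F) : Matrix ι ι F)) hyy
  have hNN : N * N = 0 := by
    rw [hN, Matrix.sub_mul, Matrix.mul_sub, Matrix.mul_sub, hyy', Matrix.mul_one, Matrix.one_mul,
      Matrix.one_mul]
    have : (1 : Matrix ι ι F) - ((y : GL ι F) : Matrix ι ι F) - (((y : GL ι F) : Matrix ι ι F) - 1)
        = (2 : F) • (1 - ((y : GL ι F) : Matrix ι ι F)) := by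
      rw [two_smul]
      abel
    rw [this, h2, zero_smul]
  have hle : LinearMap.range N.mulVecLin ≤ LinearMap.ker N.mulVecLin := by
    rintro _ ⟨u, rfl⟩
    rw [LinearMap.mem_ker, Matrix.mulVecLin_apply, Matrix.mulVecLin_apply, Matrix.mulVec_mulVec,
      hNN, Matrix.zero_mulVec]
  have hr : Module.finrank F ↥(LinearMap.range N.mulVecLin) = m := by
    have := hrk
    unfold rk Matrix.rank at this
    rw [← hN] at this
    exact this
  have hk : Module.finrank F ↥(LinearMap.ker N.mulVecLin) = m := by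
    have := LinearMap.finrank_range_add_finrank_ker N.mulVecLin
    rw [hr, Module.finrank_pi, hcard] at this
    omega
  have heq : LinearMap.range N.mulVecLin = LinearMap.ker N.mulVecLin :=
    Submodule.eq_of_le_of_finrank_eq hle (by rw [hr, hk])
  have hwk : w ∈ LinearMap.ker N.mulVecLin := by
    rw [LinearMap.mem_ker, Matrix.mulVecLin_apply, hN, Matrix.sub_mulVec, hw, Matrix.one_mulVec,
      sub_self]
  rw [← heq] at hwk
  obtain ⟨u, hu⟩ := hwk
  rw [Matrix.mulVecLin_apply, hN, Matrix.sub_mulVec, Matrix.one_mulVec] at hu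
  rw [← hu, Q_range Q h2 (y : GL ι F) (Qx Q y) u]
  exact halt u

end Cfsg.Agent.Lib.Helper13.NsPoint
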