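import Mathlib
import Cfsg.Agent.Lib.Helper13.NsPoint
import Cfsg.Agent.Lib.Helper15.EvenForms

set_option autoImplicit false
open Cfsg

namespace Cfsg.Agent.Lib.Helper13.NsMinusA

open Matrix
open Cfsg.Agent.Lib.Helper13.OrthCent3 (diff_sq)

/-- the norm-form model: a quadratic form on a field extension of degree `2d` with an
isometry of odd prime order `r ∣ q ^ d + 1` given by a multiplication -/
theorem model {F K : Type*} [Field F] [Fintype F] [CharP F 2] [Field K] [Fintype K] [Algebra F K]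
    (d : ℕ) (hK : Fintype.card K = Fintype.card F ^ (2 * d)) (r : ℕ)
    (hr : r.Prime) (hr2 : r ≠ 2) (hrd : r ∣ Fintype.card F ^ d + 1) :
    ∃ (Q : QuadraticForm F K) (ζ : K),
      (∀ x, (∀ y, QuadraticMap.polar Q x y = 0) → x = 0) ∧ (∀ v, Q (ζ * v) = Q v) ∧
        ζ ^ r = 1 ∧ ζ ≠ 1 := by
  classical
  have : Fact r.Prime := ⟨hr⟩
  obtain ⟨k, _, hk⟩ := FiniteField.card F 2
  have : CharP K 2 := charP_of_injective_algebraMap (algebraMap F K).injective 2
  obtain ⟨N, hN⟩ : ∃ N, N = Fintype.card F ^ d := ⟨_, rfl⟩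
  have hNpos : 0 < N := by rw [hN]; exact Nat.pow_pos Fintype.card_pos
  have hN2 : N = 2 ^ ((k : ℕ) * d) := by rw [hN, hk, pow_mul]
  have hcardK : Fintype.card K = N * N := by
    rw [hK, hN, ← pow_add]
    congr 1
    omega
  have hσσ : ∀ v : K, (v ^ N) ^ N = v := by
    intro v
    rw [← pow_mul, ← hcardK, FiniteField.pow_card]
  have hadd : ∀ u v : K, (u + v) ^ N = u ^ N + v ^ N := by
    intro u v
    rw [hN2]
    exact add_pow_char_pow u v 2 _
  have hfix : ∀ c : F, (algebraMap F K c) ^ N = algebraMap F K c := by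
    intro c
    rw [← map_pow, hN, FiniteField.pow_card_pow]
  have hcu : Nat.card Kˣ = N * N - 1 := by
    rw [Nat.card_units, Nat.card_eq_fintype_card, hcardK]
  have hdiv : r ∣ Nat.card Kˣ := by
    rw [hcu]
    have h1 := diff_sq N hNpos
    rw [pow_two] at h1
    rw [← h1]
    exact Dvd.dvd.mul_right (hN ▸ hrd) _
  obtain ⟨ζ, hζ⟩ := exists_prime_orderOf_dvd_card' (G := Kˣ) r hdiv
  have hζN : ζ ^ (N + 1) = 1 := orderOf_dvd_iff_pow_eq_one.mp (by rw [hζ, hN]; exact hrd)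
  have hζN' : (ζ : K) ^ (N + 1) = 1 := by
    rw [← Units.val_pow_eq_pow_val, hζN, Units.val_one]
  have hζ1 : ζ ≠ 1 := by
    intro h
    rw [h, orderOf_one] at hζ
    exact hr.one_lt.ne hζ
  have hζne : (ζ : K) ^ N ≠ (ζ : K) := by
    intro h
    have h1 : ζ ^ 2 = 1 := by
      apply Units.ext
      rw [Units.val_pow_eq_pow_val, Units.val_one, pow_two]
      nth_rewrite 1 [← h]
      rw [← pow_succ, hζN']
    have h2 := orderOf_dvd_of_pow_eq_one h1
    rw [hζ] at h2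
    exact hr2 ((Nat.prime_dvd_prime_iff_eq hr Nat.prime_two).1 h2)
  have ha : (ζ : K) + (ζ : K) ^ N ≠ 0 := by
    intro h
    apply hζne
    have h2 : (2 : K) = 0 := CharTwo.two_eq_zero
    linear_combination h - (ζ : K) * h2
  obtain ⟨φ, hφ⟩ : ∃ φ : Module.Dual F K, φ ((ζ : K) + (ζ : K) ^ N) ≠ 0 := by
    by_contra hno
    push Not at hno
    exact ha ((Module.forall_dual_apply_eq_zero_iff F _).mp hno)
  obtain ⟨σ, hσ⟩ : ∃ σ : K →ₗ[F] K, ∀ v, σ v = v ^ N :=
    ⟨{ toFun := fun v => v ^ N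
       map_add' := hadd
       map_smul' := fun c v => by
         simp only [Algebra.smul_def, mul_pow, hfix, RingHom.id_apply] }, fun v => rfl⟩
  obtain ⟨B₀, hB⟩ : ∃ B₀ : K →ₗ[F] K →ₗ[F] F, ∀ u v, B₀ u v = φ (u * v ^ N) :=
    ⟨((LinearMap.mul F K).compl₂ σ).compr₂ φ, fun u v => by
      simp [hσ]⟩
  refine ⟨LinearMap.BilinMap.toQuadraticMap B₀, (ζ : K), ?_, ?_, ?_, ?_⟩
  · intro x hx
    by_contra hx0
    have h1 := hx (((ζ : K) * x⁻¹) ^ N)
    rw [LinearMap.BilinMap.polar_toQuadraticMap, hB, hB, hσσ] at h1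
    have e1 : x * ((ζ : K) * x⁻¹) = (ζ : K) := by field_simp
    have e2 : ((ζ : K) * x⁻¹) ^ N * x ^ N = (ζ : K) ^ N := by
      rw [← mul_pow, mul_assoc, inv_mul_cancel₀ hx0, mul_one]
    rw [e1, e2, ← map_add] at h1
    exact hφ h1
  · intro v
    rw [LinearMap.BilinMap.toQuadraticMap_apply, LinearMap.BilinMap.toQuadraticMap_apply, hB, hB,
      mul_pow]
    have : (ζ : K) * v * ((ζ : K) ^ N * v ^ N) = (ζ : K) ^ (N + 1) * (v * v ^ N) := by ring
    rw [this, hζN', one_mul]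
  · rw [← Units.val_pow_eq_pow_val, ← hζ, pow_orderOf_eq_one, Units.val_one]
  · intro h
    exact hζ1 (Units.ext h)

end Cfsg.Agent.Lib.Helper13.NsMinusA
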