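import Mathlib
import Cfsg.Agent.Lib.Helper13.NsPoint
import Cfsg.Agent.Lib.Helper15.EvenForms
import Cfsg.Agent.Lib.Helper13.NsMinusA

set_option autoImplicit false
open Cfsg

namespace Cfsg.Agent.Lib.Helper13.NsMinus

open Matrix
open Cfsg.Agent.Lib.Helper13.NsMinusA (model)

/-- multiplication by an element of prime order acts freely on the non-zero vectors satisfying
an invariant condition -/
theorem free_dvd {K : Type*} [Field K] [Fintype K] [DecidableEq K] (P : K → Prop)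
    [DecidablePred P] (ζ : K) (r : ℕ) (hr : r.Prime) (hζr : ζ ^ r = 1) (hζ1 : ζ ≠ 1)
    (hP : ∀ v, P (ζ * v) ↔ P v) : r ∣ Fintype.card {v : K // v ≠ 0 ∧ P v} := by
  have : Fact r.Prime := ⟨hr⟩
  have hζ0 : ζ ≠ 0 := by
    intro h
    rw [h, zero_pow hr.ne_zero] at hζr
    exact zero_ne_one hζr
  obtain ⟨σ, hσ⟩ : ∃ σ : Equiv.Perm {v : K // v ≠ 0 ∧ P v}, ∀ v, (σ v).1 = ζ * v.1 :=
    ⟨{ toFun := fun v => ⟨ζ * v.1, mul_ne_zero hζ0 v.2.1, (hP v.1).2 v.2.2⟩
       invFun := fun v => ⟨ζ⁻¹ * v.1, mul_ne_zero (inv_ne_zero hζ0) v.2.1, by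
         rw [← hP, ← mul_assoc, mul_inv_cancel₀ hζ0, one_mul]
         exact v.2.2⟩
       left_inv := fun v => Subtype.ext (by
         show ζ⁻¹ * (ζ * v.1) = v.1
         rw [← mul_assoc, inv_mul_cancel₀ hζ0, one_mul])
       right_inv := fun v => Subtype.ext (by
         show ζ * (ζ⁻¹ * v.1) = v.1
         rw [← mul_assoc, mul_inv_cancel₀ hζ0, one_mul]) }, fun v => rfl⟩
  have hpow : ∀ n : ℕ, ∀ v, ((σ ^ n) v).1 = ζ ^ n * v.1 := by
    intro n
    induction n with
    | zero => intro v; rw [pow_zero, pow_zero, one_mul]; rfl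
    | succ n ih =>
      intro v
      rw [pow_succ', Equiv.Perm.mul_apply, hσ, ih, ← mul_assoc, ← pow_succ']
  by_contra hnd
  obtain ⟨v, hv⟩ := Equiv.Perm.exists_fixed_point_of_prime (n := 1) hnd (σ := σ) (by
    rw [pow_one]
    ext v
    rw [hpow, hζr, one_mul]
    rfl)
  have h1 := congrArg Subtype.val hv
  rw [hσ] at h1
  have h2 : (ζ - 1) * v.1 = 0 := by linear_combination h1
  rcases mul_eq_zero.mp h2 with h3 | h3
  · exact hζ1 (by linear_combination h3)
  · exact v.2.1 h3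

theorem plus_contra (q k d r N0 : ℕ) (hq : q = 2 ^ k) (hd : 1 ≤ d) (hr : r.Prime) (hr2 : r ≠ 2)
    (hrd : r ∣ q ^ d + 1) (hN0 : q * N0 = q ^ (d + 1) + (q ^ d - 1) * q ^ d)
    (hN0pos : 1 ≤ N0) (hdiv : r ∣ N0 - 1) : False := by
  have hqpos : 0 < q := by rw [hq]; exact Nat.pow_pos (by norm_num)
  have hr2' : ¬ r ∣ 2 := fun h => hr2 ((Nat.prime_dvd_prime_iff_eq hr Nat.prime_two).1 h)
  have hrq : ¬ r ∣ q := by
    intro h
    rw [hq] at h
    exact hr2' (hr.dvd_of_dvd_pow h)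
  obtain ⟨t, ht⟩ : ∃ t, q ^ d = t + 1 := ⟨q ^ d - 1, by have := Nat.pow_pos (n := d) hqpos; omega⟩
  obtain ⟨n, rfl⟩ : ∃ n, N0 = n + 1 := ⟨N0 - 1, by omega⟩
  rw [Nat.add_sub_cancel] at hdiv
  have hrt : ¬ r ∣ t := by
    intro h
    rw [ht] at hrd
    have : r ∣ (t + 1 + 1) - t := Nat.dvd_sub hrd h
    have e : t + 1 + 1 - t = 2 := by omega
    rw [e] at this
    exact hr2' this
  have h1 : q * n = t * (q + t + 1) := by
    rw [pow_succ, ht, Nat.add_sub_cancel] at hN0
    have e1 : q * (n + 1) = q * n + q := by ring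
    have e2 : (t + 1) * q + t * (t + 1) = t * (q + t + 1) + q := by ring
    omega
  have h2 : r ∣ t * (q + t + 1) := by
    rw [← h1]
    exact Dvd.dvd.mul_left hdiv q
  rcases (Nat.Prime.dvd_mul hr).1 h2 with h3 | h3
  · exact hrt h3
  · obtain ⟨c, rfl⟩ : ∃ c, d = c + 1 := ⟨d - 1, by omega⟩
    have e3 : q + t + 1 = q * (1 + q ^ c) := by
      have e5 : q + t + 1 = q + (t + 1) := by ring
      rw [e5, ← ht, pow_succ]
      ring
    rw [e3] at h3
    rcases (Nat.Prime.dvd_mul hr).1 h3 with h4 | h4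
    · exact hrq h4
    · have h5 : r ∣ q * (1 + q ^ c) - (q ^ (c + 1) + 1) := Nat.dvd_sub (Dvd.dvd.mul_left h4 q) hrd
      have e4 : q * (1 + q ^ c) - (q ^ (c + 1) + 1) = q - 1 := by
        have : q * (1 + q ^ c) = q + q ^ (c + 1) := by ring
        omega
      rw [e4] at h5
      have h6 : q - 1 ∣ q ^ (c + 1) - 1 := by
        have := Nat.sub_dvd_pow_sub_pow q 1 (c + 1)
        rwa [one_pow] at this
      have h7 := h5.trans h6
      rw [ht, Nat.add_sub_cancel] at h7
      exact hrt h7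

/-- an isometry of the standard minus-type form of odd prime order `r ∣ q ^ d + 1` without
non-zero fixed vectors -/
theorem minus_elem (F : Type*) [Field F] [Fintype F] [CharP F 2] (d : ℕ) (hd : 1 ≤ d) (a b : F)
    (hab : ∀ z₁ z₂ : F, z₁ ^ 2 + a * z₁ * z₂ + b * z₂ ^ 2 = 0 → z₁ = 0 ∧ z₂ = 0) (r : ℕ)
    (hr : r.Prime) (hr2 : r ≠ 2) (hrd : r ∣ Fintype.card F ^ d + 1) :
    ∃ X : GL ((Fin (d - 1) ⊕ Fin (d - 1)) ⊕ Fin 2) F,
      (∀ v, Cfsg.quadFormMinus (d - 1) F a b
        ((X : Matrix ((Fin (d - 1) ⊕ Fin (d - 1)) ⊕ Fin 2) ((Fin (d - 1) ⊕ Fin (d - 1)) ⊕ Fin 2) F) *ᵥ v) =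
          Cfsg.quadFormMinus (d - 1) F a b v) ∧
      X ^ r = 1 ∧
      (∀ w, (X : Matrix ((Fin (d - 1) ⊕ Fin (d - 1)) ⊕ Fin 2) ((Fin (d - 1) ⊕ Fin (d - 1)) ⊕ Fin 2) F) *ᵥ w = w →
        w = 0) := by
  classical
  have : NeZero (2 * d) := ⟨by omega⟩
  have : Fintype (FiniteField.Extension F 2 (2 * d)) := Fintype.ofFinite _
  have hK : Fintype.card (FiniteField.Extension F 2 (2 * d)) = Fintype.card F ^ (2 * d) := by
    rw [← Nat.card_eq_fintype_card, FiniteField.natCard_extension, Nat.card_eq_fintype_card]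
  obtain ⟨Q, ζ, hnd, hiso, hζr, hζ1⟩ :=
    model (K := FiniteField.Extension F 2 (2 * d)) d hK r hr hr2 hrd
  have hfin : Module.finrank F (FiniteField.Extension F 2 (2 * d)) = 2 * d :=
    FiniteField.finrank_extension F 2 (2 * d)
  rcases Cfsg.Agent.Lib.Helper15.EvenForms.classify hd hfin Q hnd a b hab with ⟨g, hg⟩ | ⟨g, hg⟩
  · exfalso
    have h1 := Cfsg.Agent.Lib.Helper15.EvenForms.card_zero_plus (fun v => Q v) g hg
    have h2 := free_dvd (fun v : FiniteField.Extension F 2 (2 * d) => Q v = 0) ζ r hr hζr hζ1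
      (fun v => by rw [hiso])
    have h3 : Nat.card {v : FiniteField.Extension F 2 (2 * d) // Q v = 0} =
        Fintype.card {v : FiniteField.Extension F 2 (2 * d) // v ≠ 0 ∧ Q v = 0} + 1 := by
      rw [Nat.card_eq_fintype_card, Fintype.card_subtype, Fintype.card_subtype]
      have e : (Finset.univ.filter (fun v : FiniteField.Extension F 2 (2 * d) => v ≠ 0 ∧ Q v = 0)) =
          (Finset.univ.filter (fun v : FiniteField.Extension F 2 (2 * d) => Q v = 0)).erase 0 := by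
        ext v
        simp
      rw [e, Finset.card_erase_of_mem (by simp)]
      have : 0 < (Finset.univ.filter
          (fun v : FiniteField.Extension F 2 (2 * d) => Q v = 0)).card :=
        Finset.card_pos.mpr ⟨0, by simp⟩
      omega
    obtain ⟨k, _, hk⟩ := FiniteField.card F 2
    exact plus_contra (Fintype.card F) k d r _ hk hd hr hr2 hrd h1 (by rw [h3]; omega) (by
      rw [h3, Nat.add_sub_cancel]
      exact h2)
  · obtain ⟨X₀, hX₀⟩ : ∃ X₀ : Matrix ((Fin (d - 1) ⊕ Fin (d - 1)) ⊕ Fin 2)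
        ((Fin (d - 1) ⊕ Fin (d - 1)) ⊕ Fin 2) F, ∀ w, X₀ *ᵥ w = g (ζ * g.symm w) := by
      refine ⟨LinearMap.toMatrix' ((g : FiniteField.Extension F 2 (2 * d) →ₗ[F] _) ∘ₗ
        LinearMap.mulLeft F ζ ∘ₗ (g.symm : _ →ₗ[F] FiniteField.Extension F 2 (2 * d))), fun w => ?_⟩
      rw [← Matrix.toLin'_apply, Matrix.toLin'_toMatrix']
      rfl
    have hXn : ∀ n w, (X₀ ^ n) *ᵥ w = g (ζ ^ n * g.symm w) := by
      intro n
      induction n with
      | zero =>
        intro w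
        rw [pow_zero, pow_zero, Matrix.one_mulVec, one_mul, g.apply_symm_apply]
      | succ n ih =>
        intro w
        rw [pow_succ, ← Matrix.mulVec_mulVec, hX₀, ih, g.symm_apply_apply, ← mul_assoc, ← pow_succ]
    have hXr : X₀ ^ r = 1 := by
      apply Matrix.toLin'.injective
      apply LinearMap.ext
      intro w
      rw [Matrix.toLin'_apply, hXn, hζr, one_mul, g.apply_symm_apply, Matrix.toLin'_one]
      rfl
    have hu : IsUnit X₀ := IsUnit.of_pow_eq_one hXr hr.ne_zero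
    refine ⟨hu.unit, ?_, ?_, ?_⟩
    · intro v
      rw [IsUnit.unit_spec, hX₀, ← hg, hiso, hg, g.apply_symm_apply]
    · apply Units.ext
      rw [Units.val_pow_eq_pow_val, IsUnit.unit_spec, hXr, Units.val_one]
    · intro w hw
      rw [IsUnit.unit_spec, hX₀] at hw
      have h1 : ζ * g.symm w = g.symm w := by
        have h0 := congrArg g.symm hw
        rwa [g.symm_apply_apply] at h0
      have h2 : (ζ - 1) * g.symm w = 0 := by linear_combination h1
      rcases mul_eq_zero.mp h2 with h3 | h3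
      · exact absurd (by linear_combination h3) hζ1
      · have := congrArg g h3
        rw [g.apply_symm_apply, map_zero] at this
        exact this

/-- the rank of an alternating involution is bounded by the dimension of the totally singular
subspaces -/
theorem rk_le_of_alt {ι : Type} [Fintype ι] [DecidableEq ι] {F : Type*} [Field F] [CharP F 2]
    (Q : QuadraticForm F (ι → F)) (y : ↥(Cfsg.isometryGroup F ⇑Q))
    (halt : Cfsg.Agent.Lib.Helper13.OmegaCount.alt Q y) (k : ℕ)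
    (hts : ∀ U : Submodule F (ι → F), (∀ x ∈ U, Q x = 0) → Module.finrank F ↥U ≤ k) :
    Cfsg.Agent.Lib.Helper13.OmegaCount.rk Q y ≤ k := by
  have h2 : (2 : F) = 0 := CharTwo.two_eq_zero
  unfold Cfsg.Agent.Lib.Helper13.OmegaCount.rk Matrix.rank
  apply hts
  rintro _ ⟨u, rfl⟩
  rw [Matrix.mulVecLin_apply, Matrix.sub_mulVec, Matrix.one_mulVec,
    Cfsg.Agent.Lib.Helper13.OrthInv.Q_range Q h2 (y : GL ι F)
      (Cfsg.Agent.Lib.Helper13.OmegaCount.Qx Q y) u]
  exact halt u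

end Cfsg.Agent.Lib.Helper13.NsMinus
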