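import Mathlib
import Cfsg.Agent.Lib.Helper13.NsMinus
import Cfsg.Agent.Lib.Helper13.InvCount

set_option autoImplicit false
open Cfsg

namespace Cfsg.Agent.Lib.Helper13.SpO

open Matrix
open Cfsg.Agent.S5645 (IsAlt)
open Cfsg.Agent.S5631 (gl_ext)
open Cfsg.Agent.Lib.Helper28.Herm (Isom)
open Cfsg.Agent.Lib.Helper13.OrthInv (pf pf_isAlt isom_of_Q Q_range dataA' dataB' gl_rank_conj)
open Cfsg.Agent.Lib.Helper13.AltInv (conj_A conj_B)
open Cfsg.Agent.Lib.Helper13.InvCount (type_conj)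

variable {ι : Type} [Fintype ι] [DecidableEq ι] {F : Type*} [Field F]
variable {ι₁ : Type} [Fintype ι₁] [DecidableEq ι₁]

/-- involutory isometries of an alternating form in characteristic two with the same rank and
type are conjugate -/
theorem conj_invol [Finite F] {f : (ι → F) → (ι → F) → F} (hf : IsAlt f) (h2 : (2 : F) = 0)
    (a b : GL ι F) (ha : Isom f a) (hb : Isom f b) (haa : a * a = 1) (hbb : b * b = 1)
    (hrank : ((a : Matrix ι ι F) - 1).rank = ((b : Matrix ι ι F) - 1).rank)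
    (htype : (∀ y, f ((a : Matrix ι ι F) *ᵥ y - y) y = 0) ↔
      (∀ y, f ((b : Matrix ι ι F) *ᵥ y - y) y = 0)) :
    ∃ g : GL ι F, Isom f g ∧ g * a = b * g := by
  by_cases hA : ∀ y, f ((a : Matrix ι ι F) *ᵥ y - y) y = 0
  · obtain ⟨r, u, v, _, hli, hti, hform, hrk⟩ := dataA' hf h2 a ha haa hA
    obtain ⟨r', u', v', _, hli', hti', hform', hrk'⟩ := dataA' hf h2 b hb hbb (htype.mp hA)
    have hrr : r = r' := by
      rw [hrk, hrk'] at hrank
      omega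
    subst hrr
    exact conj_A hf a b u v u' v' hli hli' hti hti' hform hform'
  · have hB : ¬ ∀ y, f ((b : Matrix ι ι F) *ᵥ y - y) y = 0 := fun h => hA (htype.mpr h)
    obtain ⟨k, u, _, hli, hti, hform, hrk⟩ := dataB' hf h2 a ha haa (not_forall.mp hA)
    obtain ⟨k', u', _, hli', hti', hform', hrk'⟩ := dataB' hf h2 b hb hbb (not_forall.mp hB)
    have hkk : k = k' := by
      rw [hrk, hrk'] at hrank
      exact hrank
    subst hkk
    exact conj_B hf a b u u' hli hli' hti hti' hform hform'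

/-! ### transport along a linear equivalence -/

/-- transport of an invertible matrix along a linear equivalence -/
noncomputable def tr (g : (ι → F) ≃ₗ[F] (ι₁ → F)) (M : GL ι₁ F) : GL ι F :=
  ⟨LinearMap.toMatrix' ((g.symm : (ι₁ → F) →ₗ[F] (ι → F)) ∘ₗ
      Matrix.toLin' (M : Matrix ι₁ ι₁ F) ∘ₗ (g : (ι → F) →ₗ[F] (ι₁ → F))),
    LinearMap.toMatrix' ((g.symm : (ι₁ → F) →ₗ[F] (ι → F)) ∘ₗ
      Matrix.toLin' ((M⁻¹ : GL ι₁ F) : Matrix ι₁ ι₁ F) ∘ₗ (g : (ι → F) →ₗ[F] (ι₁ → F))),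
    by
      rw [← LinearMap.toMatrix'_comp, ← LinearMap.toMatrix'_id]
      congr 1
      apply LinearMap.ext
      intro v
      simp [Matrix.mulVec_mulVec],
    by
      rw [← LinearMap.toMatrix'_comp, ← LinearMap.toMatrix'_id]
      congr 1
      apply LinearMap.ext
      intro v
      simp [Matrix.mulVec_mulVec]⟩

theorem tr_apply (g : (ι → F) ≃ₗ[F] (ι₁ → F)) (M : GL ι₁ F) (v : ι → F) :
    (tr g M : Matrix ι ι F) *ᵥ v = g.symm ((M : Matrix ι₁ ι₁ F) *ᵥ g v) := by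
  rw [← Matrix.toLin'_apply]
  show Matrix.toLin' (LinearMap.toMatrix' _) v = _
  rw [Matrix.toLin'_toMatrix']
  rfl

theorem tr_mul (g : (ι → F) ≃ₗ[F] (ι₁ → F)) (M N : GL ι₁ F) :
    tr g (M * N) = tr g M * tr g N := by
  apply gl_ext
  intro v
  rw [Units.val_mul, ← Matrix.mulVec_mulVec, tr_apply, tr_apply, tr_apply, Units.val_mul,
    ← Matrix.mulVec_mulVec, g.apply_symm_apply]

theorem tr_one (g : (ι → F) ≃ₗ[F] (ι₁ → F)) : tr g (1 : GL ι₁ F) = 1 := by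
  apply gl_ext
  intro v
  rw [tr_apply, Units.val_one, Matrix.one_mulVec, g.symm_apply_apply, Units.val_one,
    Matrix.one_mulVec]

theorem tr_pow (g : (ι → F) ≃ₗ[F] (ι₁ → F)) (M : GL ι₁ F) (n : ℕ) :
    tr g (M ^ n) = tr g M ^ n := by
  induction n with
  | zero => rw [pow_zero, pow_zero, tr_one]
  | succ n ih => rw [pow_succ, pow_succ, tr_mul, ih]

theorem tr_tr (g : (ι → F) ≃ₗ[F] (ι₁ → F)) (M : GL ι₁ F) : tr g.symm (tr g M) = M := by
  apply gl_ext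
  intro v
  rw [tr_apply, tr_apply, LinearEquiv.symm_symm, g.apply_symm_apply, g.apply_symm_apply]

theorem tr_tr' (g : (ι → F) ≃ₗ[F] (ι₁ → F)) (y : GL ι F) : tr g (tr g.symm y) = y := by
  apply gl_ext
  intro v
  rw [tr_apply, tr_apply, LinearEquiv.symm_symm, g.symm_apply_apply, g.symm_apply_apply]

theorem tr_isom (Q : QuadraticForm F (ι → F)) (Q₁ : QuadraticForm F (ι₁ → F))
    (g : (ι → F) ≃ₗ[F] (ι₁ → F)) (hg : ∀ v, Q v = Q₁ (g v)) (M : GL ι₁ F)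
    (hM : ∀ w, Q₁ ((M : Matrix ι₁ ι₁ F) *ᵥ w) = Q₁ w) (v : ι → F) :
    Q ((tr g M : Matrix ι ι F) *ᵥ v) = Q v := by
  rw [tr_apply, hg, g.apply_symm_apply, hM, ← hg]

theorem tr_isom' (Q : QuadraticForm F (ι → F)) (Q₁ : QuadraticForm F (ι₁ → F))
    (g : (ι → F) ≃ₗ[F] (ι₁ → F)) (hg : ∀ v, Q v = Q₁ (g v)) (y : GL ι F)
    (hy : ∀ v, Q ((y : Matrix ι ι F) *ᵥ v) = Q v) (w : ι₁ → F) :
    Q₁ ((tr g.symm y : Matrix ι₁ ι₁ F) *ᵥ w) = Q₁ w := by
  rw [tr_apply, LinearEquiv.symm_symm, ← hg, hy, hg, g.apply_symm_apply]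

theorem tr_fix (g : (ι → F) ≃ₗ[F] (ι₁ → F)) (M : GL ι₁ F)
    (hM : ∀ w, (M : Matrix ι₁ ι₁ F) *ᵥ w = w → w = 0) (v : ι → F)
    (hv : (tr g M : Matrix ι ι F) *ᵥ v = v) : v = 0 := by
  rw [tr_apply] at hv
  have h1 : (M : Matrix ι₁ ι₁ F) *ᵥ g v = g v := by
    have h0 := congrArg g hv
    rwa [g.apply_symm_apply] at h0
  have h2 := hM _ h1
  have h3 := congrArg g.symm h2
  rwa [g.symm_apply_apply, map_zero] at h3

theorem tr_rank (g : (ι → F) ≃ₗ[F] (ι₁ → F)) (M : GL ι₁ F) :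
    ((tr g M : Matrix ι ι F) - 1).rank = ((M : Matrix ι₁ ι₁ F) - 1).rank := by
  unfold Matrix.rank
  have e : ((tr g M : Matrix ι ι F) - 1).mulVecLin =
      (g.symm : (ι₁ → F) →ₗ[F] (ι → F)) ∘ₗ ((M : Matrix ι₁ ι₁ F) - 1).mulVecLin ∘ₗ
        (g : (ι → F) →ₗ[F] (ι₁ → F)) := by
    apply LinearMap.ext
    intro v
    rw [Matrix.mulVecLin_apply, Matrix.sub_mulVec, Matrix.one_mulVec, tr_apply]
    show _ = g.symm (((M : Matrix ι₁ ι₁ F) - 1) *ᵥ g v)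
    rw [Matrix.sub_mulVec, Matrix.one_mulVec, map_sub, g.symm_apply_apply]
  rw [e, LinearMap.range_comp, LinearMap.range_comp, LinearEquiv.range, Submodule.map_top]
  exact LinearEquiv.finrank_map_eq g.symm _

theorem pf_tr (Q : QuadraticForm F (ι → F)) (Q₁ : QuadraticForm F (ι₁ → F))
    (g : (ι → F) ≃ₗ[F] (ι₁ → F)) (hg : ∀ v, Q v = Q₁ (g v)) (u v : ι → F) :
    pf Q u v = pf Q₁ (g u) (g v) := by
  show QuadraticMap.polar Q u v = QuadraticMap.polar Q₁ (g u) (g v)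
  unfold QuadraticMap.polar
  rw [hg, hg, hg, map_add]

theorem tr_alt (Q : QuadraticForm F (ι → F)) (Q₁ : QuadraticForm F (ι₁ → F))
    (g : (ι → F) ≃ₗ[F] (ι₁ → F)) (hg : ∀ v, Q v = Q₁ (g v)) (M : GL ι₁ F) :
    (∀ y, pf Q ((tr g M : Matrix ι ι F) *ᵥ y - y) y = 0) ↔
      (∀ w, pf Q₁ ((M : Matrix ι₁ ι₁ F) *ᵥ w - w) w = 0) := by
  have key : ∀ y, pf Q ((tr g M : Matrix ι ι F) *ᵥ y - y) y =
      pf Q₁ ((M : Matrix ι₁ ι₁ F) *ᵥ g y - g y) (g y) := by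
    intro y
    rw [pf_tr Q Q₁ g hg, map_sub, tr_apply, g.apply_symm_apply]
  constructor
  · intro h w
    have := h (g.symm w)
    rw [key, g.apply_symm_apply] at this
    exact this
  · intro h y
    rw [key]
    exact h (g y)

/-- the isometry groups of equivalent forms have the same order -/
theorem card_isom_tr (Q : QuadraticForm F (ι → F)) (Q₁ : QuadraticForm F (ι₁ → F))
    (g : (ι → F) ≃ₗ[F] (ι₁ → F)) (hg : ∀ v, Q v = Q₁ (g v)) :
    Nat.card {y : GL ι F // ∀ v, Q ((y : Matrix ι ι F) *ᵥ v) = Q v} =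
      Nat.card {M : GL ι₁ F // ∀ w, Q₁ ((M : Matrix ι₁ ι₁ F) *ᵥ w) = Q₁ w} := by
  apply Nat.card_congr
  exact
    { toFun := fun y => ⟨tr g.symm y.1, tr_isom' Q Q₁ g hg y.1 y.2⟩
      invFun := fun M => ⟨tr g M.1, tr_isom Q Q₁ g hg M.1 M.2⟩
      left_inv := fun y => Subtype.ext (tr_tr' g y.1)
      right_inv := fun M => Subtype.ext (tr_tr g M.1) }

end Cfsg.Agent.Lib.Helper13.SpO
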