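import Mathlib
import Cfsg.Agent.Lib.Helper13.SpO
import Cfsg.Agent.Lib.Helper13.NsPoint

set_option autoImplicit false
open Cfsg

namespace Cfsg.Agent.Lib.Helper13.SpO2

open Matrix
open Cfsg.Agent.S5631 (gl_ext)
open Cfsg.Agent.Lib.Helper28.Herm (Isom)
open Cfsg.Agent.Lib.Helper13.SpO
open Cfsg.Agent.Lib.Helper15.StdForms (plusQF minusQF polar_plus polar_minus minusQF_apply)
open Cfsg.Agent.Lib.Helper13.NsPoint (exists_ff block_pow)
open Cfsg.Agent.Lib.Helper13.NsMinus (minus_elem)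

variable {F : Type*} [Field F]

theorem J_mulVec' (d : ℕ) (v : Fin d ⊕ Fin d → F) :
    Matrix.mulVec (Matrix.J (Fin d) F) v =
      Sum.elim (fun i => - v (Sum.inr i)) (fun i => v (Sum.inl i)) := by
  funext k
  rcases k with i | i <;>
    simp [Matrix.J, Matrix.mulVec, dotProduct, Fintype.sum_sum_type, Matrix.one_apply]

/-- in characteristic two the standard alternating form is the polar form of the hyperbolic
quadratic form -/
theorem symp_polar (h2 : (2 : F) = 0) (d : ℕ) (u v : Fin d ⊕ Fin d → F) :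
    Cfsg.sympForm d F u v = QuadraticMap.polar (Cfsg.quadFormPlus d F) u v := by
  rw [polar_plus]
  unfold Cfsg.sympForm
  rw [J_mulVec', dotProduct, Fintype.sum_sum_type, ← Finset.sum_add_distrib]
  apply Finset.sum_congr rfl
  intro i _
  simp only [Sum.elim_inl, Sum.elim_inr]
  linear_combination (- u (Sum.inl i) * v (Sum.inr i)) * h2

/-- an explicit identification of the two index sets matching the polar forms -/
noncomputable def hmap (k : ℕ) :
    (Fin (k + 1) ⊕ Fin (k + 1) → F) ≃ₗ[F] ((Fin k ⊕ Fin k) ⊕ Fin 2 → F) where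
  toFun u := Sum.elim (Sum.elim (fun i => u (Sum.inl i.castSucc)) (fun i => u (Sum.inr i.castSucc)))
    ![u (Sum.inl (Fin.last k)), u (Sum.inr (Fin.last k))]
  invFun w := Sum.elim (Fin.lastCases (w (Sum.inr 0)) (fun i => w (Sum.inl (Sum.inl i))))
    (Fin.lastCases (w (Sum.inr 1)) (fun i => w (Sum.inl (Sum.inr i))))
  map_add' u v := by
    funext j
    rcases j with (i | i) | i
    · rfl
    · rfl
    · fin_cases i
      · rfl
      · rfl
  map_smul' c u := by
    funext j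
    rcases j with (i | i) | i
    · rfl
    · rfl
    · fin_cases i
      · rfl
      · rfl
  left_inv u := by
    funext j
    rcases j with i | i
    · refine Fin.lastCases ?_ (fun i' => ?_) i
      · simp
      · simp
    · refine Fin.lastCases ?_ (fun i' => ?_) i
      · simp
      · simp
  right_inv w := by
    funext j
    rcases j with (i | i) | i
    · simp
    · simp
    · fin_cases i
      · simp
      · simp

theorem hmap_polar (h2 : (2 : F) = 0) (k : ℕ) (b : F) (u v : Fin (k + 1) ⊕ Fin (k + 1) → F) :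
    QuadraticMap.polar (Cfsg.quadFormMinus k F 1 b) (hmap k u) (hmap k v) =
      Cfsg.sympForm (k + 1) F u v := by
  rw [polar_minus, symp_polar h2, polar_plus, Fin.sum_univ_castSucc]
  simp only [hmap, LinearEquiv.coe_mk, LinearMap.coe_mk, AddHom.coe_mk, Sum.elim_inl, Sum.elim_inr,
    Matrix.cons_val_zero, Matrix.cons_val_one]
  linear_combination (u (Sum.inl (Fin.last k)) * v (Sum.inl (Fin.last k)) +
    b * u (Sum.inr (Fin.last k)) * v (Sum.inr (Fin.last k))) * h2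

/-- a fixed-point-free block-diagonal isometry of the hyperbolic quadratic form -/
theorem block_ff {d : ℕ} (r : ℕ) (hr : 0 < r)
    (g : Matrix (Fin d) (Fin d) F) (hg : g ^ r = 1) (hfix : ∀ w, g *ᵥ w = w → w = 0) :
    ∃ X : GL (Fin d ⊕ Fin d) F,
      (∀ v : Fin d ⊕ Fin d → F, Cfsg.quadFormPlus d F
          ((X : Matrix (Fin d ⊕ Fin d) (Fin d ⊕ Fin d) F) *ᵥ v) = Cfsg.quadFormPlus d F v) ∧
      X ^ r = 1 ∧
      (∀ w : Fin d ⊕ Fin d → F, (X : Matrix (Fin d ⊕ Fin d) (Fin d ⊕ Fin d) F) *ᵥ w = w →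
        w = 0) := by
  obtain ⟨n, rfl⟩ : ∃ n, r = n + 1 := ⟨r - 1, by omega⟩
  obtain ⟨h, hh⟩ : ∃ h : Matrix (Fin d) (Fin d) F, h = (g ^ n)ᵀ := ⟨_, rfl⟩
  have hhg : hᵀ * g = 1 := by
    rw [hh, Matrix.transpose_transpose, ← pow_succ, hg]
  have hhr : h ^ (n + 1) = 1 := by
    rw [hh, ← Matrix.transpose_pow, ← pow_mul, mul_comm, pow_mul, hg, one_pow,
      Matrix.transpose_one]
  have hXr : (Matrix.fromBlocks g 0 0 h) ^ (n + 1) = 1 := by
    rw [block_pow, hg, hhr, Matrix.fromBlocks_one]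
  have hu : IsUnit (Matrix.fromBlocks g 0 0 h) := IsUnit.of_pow_eq_one hXr (by omega)
  have hmv : ∀ v : Fin d ⊕ Fin d → F, (Matrix.fromBlocks g 0 0 h) *ᵥ v =
      Sum.elim (g *ᵥ (v ∘ Sum.inl)) (h *ᵥ (v ∘ Sum.inr)) := by
    intro v
    rw [Matrix.fromBlocks_mulVec, Matrix.zero_mulVec, Matrix.zero_mulVec, add_zero, zero_add]
  -- the transpose of g is fixed-point-free as well
  have hinj : Function.Injective (g - 1).mulVec := by
    intro a b hab
    have h1 : g *ᵥ (a - b) = a - b := by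
      have h0 : (g - 1) *ᵥ (a - b) = 0 := by
        rw [Matrix.mulVec_sub]
        exact sub_eq_zero.mpr hab
      rw [Matrix.sub_mulVec, Matrix.one_mulVec] at h0
      exact sub_eq_zero.mp h0
    exact sub_eq_zero.mp (hfix _ h1)
  have hunit : IsUnit (g - 1) := Matrix.mulVec_injective_iff_isUnit.mp hinj
  have hunitT : IsUnit (g - 1)ᵀ := (Matrix.isUnit_transpose (g - 1)).mpr hunit
  have hinjT : Function.Injective (g - 1)ᵀ.mulVec := Matrix.mulVec_injective_iff_isUnit.mpr hunitT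
  have hfixh : ∀ w, h *ᵥ w = w → w = 0 := by
    intro w hw
    have h1 : gᵀ *ᵥ w = w := by
      have h0 : gᵀ *ᵥ (h *ᵥ w) = w := by
        rw [Matrix.mulVec_mulVec, hh, ← Matrix.transpose_mul, ← pow_succ, hg,
          Matrix.transpose_one, Matrix.one_mulVec]
      rw [hw] at h0
      exact h0
    apply hinjT
    show (g - 1)ᵀ *ᵥ w = (g - 1)ᵀ *ᵥ 0
    rw [Matrix.mulVec_zero, Matrix.transpose_sub, Matrix.transpose_one, Matrix.sub_mulVec,
      Matrix.one_mulVec, h1, sub_self]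
  refine ⟨hu.unit, ?_, ?_, ?_⟩
  · intro v
    rw [IsUnit.unit_spec, hmv]
    show (g *ᵥ (v ∘ Sum.inl)) ⬝ᵥ (h *ᵥ (v ∘ Sum.inr)) = (v ∘ Sum.inl) ⬝ᵥ (v ∘ Sum.inr)
    rw [Matrix.dotProduct_mulVec, ← Matrix.mulVec_transpose, Matrix.mulVec_mulVec, hhg,
      Matrix.one_mulVec]
  · apply Units.ext
    rw [Units.val_pow_eq_pow_val, IsUnit.unit_spec, hXr, Units.val_one]
  · intro w hw
    rw [IsUnit.unit_spec, hmv] at hw
    have h1 : g *ᵥ (w ∘ Sum.inl) = w ∘ Sum.inl := by
      ext i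
      exact congrFun hw (Sum.inl i)
    have h2 : h *ᵥ (w ∘ Sum.inr) = w ∘ Sum.inr := by
      ext i
      exact congrFun hw (Sum.inr i)
    have h3 := hfix _ h1
    have h4 := hfixh _ h2
    funext j
    rcases j with i | i
    · exact congrFun h3 i
    · exact congrFun h4 i

/-- an anisotropic binary form with middle coefficient one -/
theorem exists_aniso1 (F : Type*) [Field F] [Finite F] : ∃ b : F, ∀ z₁ z₂ : F,
    z₁ ^ 2 + 1 * z₁ * z₂ + b * z₂ ^ 2 = 0 → z₁ = 0 ∧ z₂ = 0 := by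
  have hni : ¬ Function.Injective (fun t : F => t ^ 2 + t) := by
    intro h
    have h1 := @h 0 (-1) (by simp)
    exact one_ne_zero (by linear_combination h1)
  have hns : ¬ Function.Surjective (fun t : F => t ^ 2 + t) :=
    fun h => hni (Finite.injective_iff_surjective.2 h)
  simp only [Function.Surjective, not_forall, not_exists] at hns
  obtain ⟨c, hc⟩ := hns
  exact ⟨-c, fun z₁ z₂ h => Cfsg.Agent.S2617.anis (-c)
    (fun t ht => hc t (by linear_combination ht)) z₁ z₂ h⟩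

/-- fixed-point-free symplectic elements of odd prime order -/
theorem sp_elem (F : Type*) [Field F] [Fintype F] [CharP F 2] (d : ℕ) (hd : 1 ≤ d) (r : ℕ)
    (hr : r.Prime) (hr2 : r ≠ 2)
    (hrd : r ∣ Fintype.card F ^ d - 1 ∨ r ∣ Fintype.card F ^ d + 1) :
    ∃ X : GL (Fin d ⊕ Fin d) F, Isom (Cfsg.sympForm d F) X ∧ X ^ r = 1 ∧
      (∀ w : Fin d ⊕ Fin d → F, (X : Matrix (Fin d ⊕ Fin d) (Fin d ⊕ Fin d) F) *ᵥ w = w →
        w = 0) := by
  have h2 : (2 : F) = 0 := CharTwo.two_eq_zero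
  rcases hrd with hrd | hrd
  · have : Fact (Nat.Prime 2) := ⟨Nat.prime_two⟩
    obtain ⟨g, hg, hfix⟩ := exists_ff F 2 d (by omega) r hr hrd
    obtain ⟨X, hX, hXr, hXf⟩ := block_ff r hr.pos g hg hfix
    refine ⟨X, ?_, hXr, hXf⟩
    intro u v
    rw [symp_polar h2, symp_polar h2]
    unfold QuadraticMap.polar
    rw [← Matrix.mulVec_add, hX, hX, hX]
  · obtain ⟨k, rfl⟩ : ∃ k, d = k + 1 := ⟨d - 1, by omega⟩
    obtain ⟨b, hb⟩ := exists_aniso1 F
    obtain ⟨X, hX, hXr, hXf⟩ : ∃ X : GL ((Fin k ⊕ Fin k) ⊕ Fin 2) F,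
        (∀ v, Cfsg.quadFormMinus k F 1 b
          ((X : Matrix ((Fin k ⊕ Fin k) ⊕ Fin 2) ((Fin k ⊕ Fin k) ⊕ Fin 2) F) *ᵥ v) =
            Cfsg.quadFormMinus k F 1 b v) ∧ X ^ r = 1 ∧
        (∀ w, (X : Matrix ((Fin k ⊕ Fin k) ⊕ Fin 2) ((Fin k ⊕ Fin k) ⊕ Fin 2) F) *ᵥ w = w →
          w = 0) := minus_elem F (k + 1) (by omega) 1 b hb r hr hr2 hrd
    refine ⟨tr (hmap k) X, ?_, ?_, ?_⟩
    · intro u v
      rw [← hmap_polar h2 k b, ← hmap_polar h2 k b, tr_apply, tr_apply,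
        LinearEquiv.apply_symm_apply, LinearEquiv.apply_symm_apply]
      unfold QuadraticMap.polar
      rw [← Matrix.mulVec_add, hX, hX, hX]
    · rw [← tr_pow, hXr, tr_one]
    · exact tr_fix (hmap k) X hXf

/-- a fixed-point-free isometry of prime order acts semiregularly on the vectors of norm one -/
theorem free_N1 {ι : Type} [Fintype ι] [DecidableEq ι] [Fintype F] (Q : (ι → F) → F)
    (hQ0 : Q 0 = 0) (y : GL ι F) (hy : ∀ v, Q ((y : Matrix ι ι F) *ᵥ v) = Q v) (r : ℕ)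
    (hr : r.Prime) (hyr : y ^ r = 1)
    (hfix : ∀ w, (y : Matrix ι ι F) *ᵥ w = w → w = 0) :
    r ∣ Nat.card {v : ι → F // Q v = 1} := by
  classical
  have : Fact r.Prime := ⟨hr⟩
  have hyi : ∀ v, Q (((y⁻¹ : GL ι F) : Matrix ι ι F) *ᵥ v) = Q v := by
    intro v
    have h := hy (((y⁻¹ : GL ι F) : Matrix ι ι F) *ᵥ v)
    rw [Matrix.mulVec_mulVec, ← Units.val_mul, mul_inv_cancel, Units.val_one,
      Matrix.one_mulVec] at h
    exact h.symm
  obtain ⟨σ, hσ⟩ : ∃ σ : Equiv.Perm {v : ι → F // Q v = 1},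
      ∀ v, (σ v).1 = (y : Matrix ι ι F) *ᵥ v.1 :=
    ⟨{ toFun := fun v => ⟨(y : Matrix ι ι F) *ᵥ v.1, by rw [hy]; exact v.2⟩
       invFun := fun v => ⟨((y⁻¹ : GL ι F) : Matrix ι ι F) *ᵥ v.1, by rw [hyi]; exact v.2⟩
       left_inv := fun v => by
        apply Subtype.ext
        show ((y⁻¹ : GL ι F) : Matrix ι ι F) *ᵥ ((y : Matrix ι ι F) *ᵥ v.1) = v.1
        rw [Matrix.mulVec_mulVec, ← Units.val_mul, inv_mul_cancel, Units.val_one,
          Matrix.one_mulVec]
       right_inv := fun v => by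
        apply Subtype.ext
        show (y : Matrix ι ι F) *ᵥ (((y⁻¹ : GL ι F) : Matrix ι ι F) *ᵥ v.1) = v.1
        rw [Matrix.mulVec_mulVec, ← Units.val_mul, mul_inv_cancel, Units.val_one,
          Matrix.one_mulVec] }, fun v => rfl⟩
  have hpow : ∀ (n : ℕ) (v : {v : ι → F // Q v = 1}),
      ((σ ^ n) v).1 = ((y ^ n : GL ι F) : Matrix ι ι F) *ᵥ v.1 := by
    intro n
    induction n with
    | zero => intro v; simp
    | succ n ih =>
      intro v
      rw [pow_succ', Equiv.Perm.mul_apply, hσ, ih, Matrix.mulVec_mulVec, ← Units.val_mul,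
        ← pow_succ']
  have hσr : σ ^ r ^ 1 = 1 := by
    rw [pow_one]
    apply Equiv.ext
    intro v
    apply Subtype.ext
    rw [hpow, hyr, Units.val_one, Matrix.one_mulVec]
    rfl
  by_contra hdvd
  rw [Nat.card_eq_fintype_card] at hdvd
  obtain ⟨v, hv⟩ := Equiv.Perm.exists_fixed_point_of_prime hdvd hσr
  have h1 : (y : Matrix ι ι F) *ᵥ v.1 = v.1 := by
    rw [← hσ, hv]
  have h2 := hfix _ h1
  have h3 := v.2
  rw [h2, hQ0] at h3
  exact zero_ne_one h3

end Cfsg.Agent.Lib.Helper13.SpO2
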