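import Mathlib
import Cfsg.Agent.Lib.Helper13.SpO2
import Cfsg.Agent.Lib.Helper13.OrthCent4
import Cfsg.Agent.S5986
import Cfsg.Agent.S0288
import Cfsg.Agent.S2595
import Cfsg.Agent.S2596

set_option autoImplicit false
open Cfsg

namespace Cfsg.Agent.Lib.Helper13.SpO3

open Matrix
open Cfsg.Agent.S5645 (IsAlt)
open Cfsg.Agent.Lib.Helper28.Herm (Isom)
open Cfsg.Agent.Lib.Helper13.OrthInv (pf pf_isAlt isom_of_Q Q_range dataA' dataB' gl_rank_conj)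
open Cfsg.Agent.Lib.Helper13.InvCount (type_conj)
open Cfsg.Agent.Lib.Helper13.SpO
open Cfsg.Agent.Lib.Helper13.SpO2
open Cfsg.Agent.Lib.Helper15.StdForms (plusQF minusQF minusQF_apply coe_minusQF)
open Cfsg.Agent.Lib.Helper13.OrthCent4 (q_ge N1_plus)

variable {F : Type*} [Field F] {d : ℕ}

theorem mem_sp (y : GL (Fin d ⊕ Fin d) F) :
    y ∈ Cfsg.spGL d F ↔ Isom (Cfsg.sympForm d F) y := Iff.rfl

/-- a scalar symplectic matrix in characteristic two is the identity -/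
theorem scalar_one [CharP F 2] (Q : QuadraticForm F (Fin d ⊕ Fin d → F))
    (hpol : ∀ u v, QuadraticMap.polar Q u v = Cfsg.sympForm d F u v)
    (hne : ∃ u v, Cfsg.sympForm d F u v ≠ 0)
    (X : GL (Fin d ⊕ Fin d) F) (hX : Isom (Cfsg.sympForm d F) X) (z : F)
    (hz : (X : Matrix (Fin d ⊕ Fin d) (Fin d ⊕ Fin d) F) = z • 1) :
    (X : Matrix (Fin d ⊕ Fin d) (Fin d ⊕ Fin d) F) = 1 := by
  obtain ⟨u0, v0, h0⟩ := hne
  have h1 := hX u0 v0
  rw [hz, Matrix.smul_mulVec, Matrix.one_mulVec, Matrix.smul_mulVec, Matrix.one_mulVec,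
    ← hpol, ← hpol, QuadraticMap.polar_smul_left, QuadraticMap.polar_smul_right, smul_eq_mul,
    smul_eq_mul] at h1
  have hzz : z * z = 1 := by
    have : (z * z - 1) * QuadraticMap.polar Q u0 v0 = 0 := by linear_combination h1
    rcases mul_eq_zero.mp this with h | h
    · linear_combination h
    · rw [hpol] at h
      exact absurd h h0
  rw [hz, Cfsg.Agent.Lib.Helper13.NsPoint.sq_one z hzz, one_smul]

/-- a symplectic similarity of the quadratic form is an isometry -/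
theorem sim_isom (Q : QuadraticForm F (Fin d ⊕ Fin d → F))
    (hpol : ∀ u v, QuadraticMap.polar Q u v = Cfsg.sympForm d F u v)
    (hne : ∃ u v, Cfsg.sympForm d F u v ≠ 0)
    (y : GL (Fin d ⊕ Fin d) F) (hy : Isom (Cfsg.sympForm d F) y)
    (hsim : y ∈ Cfsg.Geo.quadSimilarityGroup (⇑Q)) (v : Fin d ⊕ Fin d → F) :
    Q ((y : Matrix (Fin d ⊕ Fin d) (Fin d ⊕ Fin d) F) *ᵥ v) = Q v := by
  obtain ⟨c, hc⟩ : ∃ c : Fˣ, ∀ v, Q ((y : Matrix (Fin d ⊕ Fin d) (Fin d ⊕ Fin d) F) *ᵥ v) =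
      (c : F) * Q v := hsim
  obtain ⟨u0, v0, h0⟩ := hne
  have h1 : Cfsg.sympForm d F ((y : Matrix (Fin d ⊕ Fin d) (Fin d ⊕ Fin d) F) *ᵥ u0)
      ((y : Matrix (Fin d ⊕ Fin d) (Fin d ⊕ Fin d) F) *ᵥ v0) =
      (c : F) * Cfsg.sympForm d F u0 v0 := by
    rw [← hpol, ← hpol]
    unfold QuadraticMap.polar
    rw [← Matrix.mulVec_add, hc, hc, hc]
    ring
  rw [hy] at h1
  have h3 : ((c : F) - 1) * Cfsg.sympForm d F u0 v0 = 0 := by linear_combination -h1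
  have hc1 : (c : F) = 1 := by
    rcases mul_eq_zero.mp h3 with h | h
    · linear_combination h
    · exact absurd h h0
  rw [hc, hc1, one_mul]

theorem relIndex_eq (Q : QuadraticForm F (Fin d ⊕ Fin d → F))
    (hpol : ∀ u v, QuadraticMap.polar Q u v = Cfsg.sympForm d F u v)
    (hne : ∃ u v, Cfsg.sympForm d F u v ≠ 0) :
    Nat.card {y : GL (Fin d ⊕ Fin d) F //
        ∀ v, Q ((y : Matrix (Fin d ⊕ Fin d) (Fin d ⊕ Fin d) F) *ᵥ v) = Q v} *
      (Cfsg.Geo.quadSimilarityGroup (⇑Q)).relIndex (Cfsg.spGL d F) =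
      Nat.card {g : GL (Fin d ⊕ Fin d) F // Isom (Cfsg.sympForm d F) g} := by
  have h1 := Subgroup.card_mul_index
    ((Cfsg.Geo.quadSimilarityGroup (⇑Q)).subgroupOf (Cfsg.spGL d F))
  have e1 : Nat.card ↥((Cfsg.Geo.quadSimilarityGroup (⇑Q)).subgroupOf (Cfsg.spGL d F)) =
      Nat.card {y : GL (Fin d ⊕ Fin d) F //
        ∀ v, Q ((y : Matrix (Fin d ⊕ Fin d) (Fin d ⊕ Fin d) F) *ᵥ v) = Q v} := by
    apply Nat.card_congr
    exact
      { toFun := fun k => ⟨k.1.1, sim_isom Q hpol hne k.1.1 ((mem_sp k.1.1).mp k.1.2)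
          (Subgroup.mem_subgroupOf.mp k.2)⟩
        invFun := fun y => ⟨⟨y.1, (mem_sp y.1).mpr (fun u v => by
            rw [← hpol, ← hpol]
            exact isom_of_Q Q y.1 y.2 u v)⟩,
          Subgroup.mem_subgroupOf.mpr ⟨1, fun v => by
            rw [Units.val_one, one_mul]
            exact y.2 v⟩⟩
        left_inv := fun k => rfl
        right_inv := fun y => rfl }
  have e2 : Nat.card ↥(Cfsg.spGL d F) =
      Nat.card {g : GL (Fin d ⊕ Fin d) F // Isom (Cfsg.sympForm d F) g} := rfl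
  rw [e1, e2] at h1
  exact h1

theorem N1_tr {ι ι₁ : Type} (Q : (ι → F) → F) (Q₁ : (ι₁ → F) → F)
    (g : (ι → F) ≃ₗ[F] (ι₁ → F)) (hg : ∀ v, Q v = Q₁ (g v)) :
    Nat.card {v : ι → F // Q v = 1} = Nat.card {w : ι₁ → F // Q₁ w = 1} := by
  apply Nat.card_congr
  exact
    { toFun := fun v => ⟨g v.1, by rw [← hg]; exact v.2⟩
      invFun := fun w => ⟨g.symm w.1, by rw [hg, g.apply_symm_apply]; exact w.2⟩
      left_inv := fun v => Subtype.ext (g.symm_apply_apply v.1)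
      right_inv := fun w => Subtype.ext (g.apply_symm_apply w.1) }

theorem idx_arith (q k n r I P A B : ℕ) (hq : q = 2 ^ k) (hr : r.Prime) (hr2 : r ≠ 2)
    (hP : 0 < P) (hA : 0 < A) (hAB : q ^ (2 * (n + 1)) - 1 = A * B)
    (h : (2 * q ^ ((n + 1) * n) * A * P) * I =
      q ^ ((n + 1) ^ 2) * (P * (q ^ (2 * (n + 1)) - 1)))
    (hrI : r ∣ I) : r ∣ B := by
  have hqpos : 0 < q := by rw [hq]; exact Nat.pow_pos (by norm_num)
  rw [hAB] at h
  have e : q ^ ((n + 1) ^ 2) = q ^ ((n + 1) * n) * q ^ (n + 1) := by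
    rw [← pow_add]
    congr 1
    ring
  rw [e] at h
  have h1 : (q ^ ((n + 1) * n) * A * P) * (2 * I) =
      (q ^ ((n + 1) * n) * A * P) * (q ^ (n + 1) * B) := by
    calc (q ^ ((n + 1) * n) * A * P) * (2 * I) = (2 * q ^ ((n + 1) * n) * A * P) * I := by ring
      _ = q ^ ((n + 1) * n) * q ^ (n + 1) * (P * (A * B)) := h
      _ = _ := by ring
  have h2 : 2 * I = q ^ (n + 1) * B :=
    Nat.eq_of_mul_eq_mul_left (Nat.mul_pos (Nat.mul_pos (Nat.pow_pos hqpos) hA) hP) h1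
  have h3 : r ∣ q ^ (n + 1) * B := by
    rw [← h2]
    exact Dvd.dvd.mul_left hrI 2
  rcases (Nat.Prime.dvd_mul hr).mp h3 with h4 | h4
  · exfalso
    have h5 := hr.dvd_of_dvd_pow h4
    rw [hq] at h5
    have h6 := hr.dvd_of_dvd_pow h5
    exact hr2 ((Nat.prime_dvd_prime_iff_eq hr Nat.prime_two).1 h6)
  · exact h4

theorem n1_contra (q k n r A B : ℕ) (hq : q = 2 ^ k) (hr : r.Prime) (hr2 : r ≠ 2)
    (hAB : A + 2 = B ∨ B + 2 = A) (hB : r ∣ B) (h : r ∣ q ^ n * A) : False := by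
  have hr2' : ¬ r ∣ 2 := fun h => hr2 ((Nat.prime_dvd_prime_iff_eq hr Nat.prime_two).1 h)
  rcases (Nat.Prime.dvd_mul hr).mp h with h4 | h4
  · have h5 := hr.dvd_of_dvd_pow h4
    rw [hq] at h5
    exact hr2' (hr.dvd_of_dvd_pow h5)
  · rcases hAB with e | e
    · apply hr2'
      have : r ∣ A + 2 := by rw [e]; exact hB
      exact (Nat.dvd_add_right h4).mp this
    · apply hr2'
      have : r ∣ B + 2 := by rw [e]; exact h4
      exact (Nat.dvd_add_right hB).mp this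

/-- for odd `r` dividing the index some element of order `r` has no conjugate preserving the
quadratic form -/
theorem odd_contra [Fintype F] [CharP F 2] {q : ℕ} (hF : Fintype.card F = q) (hd : 1 ≤ d)
    (Q : QuadraticForm F (Fin d ⊕ Fin d → F))
    (hnd : ∀ x, (∀ y, QuadraticMap.polar Q x y = 0) → x = 0)
    (hpol : ∀ u v, QuadraticMap.polar Q u v = Cfsg.sympForm d F u v)
    (hne : ∃ u v, Cfsg.sympForm d F u v ≠ 0)
    (r : ℕ) (hr : r.Prime) (hr2 : r ≠ 2)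
    (hΩ : r ∣ (Cfsg.Geo.quadSimilarityGroup (⇑Q)).relIndex (Cfsg.spGL d F))
    (hall : ∀ x ∈ Cfsg.spGL d F,
      (∃ z : F, ((x ^ r : GL (Fin d ⊕ Fin d) F) : Matrix (Fin d ⊕ Fin d) (Fin d ⊕ Fin d) F) =
        z • (1 : Matrix (Fin d ⊕ Fin d) (Fin d ⊕ Fin d) F)) →
      (∀ z : F, (x : Matrix (Fin d ⊕ Fin d) (Fin d ⊕ Fin d) F) ≠
        z • (1 : Matrix (Fin d ⊕ Fin d) (Fin d ⊕ Fin d) F)) →
      ∃ g ∈ Cfsg.spGL d F, g⁻¹ * x * g ∈ Cfsg.Geo.quadSimilarityGroup (⇑Q)) : False := by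
  classical
  have h2 : (2 : F) = 0 := CharTwo.two_eq_zero
  have hq2 : 2 ≤ q := q_ge hF
  obtain ⟨k, hk⟩ : ∃ k : ℕ, q = 2 ^ k := by
    have : Fact (Nat.Prime 2) := ⟨Nat.prime_two⟩
    obtain ⟨n, -, hn⟩ := FiniteField.card F 2
    exact ⟨n, by rw [← hF, hn]⟩
  obtain ⟨n, rfl⟩ : ∃ n, d = n + 1 := ⟨d - 1, by omega⟩
  obtain ⟨b, hb⟩ := exists_aniso1 F
  have hfin : Module.finrank F (Fin (n + 1) ⊕ Fin (n + 1) → F) = 2 * (n + 1) := by
    rw [Module.finrank_fintype_fun_eq_card, Fintype.card_sum, Fintype.card_fin]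
    ring
  have hqn : 2 ≤ q ^ (n + 1) := by
    have := Nat.pow_le_pow_right (show 0 < q by omega) (show 1 ≤ n + 1 by omega)
    rw [pow_one] at this
    omega
  have hfact : q ^ (2 * (n + 1)) - 1 = (q ^ (n + 1) - 1) * (q ^ (n + 1) + 1) := by
    obtain ⟨t, ht⟩ : ∃ t, q ^ (n + 1) = t + 1 := ⟨q ^ (n + 1) - 1, by omega⟩
    have e : q ^ (2 * (n + 1)) = (q ^ (n + 1)) ^ 2 := by rw [← pow_mul, mul_comm]
    rw [e, ht, Nat.add_sub_cancel]
    have e2 : (t + 1) ^ 2 = t * (t + 1 + 1) + 1 := by ring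
    rw [e2, Nat.add_sub_cancel]
  have hPpos : 0 < ∏ i ∈ Finset.range n, (q ^ (2 * (i + 1)) - 1) := by
    apply Finset.prod_pos
    intro i _
    have : q ^ (2 * (i + 1)) ≥ 2 ^ (2 * (i + 1)) := Nat.pow_le_pow_left hq2 _
    have : 2 ^ (2 * (i + 1)) ≥ 2 ^ 1 := Nat.pow_le_pow_right (by norm_num) (by omega)
    omega
  have hidx := relIndex_eq Q hpol hne
  rw [Cfsg.Agent.Lib.Helper13.SpCent.card_isom hF (n + 1),
    Finset.prod_range_succ (fun i => q ^ (2 * (i + 1)) - 1) n] at hidx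
  have key : ∀ X : GL (Fin (n + 1) ⊕ Fin (n + 1)) F, Isom (Cfsg.sympForm (n + 1) F) X →
      X ^ r = 1 →
      (∀ w, (X : Matrix (Fin (n + 1) ⊕ Fin (n + 1)) (Fin (n + 1) ⊕ Fin (n + 1)) F) *ᵥ w = w →
        w = 0) →
      r ∣ Nat.card {v : Fin (n + 1) ⊕ Fin (n + 1) → F // Q v = 1} := by
    intro X hX hXr hXf
    have hXmem : X ∈ Cfsg.spGL (n + 1) F := (mem_sp X).mpr hX
    have hns : ∀ z : F, (X : Matrix (Fin (n + 1) ⊕ Fin (n + 1)) (Fin (n + 1) ⊕ Fin (n + 1)) F) ≠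
        z • 1 := by
      intro z hz
      have hX1 := scalar_one Q hpol hne X hX z hz
      obtain ⟨u0, v0, h0⟩ := hne
      have h3 := hXf u0 (by rw [hX1, Matrix.one_mulVec])
      apply h0
      rw [h3, ← hpol, QuadraticMap.polar_zero_left]
    obtain ⟨g, hg, hgx⟩ := hall X hXmem ⟨1, by rw [hXr, Units.val_one, one_smul]⟩ hns
    have hymem : g⁻¹ * X * g ∈ Cfsg.spGL (n + 1) F :=
      Subgroup.mul_mem _ (Subgroup.mul_mem _ (Subgroup.inv_mem _ hg) hXmem) hg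
    have hyQ := sim_isom Q hpol hne (g⁻¹ * X * g) ((mem_sp _).mp hymem) hgx
    apply free_N1 (⇑Q) (QuadraticMap.map_zero Q) (g⁻¹ * X * g) hyQ r hr
    · have e0 : g⁻¹ * X * g = g⁻¹ * X * g⁻¹⁻¹ := by rw [inv_inv]
      rw [e0, conj_pow, hXr, mul_one, mul_inv_cancel]
    · intro w hw
      have h1 : (X : Matrix (Fin (n + 1) ⊕ Fin (n + 1)) (Fin (n + 1) ⊕ Fin (n + 1)) F) *ᵥ
          ((g : Matrix (Fin (n + 1) ⊕ Fin (n + 1)) (Fin (n + 1) ⊕ Fin (n + 1)) F) *ᵥ w) =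
          (g : Matrix (Fin (n + 1) ⊕ Fin (n + 1)) (Fin (n + 1) ⊕ Fin (n + 1)) F) *ᵥ w := by
        have h0 : (g : Matrix (Fin (n + 1) ⊕ Fin (n + 1)) (Fin (n + 1) ⊕ Fin (n + 1)) F) *ᵥ
            (((g⁻¹ * X * g : GL (Fin (n + 1) ⊕ Fin (n + 1)) F) :
              Matrix (Fin (n + 1) ⊕ Fin (n + 1)) (Fin (n + 1) ⊕ Fin (n + 1)) F) *ᵥ w) =
            (g : Matrix (Fin (n + 1) ⊕ Fin (n + 1)) (Fin (n + 1) ⊕ Fin (n + 1)) F) *ᵥ w := by
          rw [hw]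
        rw [Matrix.mulVec_mulVec, ← Units.val_mul] at h0
        have e : g * (g⁻¹ * X * g) = X * g := by group
        rw [e, Units.val_mul, ← Matrix.mulVec_mulVec] at h0
        exact h0
      have h3 := hXf _ h1
      have h4 : ((g⁻¹ : GL (Fin (n + 1) ⊕ Fin (n + 1)) F) :
          Matrix (Fin (n + 1) ⊕ Fin (n + 1)) (Fin (n + 1) ⊕ Fin (n + 1)) F) *ᵥ
          ((g : Matrix (Fin (n + 1) ⊕ Fin (n + 1)) (Fin (n + 1) ⊕ Fin (n + 1)) F) *ᵥ w) =
          ((g⁻¹ : GL (Fin (n + 1) ⊕ Fin (n + 1)) F) :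
          Matrix (Fin (n + 1) ⊕ Fin (n + 1)) (Fin (n + 1) ⊕ Fin (n + 1)) F) *ᵥ 0 := by
        rw [h3]
      rw [Matrix.mulVec_mulVec, ← Units.val_mul, inv_mul_cancel, Units.val_one,
        Matrix.one_mulVec, Matrix.mulVec_zero] at h4
      exact h4
  rcases Cfsg.Agent.Lib.Helper15.EvenForms.classify (show 1 ≤ n + 1 by omega) hfin Q hnd 1 b hb
    with ⟨g, hg⟩ | hminus
  · -- plus type
    have hO : Nat.card {y : GL (Fin (n + 1) ⊕ Fin (n + 1)) F // ∀ v, Q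
        ((y : Matrix (Fin (n + 1) ⊕ Fin (n + 1)) (Fin (n + 1) ⊕ Fin (n + 1)) F) *ᵥ v) = Q v} =
        2 * q ^ ((n + 1) * n) * (q ^ (n + 1) - 1) *
          ∏ i ∈ Finset.range n, (q ^ (2 * (i + 1)) - 1) := by
      rw [card_isom_tr Q (plusQF (n + 1) F) g hg, Cfsg.Agent.Lib.Helper13.OrthCent2.card_O]
      exact Cfsg.Agent.S0287.result hF (n + 1) (by omega)
    rw [hO] at hidx
    have hdiv : r ∣ q ^ (n + 1) + 1 :=
      idx_arith q k n r _ (∏ i ∈ Finset.range n, (q ^ (2 * (i + 1)) - 1)) (q ^ (n + 1) - 1)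
        (q ^ (n + 1) + 1) hk hr hr2 hPpos (by omega) hfact hidx hΩ
    obtain ⟨X, hX, hXr, hXf⟩ := sp_elem F (n + 1) (by omega) r hr hr2
      (Or.inr (by rw [hF]; exact hdiv))
    have h1 := key X hX hXr hXf
    rw [N1_tr (⇑Q) (⇑(plusQF (n + 1) F)) g hg, N1_plus hF (n + 1) (by omega),
      Nat.add_sub_cancel] at h1
    exact n1_contra q k n r (q ^ (n + 1) - 1) (q ^ (n + 1) + 1) hk hr hr2
      (Or.inl (by omega)) hdiv h1
  · -- minus type
    obtain ⟨g, hg⟩ : ∃ g : (Fin (n + 1) ⊕ Fin (n + 1) → F) ≃ₗ[F] ((Fin n ⊕ Fin n) ⊕ Fin 2 → F),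
        ∀ v, Q v = minusQF n F 1 b (g v) := by
      obtain ⟨g, hg⟩ := hminus
      exact ⟨g, fun v => by rw [minusQF_apply]; exact hg v⟩
    have hO : Nat.card {y : GL (Fin (n + 1) ⊕ Fin (n + 1)) F // ∀ v, Q
        ((y : Matrix (Fin (n + 1) ⊕ Fin (n + 1)) (Fin (n + 1) ⊕ Fin (n + 1)) F) *ᵥ v) = Q v} =
        2 * q ^ ((n + 1) * n) * (q ^ (n + 1) + 1) *
          ∏ i ∈ Finset.range n, (q ^ (2 * (i + 1)) - 1) := by
      rw [card_isom_tr Q (minusQF n F 1 b) g hg, Cfsg.Agent.Lib.Helper13.OrthCent2.card_O,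
        coe_minusQF]
      exact Cfsg.Agent.S0288.result hF (n + 1) (by omega) 1 b hb
    rw [hO] at hidx
    have hfact' : q ^ (2 * (n + 1)) - 1 = (q ^ (n + 1) + 1) * (q ^ (n + 1) - 1) := by
      rw [hfact, mul_comm]
    have hdiv : r ∣ q ^ (n + 1) - 1 :=
      idx_arith q k n r _ (∏ i ∈ Finset.range n, (q ^ (2 * (i + 1)) - 1)) (q ^ (n + 1) + 1)
        (q ^ (n + 1) - 1) hk hr hr2 hPpos (by omega) hfact' hidx hΩ
    obtain ⟨X, hX, hXr, hXf⟩ := sp_elem F (n + 1) (by omega) r hr hr2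
      (Or.inl (by rw [hF]; exact hdiv))
    have h1 := key X hX hXr hXf
    rw [N1_tr (⇑Q) (⇑(minusQF n F 1 b)) g hg, Cfsg.Agent.S5986.N1_minus n 1 b hb, hF] at h1
    exact n1_contra q k n r (q ^ (n + 1) + 1) (q ^ (n + 1) - 1) hk hr hr2
      (Or.inr (by omega)) hdiv h1

end Cfsg.Agent.Lib.Helper13.SpO3
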