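import Mathlib
import Cfsg.Agent.Lib.Helper13.SpO3

set_option autoImplicit false
open Cfsg

namespace Cfsg.Agent.Lib.Helper13.SpO4

open Matrix
open Cfsg.Agent.S5645 (IsAlt)
open Cfsg.Agent.Lib.Helper28.Herm (Isom)
open Cfsg.Agent.Lib.Helper13.OrthInv (pf pf_isAlt isom_of_Q Q_range dataA' dataB' gl_rank_conj)
open Cfsg.Agent.Lib.Helper13.InvCount (type_conj)
open Cfsg.Agent.Lib.Helper13.SpO
open Cfsg.Agent.Lib.Helper13.SpO2
open Cfsg.Agent.Lib.Helper13.SpO3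
open Cfsg.Agent.Lib.Helper15.StdForms (plusQF minusQF minusQF_apply coe_minusQF)

variable {F : Type*} [Field F] {d : ℕ}

/-- if the involutions of type `a_d` are conjugate into the orthogonal group, the form is of
plus type -/
theorem plus_of_ad [Fintype F] [CharP F 2] (hd : 1 ≤ d)
    (Q : QuadraticForm F (Fin d ⊕ Fin d → F))
    (hpol : ∀ u v, QuadraticMap.polar Q u v = Cfsg.sympForm d F u v)
    (hne : ∃ u v, Cfsg.sympForm d F u v ≠ 0) (hEven : Even d)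
    (hall : ∀ x ∈ Cfsg.spGL d F,
      (∃ z : F, ((x ^ 2 : GL (Fin d ⊕ Fin d) F) : Matrix (Fin d ⊕ Fin d) (Fin d ⊕ Fin d) F) =
        z • (1 : Matrix (Fin d ⊕ Fin d) (Fin d ⊕ Fin d) F)) →
      (∀ z : F, (x : Matrix (Fin d ⊕ Fin d) (Fin d ⊕ Fin d) F) ≠
        z • (1 : Matrix (Fin d ⊕ Fin d) (Fin d ⊕ Fin d) F)) →
      ∃ g ∈ Cfsg.spGL d F, g⁻¹ * x * g ∈ Cfsg.Geo.quadSimilarityGroup (⇑Q)) :
    Cfsg.Geo.IsPlusTypeOn (⇑Q) ⊤ := by
  classical
  have h2 : (2 : F) = 0 := CharTwo.two_eq_zero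
  obtain ⟨m, hm⟩ := hEven
  obtain ⟨M, hMQ, hMM, hMrk, hMalt⟩ := Cfsg.Agent.S2595.ex_A (F := F) (m := d) m (by omega)
  have hMsp : Isom (Cfsg.sympForm d F) M := by
    intro u v
    rw [symp_polar h2, symp_polar h2]
    exact isom_of_Q (plusQF d F) M hMQ u v
  have hMalt' : ∀ y, Cfsg.sympForm d F
      ((M : Matrix (Fin d ⊕ Fin d) (Fin d ⊕ Fin d) F) *ᵥ y - y) y = 0 := by
    intro y
    rw [symp_polar h2]
    exact hMalt.mpr trivial y
  have hns : ∀ z : F, (M : Matrix (Fin d ⊕ Fin d) (Fin d ⊕ Fin d) F) ≠ z • 1 := by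
    intro z hz
    have hM1 := scalar_one Q hpol hne M hMsp z hz
    rw [hM1, sub_self, Matrix.rank_zero] at hMrk
    omega
  obtain ⟨g, hg, hgx⟩ := hall M ((mem_sp M).mpr hMsp)
    ⟨1, by rw [pow_two, hMM, Units.val_one, one_smul]⟩ hns
  obtain ⟨y, hy⟩ : ∃ y : GL (Fin d ⊕ Fin d) F, y = g⁻¹ * M * g := ⟨_, rfl⟩
  rw [← hy] at hgx
  have hymem : Isom (Cfsg.sympForm d F) y := by
    rw [hy]
    exact (mem_sp _).mp (Subgroup.mul_mem _ (Subgroup.mul_mem _ (Subgroup.inv_mem _ hg)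
      ((mem_sp M).mpr hMsp)) hg)
  have hyQ := sim_isom Q hpol hne y hymem hgx
  have hconj : g * y = M * g := by
    rw [hy]
    group
  have hrank : ((y : Matrix (Fin d ⊕ Fin d) (Fin d ⊕ Fin d) F) - 1).rank = m + m := by
    rw [gl_rank_conj g y M hconj, hMrk]
  have hyalt : ∀ v, Cfsg.sympForm d F
      ((y : Matrix (Fin d ⊕ Fin d) (Fin d ⊕ Fin d) F) *ᵥ v - v) v = 0 :=
    (type_conj g y M ((mem_sp g).mp hg) hconj).mpr hMalt'
  refine ⟨LinearMap.range ((y : Matrix (Fin d ⊕ Fin d) (Fin d ⊕ Fin d) F) - 1).mulVecLin, le_top,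
    ?_, ?_⟩
  · intro w hw
    obtain ⟨u, rfl⟩ := hw
    rw [Matrix.mulVecLin_apply, Matrix.sub_mulVec, Matrix.one_mulVec, Q_range Q h2 y hyQ u]
    show QuadraticMap.polar Q _ _ = 0
    rw [hpol]
    exact hyalt u
  · have e : Module.finrank F
        ↥(LinearMap.range ((y : Matrix (Fin d ⊕ Fin d) (Fin d ⊕ Fin d) F) - 1).mulVecLin) =
        m + m := hrank
    rw [e, finrank_top, Module.finrank_fintype_fun_eq_card, Fintype.card_sum, Fintype.card_fin, hm]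
    ring

/-- every symplectic involution is conjugate into the orthogonal group, for forms of plus type
or odd half-dimension -/
theorem conj_into [Fintype F] [CharP F 2] (hd : 1 ≤ d)
    (Q : QuadraticForm F (Fin d ⊕ Fin d → F))
    (hnd : ∀ x, (∀ y, QuadraticMap.polar Q x y = 0) → x = 0)
    (hpol : ∀ u v, QuadraticMap.polar Q u v = Cfsg.sympForm d F u v)
    (hne : ∃ u v, Cfsg.sympForm d F u v ≠ 0)
    (htype : Cfsg.Geo.IsPlusTypeOn (⇑Q) ⊤ ∨ Odd d)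
    (x : GL (Fin d ⊕ Fin d) F) (hx : Isom (Cfsg.sympForm d F) x) (z : F)
    (hz : ((x ^ 2 : GL (Fin d ⊕ Fin d) F) : Matrix (Fin d ⊕ Fin d) (Fin d ⊕ Fin d) F) = z • 1) :
    ∃ g ∈ Cfsg.spGL d F, g⁻¹ * x * g ∈ Cfsg.Geo.quadSimilarityGroup (⇑Q) := by
  classical
  have h2 : (2 : F) = 0 := CharTwo.two_eq_zero
  have hxx : x * x = 1 := by
    have hx2 : Isom (Cfsg.sympForm d F) (x ^ 2) :=
      (mem_sp _).mp (Subgroup.pow_mem (Cfsg.spGL d F) ((mem_sp x).mpr hx) 2)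
    have h1 := scalar_one Q hpol hne (x ^ 2) hx2 z hz
    apply Units.ext
    rw [← pow_two, h1]
    rfl
  have hndQ : (QuadraticMap.polarBilin Q).Nondegenerate :=
    Cfsg.Agent.Lib.Helper15.StdForms.nondeg_of_sep Q hnd
  have hf : IsAlt (pf Q) := pf_isAlt Q hndQ h2
  have hfe : pf Q = Cfsg.sympForm d F := by
    funext u v
    exact hpol u v
  have hxf : Isom (pf Q) x := by
    rw [hfe]
    exact hx
  suffices hy : ∃ y : GL (Fin d ⊕ Fin d) F,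
      (∀ v, Q ((y : Matrix (Fin d ⊕ Fin d) (Fin d ⊕ Fin d) F) *ᵥ v) = Q v) ∧ y * y = 1 ∧
      ((y : Matrix (Fin d ⊕ Fin d) (Fin d ⊕ Fin d) F) - 1).rank =
        ((x : Matrix (Fin d ⊕ Fin d) (Fin d ⊕ Fin d) F) - 1).rank ∧
      ((∀ v, pf Q ((y : Matrix (Fin d ⊕ Fin d) (Fin d ⊕ Fin d) F) *ᵥ v - v) v = 0) ↔
        (∀ v, pf Q ((x : Matrix (Fin d ⊕ Fin d) (Fin d ⊕ Fin d) F) *ᵥ v - v) v = 0)) by
    obtain ⟨y, hyQ, hyy, hyr, hyt⟩ := hy
    obtain ⟨c, hc, hcxy⟩ := conj_invol hf h2 x y hxf (isom_of_Q Q y hyQ) hxx hyy hyr.symm hyt.symm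
    refine ⟨c⁻¹, ?_, ?_⟩
    · apply Subgroup.inv_mem
      rw [hfe] at hc
      exact (mem_sp c).mpr hc
    · have e : c⁻¹⁻¹ * x * c⁻¹ = y := by
        rw [inv_inv, hcxy]
        group
      rw [e]
      exact ⟨1, fun v => by rw [Units.val_one, one_mul]; exact hyQ v⟩
  -- the rank bound
  have hNN : ((x : Matrix (Fin d ⊕ Fin d) (Fin d ⊕ Fin d) F) - 1) *
      ((x : Matrix (Fin d ⊕ Fin d) (Fin d ⊕ Fin d) F) - 1) = 0 := by
    have hxx' : (x : Matrix (Fin d ⊕ Fin d) (Fin d ⊕ Fin d) F) *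
        (x : Matrix (Fin d ⊕ Fin d) (Fin d ⊕ Fin d) F) = 1 := by
      rw [← Units.val_mul, hxx, Units.val_one]
    have e : ((x : Matrix (Fin d ⊕ Fin d) (Fin d ⊕ Fin d) F) - 1) *
        ((x : Matrix (Fin d ⊕ Fin d) (Fin d ⊕ Fin d) F) - 1) =
        (2 : F) • (1 - (x : Matrix (Fin d ⊕ Fin d) (Fin d ⊕ Fin d) F)) := by
      rw [Matrix.sub_mul, Matrix.mul_sub, Matrix.mul_sub, hxx', mul_one, one_mul, mul_one,
        two_smul]
      abel
    rw [e, h2, zero_smul]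
  have hrk := Matrix.rank_add_rank_le_card_of_mul_eq_zero hNN
  rw [Fintype.card_sum, Fintype.card_fin] at hrk
  obtain ⟨n, rfl⟩ : ∃ n, d = n + 1 := ⟨d - 1, by omega⟩
  obtain ⟨b, hb⟩ := exists_aniso1 F
  have hfin : Module.finrank F (Fin (n + 1) ⊕ Fin (n + 1) → F) = 2 * (n + 1) := by
    rw [Module.finrank_fintype_fun_eq_card, Fintype.card_sum, Fintype.card_fin]
    ring
  -- a non-alternating involution has positive rank
  have hpos : (¬ ∀ v, pf Q ((x : Matrix (Fin (n + 1) ⊕ Fin (n + 1)) (Fin (n + 1) ⊕ Fin (n + 1)) F)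
      *ᵥ v - v) v = 0) →
      0 < ((x : Matrix (Fin (n + 1) ⊕ Fin (n + 1)) (Fin (n + 1) ⊕ Fin (n + 1)) F) - 1).rank := by
    intro hA
    by_contra h0
    apply hA
    intro v
    have h1 : ((x : Matrix (Fin (n + 1) ⊕ Fin (n + 1)) (Fin (n + 1) ⊕ Fin (n + 1)) F) - 1).rank = 0 := by
      omega
    have h3 : LinearMap.range
        ((x : Matrix (Fin (n + 1) ⊕ Fin (n + 1)) (Fin (n + 1) ⊕ Fin (n + 1)) F) - 1).mulVecLin = ⊥ :=
      Submodule.finrank_eq_zero.mp h1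
    have h4 : ((x : Matrix (Fin (n + 1) ⊕ Fin (n + 1)) (Fin (n + 1) ⊕ Fin (n + 1)) F) - 1).mulVecLin
        = 0 := LinearMap.range_eq_bot.mp h3
    have h5 : (x : Matrix (Fin (n + 1) ⊕ Fin (n + 1)) (Fin (n + 1) ⊕ Fin (n + 1)) F) *ᵥ v - v = 0 := by
      have h6 := LinearMap.congr_fun h4 v
      rw [Matrix.mulVecLin_apply, Matrix.sub_mulVec, Matrix.one_mulVec] at h6
      exact h6
    rw [h5]
    show QuadraticMap.polar Q 0 v = 0
    exact QuadraticMap.polar_zero_left Q v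
  rcases Cfsg.Agent.Lib.Helper15.EvenForms.classify (show 1 ≤ n + 1 by omega) hfin Q hnd 1 b hb
    with ⟨g, hg⟩ | hminus
  · by_cases hA : ∀ v, pf Q
        ((x : Matrix (Fin (n + 1) ⊕ Fin (n + 1)) (Fin (n + 1) ⊕ Fin (n + 1)) F) *ᵥ v - v) v = 0
    · obtain ⟨r', u, v, -, -, -, -, hrk'⟩ := dataA' hf h2 x hxf hxx hA
      obtain ⟨M, hMQ, hMM, hMrk, hMalt⟩ :=
        Cfsg.Agent.S2595.ex_A (F := F) (m := n + 1) r' (by omega)
      refine ⟨tr g M, tr_isom Q (plusQF (n + 1) F) g hg M hMQ, ?_, ?_, ?_⟩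
      · rw [← tr_mul, hMM, tr_one]
      · rw [tr_rank, hMrk, hrk']
      · rw [tr_alt Q (plusQF (n + 1) F) g hg M]
        exact ⟨fun _ => hA, fun _ => hMalt.mpr trivial⟩
    · obtain ⟨M, hMQ, hMM, hMrk, hMalt⟩ :=
        Cfsg.Agent.S2595.ex_B (F := F) (m := n + 1) _ (hpos hA) (by omega)
      refine ⟨tr g M, tr_isom Q (plusQF (n + 1) F) g hg M hMQ, ?_, ?_, ?_⟩
      · rw [← tr_mul, hMM, tr_one]
      · rw [tr_rank, hMrk]
      · rw [tr_alt Q (plusQF (n + 1) F) g hg M]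
        exact ⟨fun h => (hMalt.mp h).elim, fun h => absurd h hA⟩
  · obtain ⟨g, hg⟩ : ∃ g : (Fin (n + 1) ⊕ Fin (n + 1) → F) ≃ₗ[F] ((Fin n ⊕ Fin n) ⊕ Fin 2 → F),
        ∀ v, Q v = minusQF n F 1 b (g v) := by
      obtain ⟨g, hg⟩ := hminus
      exact ⟨g, fun v => by rw [minusQF_apply]; exact hg v⟩
    have hodd : Odd (n + 1) := by
      rcases htype with hplus | hodd
      · exfalso
        obtain ⟨U, -, hU, hUd⟩ := hplus
        have h1 := Cfsg.Agent.Lib.Helper15.InvSplit.minus_ts_le n 1 b hb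
          (U.map (g : (Fin (n + 1) ⊕ Fin (n + 1) → F) →ₗ[F] ((Fin n ⊕ Fin n) ⊕ Fin 2 → F))) (by
            rintro _ ⟨u, hu, rfl⟩
            show minusQF n F 1 b (g u) = 0
            rw [← hg]
            exact hU u hu)
        rw [LinearEquiv.finrank_map_eq] at h1
        rw [finrank_top, hfin] at hUd
        omega
      · exact hodd
    obtain ⟨t, ht⟩ := hodd
    by_cases hA : ∀ v, pf Q
        ((x : Matrix (Fin (n + 1) ⊕ Fin (n + 1)) (Fin (n + 1) ⊕ Fin (n + 1)) F) *ᵥ v - v) v = 0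
    · obtain ⟨r', u, v, -, -, -, -, hrk'⟩ := dataA' hf h2 x hxf hxx hA
      obtain ⟨M, hMQ, hMM, hMrk, hMalt⟩ :=
        Cfsg.Agent.S2596.ex_A (F := F) (k := n) (a := 1) (b := b) hb r' (by omega)
      refine ⟨tr g M, tr_isom Q (minusQF n F 1 b) g hg M hMQ, ?_, ?_, ?_⟩
      · rw [← tr_mul, hMM, tr_one]
      · rw [tr_rank, hMrk, hrk']
      · rw [tr_alt Q (minusQF n F 1 b) g hg M]
        exact ⟨fun _ => hA, fun _ => hMalt.mpr trivial⟩
    · have hp := hpos hA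
      obtain ⟨M, hMQ, hMM, hMrk, hMalt⟩ :=
        Cfsg.Agent.S2596.ex_B (F := F) (k := n) (a := 1) (b := b) hb
          (((x : Matrix (Fin (n + 1) ⊕ Fin (n + 1)) (Fin (n + 1) ⊕ Fin (n + 1)) F) - 1).rank - 1)
          (by omega)
      refine ⟨tr g M, tr_isom Q (minusQF n F 1 b) g hg M hMQ, ?_, ?_, ?_⟩
      · rw [← tr_mul, hMM, tr_one]
      · rw [tr_rank, hMrk]
        omega
      · rw [tr_alt Q (minusQF n F 1 b) g hg M]
        exact ⟨fun h => (hMalt.mp h).elim, fun h => absurd h hA⟩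

end Cfsg.Agent.Lib.Helper13.SpO4
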