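import Mathlib
import Cfsg.Agent.Lib.Helper13.SmallSimple

set_option autoImplicit false

namespace Cfsg.Agent.Lib.Helper13.SylowCount

open Cfsg.Agent.Lib.Helper13.SmallSimple Cfsg.Agent.Lib.Helper2.SimpleIndex

variable {G : Type*} [Group G]

/-- `|H| * |K : H| = |K|`. -/
theorem card_mul_relIndex {H K : Subgroup G} (h : H ≤ K) :
    Nat.card H * H.relIndex K = Nat.card K := by
  have h1 := (H.subgroupOf K).card_mul_index
  rw [Nat.card_congr (Subgroup.subgroupOfEquivOfLe h).toEquiv] at h1
  exact h1

/-- `|N(H) : C(H)|` divides `|Aut(H)|`. -/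
theorem relIndex_centralizer_dvd_card_mulAut (H : Subgroup G) :
    (Subgroup.centralizer (H : Set G)).relIndex (Subgroup.normalizer (H : Set G)) ∣
      Nat.card (MulAut H) := by
  have key := Subgroup.card_dvd_of_injective _
    (QuotientGroup.kerLift_injective H.normalizerMonoidHom)
  rw [Subgroup.normalizerMonoidHom_ker, ← Subgroup.index, ← Subgroup.relIndex] at key
  exact key

variable [Finite G]

/-- `|N(P) : C(P)|` divides `p - 1` for a Sylow subgroup of prime order. -/
theorem relIndex_centralizer_dvd {p : ℕ} [hp : Fact p.Prime] (P : Sylow p G)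
    (hP : Nat.card (P : Subgroup G) = p) :
    (Subgroup.centralizer ((P : Subgroup G) : Set G)).relIndex
      (Subgroup.normalizer ((P : Subgroup G) : Set G)) ∣ p - 1 := by
  have hcyc : IsCyclic (P : Subgroup G) := isCyclic_of_prime_card hP
  have key := relIndex_centralizer_dvd_card_mulAut (P : Subgroup G)
  rw [hcyc.card_mulAut, hP, Nat.totient_prime hp.out] at key
  exact key

/-- The number of elements of order `p` when the Sylow `p`-subgroups have order `p`. -/
theorem card_orderOf_eq_prime {p : ℕ} [hp : Fact p.Prime]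
    (hcard : ∀ P : Sylow p G, Nat.card (P : Subgroup G) = p) :
    Nat.card {g : G // orderOf g = p} = Nat.card (Sylow p G) * (p - 1) := by
  classical
  have hne1 : ∀ x : {g : G // orderOf g = p}, (x : G) ≠ 1 := by
    rintro ⟨g, hg⟩ h
    have h1 : g = 1 := h
    rw [h1, orderOf_one] at hg
    exact hp.out.one_lt.ne hg
  have hex : ∀ g : {g : G // orderOf g = p}, ∃ Q : Sylow p G, (g : G) ∈ (Q : Subgroup G) := by
    rintro ⟨g, hg⟩
    have hz : IsPGroup p (Subgroup.zpowers g) := by
      apply IsPGroup.of_card (n := 1)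
      rw [Nat.card_zpowers, hg, pow_one]
    obtain ⟨Q, hQ⟩ := hz.exists_le_sylow
    exact ⟨Q, hQ (Subgroup.mem_zpowers g)⟩
  choose f hf using hex
  have hord : ∀ (Q : Sylow p G) (g : G), g ∈ (Q : Subgroup G) → g ≠ 1 → orderOf g = p := by
    intro Q g hg hg1
    have hd := orderOf_dvd_natCard (⟨g, hg⟩ : ↥(Q : Subgroup G))
    rw [hcard Q, ← Subgroup.orderOf_coe] at hd
    rcases (Nat.dvd_prime hp.out).mp hd with h | h
    · exact absurd (orderOf_eq_one_iff.mp h) hg1
    · exact h
  have hfQ : ∀ (Q : Sylow p G) (x : {g : G // orderOf g = p}),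
      (x : G) ∈ (Q : Subgroup G) → f x = Q := by
    intro Q x hx
    by_contra hne
    have hti := sylow_prime_ti hcard (f x) Q hne
    have hmem : (x : G) ∈ ((f x : Sylow p G) : Subgroup G) ⊓ (Q : Subgroup G) := ⟨hf x, hx⟩
    rw [hti, Subgroup.mem_bot] at hmem
    exact hne1 x hmem
  have hfib : ∀ Q : Sylow p G, Nat.card {x : {g : G // orderOf g = p} // f x = Q} = p - 1 := by
    intro Q
    have e : {x : {g : G // orderOf g = p} // f x = Q} ≃ {g : ↥(Q : Subgroup G) // g ≠ 1} :=
      { toFun := fun x => ⟨⟨x.1.1, by have h := hf x.1; rw [x.2] at h; exact h⟩,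
          fun h => hne1 x.1 (congrArg Subtype.val h)⟩
        invFun := fun g =>
          ⟨⟨(g.1 : G), hord Q g.1.1 g.1.2 (fun h => g.2 (Subtype.ext h))⟩, hfQ Q _ g.1.2⟩
        left_inv := fun x => rfl
        right_inv := fun g => rfl }
    rw [Nat.card_congr e]
    have : Fintype ↥(Q : Subgroup G) := Fintype.ofFinite _
    rw [Nat.card_eq_fintype_card, Fintype.card_subtype_compl, Fintype.card_subtype_eq,
      Fintype.card_eq_nat_card, hcard Q]
  have : Fintype (Sylow p G) := Fintype.ofFinite _
  rw [Nat.card_congr (Equiv.sigmaFiberEquiv f).symm, Nat.card_sigma]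
  simp only [hfib]
  rw [Finset.sum_const, Finset.card_univ, smul_eq_mul, Nat.card_eq_fintype_card]

/-- The Sylow test: a simple group of order `p ^ k * m` has a number of Sylow `p`-subgroups
`d ≠ 1` dividing `m`, congruent to `1` mod `p`, with `|G|` dividing `d!`. -/
theorem sylow_test [IsSimpleGroup G] (p : ℕ) [hp : Fact p.Prime] (k m : ℕ)
    (hN : Nat.card G = p ^ k * m) (hm : ¬ p ∣ m) (hk : 0 < k) (h1 : 1 < m)
    (htest : ∀ d < m + 1, d ∣ m → d % p = 1 → d ≠ 1 → ¬ (p ^ k * m ∣ d.factorial)) : False := by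
  obtain ⟨P⟩ : Nonempty (Sylow p G) := inferInstance
  have hP := sylow_card_of k m hN hm P
  have hidx := sylow_index_of k m hN hm P
  have hdvd := P.card_dvd_index
  rw [hidx] at hdvd
  have hmod : Nat.card (Sylow p G) % p = 1 := by
    have h := card_sylow_modEq_one p G
    rw [Nat.ModEq, Nat.mod_eq_of_lt hp.out.one_lt] at h
    exact h
  have hpk : 1 < p ^ k := Nat.one_lt_pow hk.ne' hp.out.one_lt
  have h1' : 1 < Nat.card (P : Subgroup G) := by rw [hP]; exact hpk
  have h2' : Nat.card (P : Subgroup G) < Nat.card G := by rw [hP, hN]; nlinarith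
  have hne := card_sylow_ne_one P h1' h2'
  have hle : Nat.card (Sylow p G) < m + 1 :=
    Nat.lt_succ_of_le (Nat.le_of_dvd (by omega) hdvd)
  have hfac := card_dvd_factorial_index _ (normalizer_sylow_ne_top P h1' h2')
  have hidxN : (Subgroup.normalizer ((P : Subgroup G) : Set G)).index = Nat.card (Sylow p G) :=
    (Sylow.card_eq_index_normalizer P).symm
  rw [hidxN, hN] at hfac
  exact htest _ hle hdvd hmod hne hfac

/-- A group of order `p ^ k`, `k ≥ 2`, is not simple. -/
theorem not_simple_pgroup [IsSimpleGroup G] (p : ℕ) [hp : Fact p.Prime] (k : ℕ)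
    (hN : Nat.card G = p ^ k) (hk : 2 ≤ k) : False := by
  have hG : IsPGroup p G := IsPGroup.of_card hN
  have hnt : Nontrivial (Subgroup.center G) := hG.center_nontrivial
  have hc : Subgroup.center G = ⊤ := by
    rcases (Subgroup.Normal.eq_bot_or_eq_top (H := Subgroup.center G) inferInstance) with h | h
    · exfalso
      rw [Subgroup.nontrivial_iff_ne_bot] at hnt
      exact hnt h
    · exact h
  obtain ⟨K, hK⟩ := Sylow.exists_subgroup_card_pow_prime (G := G) p (n := 1)
    (by rw [hN]; exact pow_dvd_pow p (by omega))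
  have hKn : K.Normal := by
    constructor
    intro n hn g
    have hg : g ∈ Subgroup.center G := by rw [hc]; exact Subgroup.mem_top g
    rw [Subgroup.mem_center_iff] at hg
    have h3 : g * n * g⁻¹ = n := by rw [← hg n, mul_assoc, mul_inv_cancel, mul_one]
    rw [h3]; exact hn
  rcases hKn.eq_bot_or_eq_top with h | h
  · rw [h, Subgroup.card_bot, pow_one] at hK; exact hp.out.one_lt.ne hK
  · rw [h, Subgroup.card_top, hN, pow_one] at hK
    have h4 : p ^ 1 < p ^ k := Nat.pow_lt_pow_right hp.out.one_lt (by omega)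
    rw [pow_one] at h4
    omega

end Cfsg.Agent.Lib.Helper13.SylowCount
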